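import Cfsg.Prelude.Def_SporadicCombinatorics

/-!
Monomial automorphisms of a finite linear code.
-/

set_option autoImplicit false

namespace Cfsg.Lib.Spor.Mono

open Cfsg

variable {α F : Type*} [Field F]

theorem monomialMap_comp (σ τ : Equiv.Perm α) (c d : α → Fˣ) (x : α → F) :
    monomialMap σ c (monomialMap τ d x) =
      monomialMap (σ * τ) (fun i => c i * d (σ.symm i)) x := by
  funext i
  simp only [monomialMap, Units.val_mul, mul_assoc]
  rfl

theorem monomialMap_one (x : α → F) : monomialMap (1 : Equiv.Perm α) (fun _ => 1) x = x := by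
  funext i
  simp only [monomialMap, Units.val_one, one_mul]
  rfl

theorem monomialMap_injective (σ : Equiv.Perm α) (c : α → Fˣ) :
    Function.Injective (monomialMap σ c : (α → F) → α → F) := by
  intro x y h
  funext i
  have := congrFun h (σ i)
  simpa [monomialMap] using this

theorem monomialMap_add (σ : Equiv.Perm α) (c : α → Fˣ) (x y : α → F) :
    monomialMap σ c (x + y) = monomialMap σ c x + monomialMap σ c y := by
  funext i
  simp [monomialMap, mul_add]

theorem monomialMap_smul (σ : Equiv.Perm α) (c : α → Fˣ) (a : F) (x : α → F) :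
    monomialMap σ c (a • x) = a • monomialMap σ c x := by
  funext i
  simp [monomialMap, mul_left_comm]

theorem monomialMap_zero (σ : Equiv.Perm α) (c : α → Fˣ) : monomialMap σ c (0 : α → F) = 0 := by
  funext i
  simp [monomialMap]

/-- It is enough to test a spanning set. -/
theorem mapsTo_span {S : Set (α → F)} {C : Submodule F (α → F)} {σ : Equiv.Perm α} {c : α → Fˣ}
    (h : ∀ x ∈ S, monomialMap σ c x ∈ C) : ∀ x ∈ Submodule.span F S, monomialMap σ c x ∈ C := by
  intro x hx
  induction hx using Submodule.span_induction with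
  | mem x hx => exact h x hx
  | zero => rw [monomialMap_zero]; exact C.zero_mem
  | add x y _ _ hx hy => rw [monomialMap_add]; exact C.add_mem hx hy
  | smul a x _ hx => rw [monomialMap_smul]; exact C.smul_mem a hx

theorem surj_of_mapsTo {C : Submodule F (α → F)} [Finite C] {σ : Equiv.Perm α} {c : α → Fˣ}
    (h : ∀ x ∈ C, monomialMap σ c x ∈ C) : ∀ y ∈ C, ∃ x ∈ C, monomialMap σ c x = y := by
  have hfin : (C : Set (α → F)).Finite := Set.toFinite _
  have := (hfin.injOn_iff_bijOn_of_mapsTo (f := monomialMap σ c) h).1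
    (monomialMap_injective σ c).injOn
  exact fun y hy => this.surjOn hy

/-- The permutation parts of the monomial automorphisms of `C`. -/
def permPart (C : Submodule F (α → F)) [Finite C] : Subgroup (Equiv.Perm α) where
  carrier := {σ | ∃ c : α → Fˣ, ∀ x ∈ C, monomialMap σ c x ∈ C}
  one_mem' := ⟨fun _ => 1, fun x hx => by rwa [monomialMap_one]⟩
  mul_mem' := by
    rintro σ τ ⟨c, hc⟩ ⟨d, hd⟩
    exact ⟨_, fun x hx => by rw [← monomialMap_comp]; exact hc _ (hd x hx)⟩
  inv_mem' := by
    rintro σ ⟨c, hc⟩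
    refine ⟨fun i => (c (σ i))⁻¹, fun y hy => ?_⟩
    obtain ⟨x, hx, rfl⟩ := surj_of_mapsTo hc y hy
    convert hx using 1
    funext i
    simp [monomialMap, Equiv.Perm.inv_def]

theorem mem_permPart {C : Submodule F (α → F)} [Finite C] {σ : Equiv.Perm α} :
    σ ∈ permPart C ↔ ∃ c : α → Fˣ, ∀ x ∈ C, monomialMap σ c x ∈ C := Iff.rfl

theorem card_monomial (C : Submodule F (α → F)) [Finite C] :
    Nat.card {f : Equiv.Perm α × (α → Fˣ) // ∀ x ∈ C, monomialMap f.1 f.2 x ∈ C} =
      Nat.card (permPart C) * Nat.card {c : α → Fˣ // ∀ x ∈ C, monomialMap 1 c x ∈ C} := by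
  rw [← Nat.card_prod]
  symm
  have hch : ∀ σ : permPart C, ∃ c : α → Fˣ, ∀ x ∈ C, monomialMap (σ : Equiv.Perm α) c x ∈ C :=
    fun σ => σ.2
  choose c₀ hc₀ using hch
  have key : ∀ (σ : permPart C) (d : α → Fˣ) (x : α → F),
      monomialMap 1 d (monomialMap (σ : Equiv.Perm α) (c₀ σ) x) =
        monomialMap (σ : Equiv.Perm α) (d * c₀ σ) x := by
    intro σ d x
    rw [monomialMap_comp, one_mul]
    rfl
  apply Nat.card_eq_of_bijective (fun p => ⟨(p.1, p.2.1 * c₀ p.1), fun x hx => by
    rw [← key]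
    exact p.2.2 _ (hc₀ p.1 x hx)⟩)
  constructor
  · rintro ⟨σ, d, hd⟩ ⟨τ, e, he⟩ h
    simp only [Subtype.mk.injEq, Prod.mk.injEq] at h
    obtain rfl : σ = τ := Subtype.ext h.1
    have := mul_right_cancel h.2
    subst this
    rfl
  · rintro ⟨⟨σ, c⟩, h⟩
    let s : permPart C := ⟨σ, c, h⟩
    refine ⟨⟨s, c * (c₀ s)⁻¹, fun y hy => ?_⟩, ?_⟩
    · obtain ⟨x, hx, rfl⟩ := surj_of_mapsTo (hc₀ s) y hy
      rw [key, inv_mul_cancel_right]
      exact h x hx
    · simp [s]

end Cfsg.Lib.Spor.Mono
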