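import Cfsg.Agent.Spor.GF4
import Cfsg.Agent.Spor.Monomial

/-!
The hexacode over `GF4`, its parity checks, and transport to any field of order four.
-/

set_option autoImplicit false

namespace Cfsg.Lib.Spor.Hexa

open Cfsg Cfsg.Lib.Spor.GF4 Cfsg.Lib.Spor.Mono

theorem mem_hexacode_iff_exists {F : Type*} [Field F] {ω : F} {x : Fin 6 → F} :
    x ∈ hexacode F ω ↔ ∃ a b c : F, ∀ i, a * ![ω, ω ^ 2, ω ^ 2, ω, ω ^ 2, ω] i +
      b * ![ω ^ 2, ω, ω, ω ^ 2, ω ^ 2, ω] i + c * ![ω ^ 2, ω, ω ^ 2, ω, ω, ω ^ 2] i = x i := by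
  rw [hexacode, Submodule.mem_span_triple]
  simp only [funext_iff, Pi.add_apply, Pi.smul_apply, smul_eq_mul]

/-- The word of the hexacode over `GF4` with first three entries `a, b, c`. -/
def henc (a b c : GF4) : Fin 6 → GF4 :=
  ![a, b, c, a + b + c, (w + 1) * a + w * b + c, w * a + (w + 1) * b + c]

theorem mem_iff {x : Fin 6 → GF4} : x ∈ hexacode GF4 w ↔
    x 3 = x 0 + x 1 + x 2 ∧ x 4 = (w + 1) * x 0 + w * x 1 + x 2 ∧
      x 5 = w * x 0 + (w + 1) * x 1 + x 2 := by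
  rw [mem_hexacode_iff_exists]
  have h2 : w ^ 2 = w + 1 := by decide
  rw [h2]
  constructor
  · rintro ⟨a, b, c, h⟩
    rw [← h 0, ← h 1, ← h 2, ← h 3, ← h 4, ← h 5]
    clear h
    revert a b c
    decide +kernel
  · rintro ⟨h3, h4, h5⟩
    have key : ∀ a b c : GF4, ∃ a' b' c' : GF4, ∀ i, a' * ![w, w + 1, w + 1, w, w + 1, w] i +
      b' * ![w + 1, w, w, w + 1, w + 1, w] i + c' * ![w + 1, w, w + 1, w, w, w + 1] i =
        henc a b c i := by
      intro a b c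
      refine ⟨w * a + (w + 1) * b, (w + 1) * a + (w + 1) * b + c, b + c, ?_⟩
      revert a b c
      decide +kernel
    obtain ⟨a, b, c, h⟩ := key (x 0) (x 1) (x 2)
    refine ⟨a, b, c, fun i => (h i).trans ?_⟩
    fin_cases i
    exacts [rfl, rfl, rfl, h3.symm, h4.symm, h5.symm]

instance decMemHexa (x : Fin 6 → GF4) : Decidable (x ∈ hexacode GF4 w) :=
  decidable_of_iff _ mem_iff.symm

theorem henc_mem (a b c : GF4) : henc a b c ∈ hexacode GF4 w := mem_iff.2 ⟨rfl, rfl, rfl⟩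

theorem eq_henc {x : Fin 6 → GF4} (hx : x ∈ hexacode GF4 w) : x = henc (x 0) (x 1) (x 2) := by
  obtain ⟨h3, h4, h5⟩ := mem_iff.1 hx
  funext i
  fin_cases i
  exacts [rfl, rfl, rfl, h3, h4, h5]

theorem ncard_filter (P : (Fin 6 → GF4) → Prop) [DecidablePred P] :
    {x | x ∈ hexacode GF4 w ∧ P x}.ncard =
      (Finset.univ.filter fun k : GF4 × GF4 × GF4 => P (henc k.1 k.2.1 k.2.2)).card := by
  rw [← Set.ncard_coe_finset]
  symm
  apply Set.ncard_congr (fun k _ => henc k.1 k.2.1 k.2.2)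
  · intro k hk
    exact ⟨henc_mem _ _ _, (Finset.mem_filter.1 hk).2⟩
  · rintro ⟨a, b, c⟩ ⟨a', b', c'⟩ - - h
    have h0 : a = a' := congrFun h 0
    have h1 : b = b' := congrFun h 1
    have h2 : c = c' := congrFun h 2
    rw [h0, h1, h2]
  · rintro x ⟨hx, hP⟩
    have := eq_henc hx
    refine ⟨(x 0, x 1, x 2), ?_, this.symm⟩
    rw [Finset.mem_coe, Finset.mem_filter]
    exact ⟨Finset.mem_univ _, by rwa [this] at hP⟩

/-- A monomial map preserves the code when it maps the systematic basis into it. -/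
theorem mapsTo_iff {σ : Equiv.Perm (Fin 6)} {c : Fin 6 → GF4ˣ} :
    (∀ x ∈ hexacode GF4 w, monomialMap σ c x ∈ hexacode GF4 w) ↔
      monomialMap σ c (henc 1 0 0) ∈ hexacode GF4 w ∧ monomialMap σ c (henc 0 1 0) ∈ hexacode GF4 w ∧
        monomialMap σ c (henc 0 0 1) ∈ hexacode GF4 w := by
  refine ⟨fun h => ⟨h _ (henc_mem _ _ _), h _ (henc_mem _ _ _), h _ (henc_mem _ _ _)⟩, ?_⟩
  rintro ⟨h1, h2, h3⟩ x hx
  have e : ∀ a b c : GF4, henc a b c = a • henc 1 0 0 + b • henc 0 1 0 + c • henc 0 0 1 := by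
    decide +kernel
  rw [eq_henc hx, e, monomialMap_add, monomialMap_add, monomialMap_smul, monomialMap_smul,
    monomialMap_smul]
  exact add_mem (add_mem (Submodule.smul_mem _ _ h1) (Submodule.smul_mem _ _ h2))
    (Submodule.smul_mem _ _ h3)

section transport

variable {F : Type*} [Field F] (e : GF4 ≃+* F) {ω : F} (he : e w = ω)
include he

theorem comp_mem_iff (x : Fin 6 → GF4) : (fun i => e (x i)) ∈ hexacode F ω ↔ x ∈ hexacode GF4 w := by
  rw [mem_hexacode_iff_exists, mem_hexacode_iff_exists]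
  have h1 : ∀ i, ![ω, ω ^ 2, ω ^ 2, ω, ω ^ 2, ω] i = e (![w, w ^ 2, w ^ 2, w, w ^ 2, w] i) := by
    intro i; fin_cases i <;> simp [← he]
  have h2 : ∀ i, ![ω ^ 2, ω, ω, ω ^ 2, ω ^ 2, ω] i = e (![w ^ 2, w, w, w ^ 2, w ^ 2, w] i) := by
    intro i; fin_cases i <;> simp [← he]
  have h3 : ∀ i, ![ω ^ 2, ω, ω ^ 2, ω, ω, ω ^ 2] i = e (![w ^ 2, w, w ^ 2, w, w, w ^ 2] i) := by
    intro i; fin_cases i <;> simp [← he]
  simp only [h1, h2, h3]
  constructor
  · rintro ⟨a, b, c, h⟩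
    refine ⟨e.symm a, e.symm b, e.symm c, fun i => e.injective ?_⟩
    rw [← h i]
    simp
  · rintro ⟨a, b, c, h⟩
    refine ⟨e a, e b, e c, fun i => ?_⟩
    rw [← h i]
    simp

theorem mapsTo_transport (σ : Equiv.Perm (Fin 6)) (c : Fin 6 → GF4ˣ) :
    (∀ x ∈ hexacode F ω, monomialMap σ (fun i => Units.map (e : GF4 →* F) (c i)) x ∈ hexacode F ω) ↔
      ∀ x ∈ hexacode GF4 w, monomialMap σ c x ∈ hexacode GF4 w := by
  have key : ∀ x : Fin 6 → GF4, monomialMap σ (fun i => Units.map (e : GF4 →* F) (c i))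
      (fun i => e (x i)) = fun i => e (monomialMap σ c x i) := by
    intro x
    funext i
    simp [monomialMap]
  constructor
  · intro h x hx
    rw [← comp_mem_iff e he, ← key]
    exact h _ ((comp_mem_iff e he x).2 hx)
  · intro h y hy
    have hy' : y = fun i => e (e.symm (y i)) := by simp
    rw [hy'] at hy ⊢
    rw [key, comp_mem_iff e he]
    exact h _ ((comp_mem_iff e he _).1 hy)

omit he in
theorem exists_units (c : Fin 6 → Fˣ) :
    ∃ d : Fin 6 → GF4ˣ, c = fun i => Units.map (e : GF4 →* F) (d i) :=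
  ⟨fun i => Units.map (e.symm : F →* GF4) (c i), by
    funext i
    ext
    simp⟩

theorem ncard_transport (P : (Fin 6 → F) → Prop) (Q : (Fin 6 → GF4) → Prop)
    (h : ∀ x, P (fun i => e (x i)) ↔ Q x) :
    {x | x ∈ hexacode F ω ∧ P x}.ncard = {x | x ∈ hexacode GF4 w ∧ Q x}.ncard := by
  symm
  apply Set.ncard_congr (fun x _ => fun i => e (x i))
  · rintro x ⟨h1, h2⟩
    exact ⟨(comp_mem_iff e he x).2 h1, (h x).2 h2⟩
  · intro x y _ _ hxy
    funext i
    exact e.injective (congrFun hxy i)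
  · rintro y ⟨h1, h2⟩
    have hy' : y = fun i => e (e.symm (y i)) := by simp
    rw [hy'] at h1 h2
    exact ⟨_, ⟨(comp_mem_iff e he _).1 h1, (h _).1 h2⟩, hy'.symm⟩

end transport

end Cfsg.Lib.Spor.Hexa
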