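/-
Classes of involutions whose products have order `1`, `2` or a fixed odd prime `p`: basic lemmas.
-/
import Cfsg.Agent.Spor.TTCore
import Cfsg.Agent.S5560

set_option autoImplicit false

namespace Cfsg.Lib.Spor

open Subgroup

variable {G : Type*} [Group G] {p : ℕ} {D : Set G}

theorem comm_of_comm_pow (hp : p.Prime) {g h : G} (hh : h ^ p = 1) {k : ℕ} (hk : ¬ p ∣ k)
    (c : Commute g (h ^ k)) : Commute g h := by
  obtain ⟨m, hm⟩ := exists_pow_eq_self_of_coprime (x := h) (n := k)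
    (Nat.Coprime.coprime_dvd_right (orderOf_dvd_of_pow_eq_one hh) ((hp.coprime_iff_not_dvd.2 hk).symm))
  exact hm ▸ c.pow_right m

theorem orbit_surj (hp : p.Prime) {u a : G} (hu : u ^ p = 1) (ha : ¬ Commute a u) {S : Set G}
    (hS : S.ncard = p) (h : ∀ i : ℕ, u ^ i * a * (u ^ i)⁻¹ ∈ S) {e : G} (he : e ∈ S) :
    ∃ i : ℕ, u ^ i * a * (u ^ i)⁻¹ = e := by
  have key : ∀ i j, i < j → j < p → u ^ i * a * (u ^ i)⁻¹ ≠ u ^ j * a * (u ^ j)⁻¹ := fun i j h1 h2 e => by
    obtain ⟨k, rfl⟩ := Nat.exists_eq_add_of_lt h1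
    refine ha (comm_of_comm_pow hp hu (k := k + 1) (Nat.not_dvd_of_pos_of_lt (by omega) (by omega)) ?_)
    rw [add_assoc, pow_add] at e
    calc a * u ^ (k + 1) = (u ^ i)⁻¹ * (u ^ i * a * (u ^ i)⁻¹) * u ^ i * u ^ (k + 1) := by group
      _ = _ := by rw [e]; group
  have hi : Set.InjOn (fun i : ℕ => u ^ i * a * (u ^ i)⁻¹) (Set.Iio p) := fun i hi j hj e => by
    rcases lt_trichotomy i j with k | k | k
    exacts [absurd e (key i j k hj), k, absurd e.symm (key j i k hi)]
  have := Set.eq_of_subset_of_ncard_le (s := (fun i : ℕ => u ^ i * a * (u ^ i)⁻¹) '' Set.Iio p) (t := S)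
    (by rintro _ ⟨i, -, rfl⟩; exact h i) (by rw [hi.ncard_image, hS]; simp)
    (Set.finite_of_ncard_ne_zero (hS ▸ hp.ne_zero))
  obtain ⟨i, -, hi⟩ := this.ge he
  exact ⟨i, hi⟩

theorem card_modEq_fixed (hp : p.Prime) {α : Type*} [Finite α] {f : α → α} (hf : ∀ x, f^[p] x = x) :
    Nat.card α ≡ {x | f x = x}.ncard [MOD p] := by
  classical
  have := Fact.mk hp
  have := Fintype.ofFinite α
  have := Equiv.Perm.card_fixedPoints_modEq (f := (f : Function.End α)) (p := p) (n := 1)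
    (by rw [pow_one]; exact funext hf)
  rwa [← Nat.card_eq_fintype_card, ← Nat.card_eq_fintype_card] at this

theorem iterate_conj {α : Type*} {f : α → α} {φ : α → G} {v : G} (h : ∀ x, φ (f x) = v * φ x * v⁻¹)
    (n : ℕ) (x : α) : φ (f^[n] x) = v ^ n * φ x * (v ^ n)⁻¹ := by
  induction n with
  | zero => simp
  | succ n ih => rw [Function.iterate_succ_apply', h, ih]; group

theorem fix_all (hp : p.Prime) {v : G} (hv : v ^ p = 1) {S : Set G} (hS : S.ncard = p)
    (h : ∀ e ∈ S, v * e * v⁻¹ ∈ S) {a : G} (ha : a ∈ S) (hc : Commute v a) {e : G} (he : e ∈ S) :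
    Commute v e := by
  have : Finite S := Set.finite_of_ncard_ne_zero (hS ▸ hp.ne_zero)
  have h1 := card_modEq_fixed hp (α := S) (f := fun e => ⟨_, h e e.2⟩) fun x => Subtype.ext (by
    rw [iterate_conj (φ := Subtype.val) (v := v) (fun _ => rfl), hv]; simp)
  rw [Nat.card_coe_set_eq, hS] at h1
  generalize hT : {x : S | (⟨_, h x x.2⟩ : S) = x} = T at h1
  have h2 : T.ncard ≠ 0 := Set.ncard_ne_zero_of_mem (a := ⟨a, ha⟩)
    (hT ▸ Subtype.ext (by simp [hc.eq]))
  have h3 : T = Set.univ := Set.eq_of_subset_of_ncard_le (Set.subset_univ _) (by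
    rw [Set.ncard_univ, Nat.card_coe_set_eq, hS]
    exact Nat.le_of_dvd (Nat.pos_of_ne_zero h2) ((Nat.modEq_zero_iff_dvd).1
      (h1.symm.trans (Nat.modEq_zero_iff_dvd.2 dvd_rfl))))
  have := (hT.trans h3).ge (Set.mem_univ (⟨e, he⟩ : S))
  exact mul_inv_eq_iff_eq_mul.1 (congrArg Subtype.val this)

theorem eq_one_of_two_pow_eq (hp : p.Prime) (h2 : p ≠ 2) {k a : ℕ} (hk : k ≠ 0) (h : p ^ k + 1 = 2 ^ a) :
    k = 1 := by
  obtain ⟨q, hq⟩ := hp.odd_of_ne_two h2
  rcases Nat.even_or_odd' k with ⟨k, rfl | rfl⟩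
  · have h1 : p ^ (2 * k) % 4 = 1 := by
      rw [pow_mul, Nat.pow_mod, show p ^ 2 % 4 = 1 by rw [hq]; ring_nf; omega]; simp
    have h3 : 1 < p ^ (2 * k) := Nat.one_lt_pow hk hp.one_lt
    match a with
    | 0 => omega
    | 1 => omega
    | a + 2 => rw [pow_add] at h; omega
  obtain ⟨j, -, hj⟩ := (Nat.dvd_prime_pow Nat.prime_two).1
    (show p + 1 ∣ 2 ^ a by simpa [h] using Odd.nat_add_dvd_pow_add_pow p 1 (odd_two_mul_add_one k))
  have h1 : p ^ 2 ≡ 1 [MOD 2 * (p + 1)] := by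
    refine ((Nat.modEq_iff_dvd' (Nat.one_le_pow _ _ hp.pos)).2 ⟨q, ?_⟩).symm
    rw [hq]; apply Nat.sub_eq_of_eq_add; ring
  have h3 : p ^ (2 * k + 1) + 1 ≡ p + 1 [MOD 2 * (p + 1)] := by
    have := ((h1.pow k).mul_right p).add_right 1
    rwa [one_pow, one_mul, ← pow_mul, ← pow_succ] at this
  have h4 : a ≤ j := by
    by_contra k
    rw [h, hj, ← pow_succ'] at h3
    have := (Nat.modEq_zero_iff_dvd.1 (h3.symm.trans (Nat.modEq_zero_iff_dvd.2 (pow_dvd_pow 2 (by omega)))))
    have := (Nat.pow_dvd_pow_iff_le_right one_lt_two).1 this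
    omega
  have h5 : p ^ (2 * k + 1) ≤ p ^ 1 := by
    have := Nat.pow_le_pow_right two_pos h4
    rw [pow_one]; omega
  have := (Nat.pow_le_pow_iff_right hp.one_lt).1 h5
  omega

theorem line_mem_of (sq : ∀ d ∈ D, d * d = 1) (conj : ∀ d ∈ D, ∀ e ∈ D, d * e * d ∈ D) {x y : G} (hx : x ∈ D)
    (hy : y ∈ D) (k : ℕ) : (y * x) ^ k * x ∈ D := by
  induction k using Nat.twoStepInduction with
  | zero => simpa
  | one => simpa [mul_assoc, sq x hx]
  | more k ih _ =>
    have := conj y hy _ (conj x hx _ ih)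
    convert this using 1
    rw [pow_succ, pow_succ']
    simp [mul_assoc, sq x hx]

/-- a closed set of involutions whose non-commuting pairs have products of order `p` -/
structure PT (p : ℕ) (D : Set G) : Prop where
  prime : p.Prime
  odd : p ≠ 2
  sq : ∀ d ∈ D, d * d = 1
  conj : ∀ d ∈ D, ∀ e ∈ D, d * e * d ∈ D
  pow : ∀ d ∈ D, ∀ e ∈ D, ¬ Commute d e → (d * e) ^ p = 1

/-- three commuting members whose product commutes with a member joined to all of them -/
structure Beta (D : Set G) (x x' d y : G) : Prop where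
  mx : x ∈ D
  mx' : x' ∈ D
  md : d ∈ D
  my : y ∈ D
  c1 : Commute x x'
  c2 : Commute x d
  c3 : Commute x' d
  n1 : ¬ Commute y x
  n2 : ¬ Commute y x'
  n3 : ¬ Commute y d
  c : Commute (x * x' * d) y

namespace PT

variable (h : PT p D)
include h

theorem not_dvd_two : ¬ p ∣ 2 := fun k => h.odd ((Nat.prime_dvd_prime_iff_eq h.prime Nat.prime_two).1 k)

theorem inv {d : G} (hd : d ∈ D) : d⁻¹ = d := inv_eq_of_mul_eq_one_right (h.sq d hd)

theorem cancel {d : G} (hd : d ∈ D) (x : G) : d * (d * x) = x := by rw [← mul_assoc, h.sq d hd, one_mul]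

theorem comm_iff {d : G} (hd : d ∈ D) {x : G} : d * x * d = x ↔ Commute d x := by
  constructor
  · intro e
    calc d * x = d * x * d * d := by rw [mul_assoc, h.sq d hd, mul_one]
      _ = x * d := by rw [e]
  · intro e
    rw [e.eq, mul_assoc, h.sq d hd, mul_one]

theorem comm_of_sq {g a : G} (ha : a ^ p = 1) (c : Commute g (a * a)) : Commute g a :=
  comm_of_comm_pow h.prime ha h.not_dvd_two (by rwa [pow_two])

theorem eq_of_sq {a b : G} (ha : a ^ p = 1) (hb : b ^ p = 1) (e : a * a = b * b) : a = b := by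
  obtain ⟨k, hk⟩ := h.prime.odd_of_ne_two h.odd
  have : ∀ {a : G}, a ^ p = 1 → (a * a) ^ (k + 1) = a := fun {a} ha => by
    rw [← pow_two, ← pow_mul, show 2 * (k + 1) = p + 1 by omega, pow_succ, ha, one_mul]
  rw [← this ha, e, this hb]

theorem uniq {d e x : G} (hd : d ∈ D) (he : e ∈ D) (hx : x ∈ D) (k : d * x * d = e * x * e)
    (n : ¬ Commute d x) : d = e := by
  have n' : ¬ Commute e x := fun c => n ((h.comm_iff hd).1 (k.trans ((h.comm_iff he).2 c)))
  exact mul_right_cancel (h.eq_of_sq (h.pow d hd x hx n) (h.pow e he x hx n') (by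
    rw [← mul_assoc, ← mul_assoc, k]))

theorem comm_of_conj {d x c : G} (hd : d ∈ D) (hx : x ∈ D) (n : ¬ Commute d x) (c1 : Commute c x)
    (c2 : Commute c (d * x * d)) : Commute c d := by
  have := (h.comm_of_sq (h.pow d hd x hx n) (by rw [← mul_assoc]; exact c2.mul_right c1)).mul_right c1
  rwa [mul_assoc, h.sq x hx, mul_one] at this

theorem ncomm_conj {d x : G} (hd : d ∈ D) (hx : x ∈ D) (n : ¬ Commute d x) : ¬ Commute x (d * x * d) :=
  fun c => n (h.comm_of_conj hd hx n (Commute.refl x) c).symm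

theorem of_comm_mul {d e x : G} (hd : d ∈ D) (he : e ∈ D) (hx : x ∈ D) (c : Commute (d * e) x) :
    d = e ∨ (Commute d x ∧ Commute e x) := by
  have k : d * x * d = e * x * e := by
    calc d * x * d = d * (x * (d * e)) * e := by simp [mul_assoc, h.sq e he]
      _ = _ := by rw [← c.eq]; simp [mul_assoc, h.cancel hd]
  by_cases n : Commute d x
  · exact Or.inr ⟨n, (h.comm_iff he).1 (k ▸ (h.comm_iff hd).2 n)⟩
  · exact Or.inl (h.uniq hd he hx k n)

theorem line_mem {x y : G} (hx : x ∈ D) (hy : y ∈ D) (k : ℕ) : (y * x) ^ k * x ∈ D :=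
  line_mem_of h.sq h.conj hx hy k

theorem exists_mid {x y : G} (hx : x ∈ D) (hy : y ∈ D) (n : ¬ Commute x y) :
    ∃ m ∈ D, m * x * m = y ∧ ¬ Commute m x := by
  obtain ⟨k, hk⟩ := h.prime.odd_of_ne_two h.odd
  have : (y * x) ^ (k + 1) * x * x * ((y * x) ^ (k + 1) * x) = y := by
    rw [mul_assoc _ x x, h.sq x hx, mul_one, ← mul_assoc, ← pow_add, show k + 1 + (k + 1) = p + 1 by omega,
      pow_succ, h.pow y hy x hx (mt Commute.symm n), one_mul, mul_assoc, h.sq x hx, mul_one]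
  have m := h.line_mem hx hy (k + 1)
  exact ⟨_, m, this, fun c => n (by rw [← this, (h.comm_iff m).2 c])⟩

theorem conj_conj {m : G} (hm : m ∈ D) (x : G) : m * (m * x * m) * m = x := by
  simp [mul_assoc, h.cancel hm, h.sq m hm]

theorem comm_conj {m : G} (hm : m ∈ D) {x y : G} (c : Commute x y) : Commute (m * x * m) (m * y * m) := by
  have := c.conj m
  rwa [h.inv hm] at this

theorem exists_beta {x x' y : G} (hx : x ∈ D) (hx' : x' ∈ D) (hy : y ∈ D) (c : Commute x x') (hne : x ≠ x')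
    (n1 : ¬ Commute y x) (n2 : ¬ Commute y x') (n : ¬ Commute y (x * (x' * y * x') * x)) :
    ∃ d, Beta D x x' d y := by
  obtain ⟨m, hm, e, nm⟩ := h.exists_mid hy (h.conj x hx _ (h.conj x' hx' y hy)) n
  have sw : ∀ g, x' * (x * g) = x * (x' * g) := fun g => by rw [← mul_assoc, ← c.eq, mul_assoc]
  have e1 : ∀ g, x * (x' * (x * (x' * g * x') * x) * x') * x = g := fun g => by
    simp only [mul_assoc, sw, h.cancel hx, h.cancel hx', h.sq x hx, mul_one, ← c.eq, h.sq x' hx']
  have e2 : m = x * (x' * m * x') * x := by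
    refine h.uniq hm (h.conj x hx _ (h.conj x' hx' m hm)) hy ?_ nm
    calc m * y * m = x * (x' * (m * (m * y * m) * m) * x') * x := by rw [h.conj_conj hm, e]
      _ = _ := by rw [e]; simp only [mul_assoc, ← c.eq]
  have c1 : Commute (x * x') m := by
    calc x * x' * m = x * (x' * m * x') * x * (x * x') := by
          simp only [mul_assoc, h.cancel hx, h.sq x' hx', mul_one]
      _ = _ := by rw [← e2]
  obtain ⟨c2, c3⟩ := (h.of_comm_mul hx hx' hm c1).resolve_left hne
  refine ⟨m, hx, hx', hm, hy, c, c2, c3, n1, n2, mt Commute.symm nm, ?_⟩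
  calc x * x' * m * y = x * (x' * (m * y * m) * x') * x * (x * x' * m) := by
        simp only [mul_assoc, h.cancel hx, h.cancel hx', h.sq m hm, mul_one]
    _ = _ := by rw [e, e1]

theorem image {G' : Type*} [Group G'] (f : G →* G') : PT p (f '' D) where
  prime := h.prime
  odd := h.odd
  sq := by rintro _ ⟨d, hd, rfl⟩; rw [← map_mul, h.sq d hd, map_one]
  conj := by rintro _ ⟨d, hd, rfl⟩ _ ⟨e, he, rfl⟩; exact ⟨_, h.conj d hd e he, by simp⟩
  pow := by
    rintro _ ⟨d, hd, rfl⟩ _ ⟨e, he, rfl⟩ n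
    rw [← map_mul, ← map_pow, h.pow d hd e he fun c => n (c.map f), map_one]

theorem preimage {G' : Type*} [Group G'] (f : G' →* G) (hf : Function.Injective f) : PT p (f ⁻¹' D) where
  prime := h.prime
  odd := h.odd
  sq d hd := hf (by rw [map_mul, h.sq _ hd, map_one])
  conj d hd e he := by simpa using h.conj _ hd _ he
  pow d hd e he n := hf (by rw [map_pow, map_mul, h.pow _ hd _ he fun c => n (c.of_map hf), map_one])

theorem mem_pCore [Finite G] (hinv : ∀ g : G, ∀ d ∈ D, g * d * g⁻¹ ∈ D)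
    (tr : ∀ a ∈ D, ∀ b ∈ D, ∀ c ∈ D, Commute a b → Commute b c → Commute a c) {a b : G} (ha : a ∈ D)
    (hb : b ∈ D) (c : Commute a b) (k : ∀ y ∈ D, Commute y (a * (b * y * b) * a)) : a * b ∈ pCore 2 G := by
  let N : Subgroup G :=
    { carrier := {g | ∀ y ∈ D, Commute y (g * y * g⁻¹)}
      one_mem' := fun y _ => by simp
      mul_mem' := fun {g g'} h1 h2 y hy => tr _ hy _ (hinv g y hy) _ (hinv _ y hy) (h1 y hy)
        (by simpa [mul_assoc] using (h2 y hy).conj g)
      inv_mem' := fun {g} h1 y hy => by simpa [mul_assoc] using (h1 _ (hinv g⁻¹ y hy)).symm }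
  have : N.Normal := ⟨fun n hn g y hy => by simpa [mul_assoc] using (hn _ (hinv g⁻¹ y hy)).conj g⟩
  have hA : IsPGroup 2 (closure {e | e ∈ D ∧ Commute a e}) := isPGroup_closure_of_commute
    (fun e he => by rw [pow_two, h.sq e he.1]) fun e he f hf => tr _ he.1 _ ha _ hf.1 he.2.symm hf.2
  have hN : ((closure {e | e ∈ D ∧ Commute a e}).subgroupOf N).Normal := ⟨fun n hn g => by
    rw [mem_subgroupOf] at hn ⊢
    simp only [coe_mul, coe_inv]
    generalize (n : G) = n at hn
    induction hn using closure_induction with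
    | mem x hx => exact subset_closure ⟨hinv _ _ hx.1, tr _ ha _ hx.1 _ (hinv _ _ hx.1) hx.2 (g.2 x hx.1)⟩
    | one => simp
    | mul x y _ _ h1 h2 => simpa [mul_assoc] using mul_mem h1 h2
    | inv x _ h => simpa [mul_assoc] using inv_mem h⟩
  refine Solv.map_pCore_le_of_normal N ⟨⟨a * b, fun y hy => ?_⟩, Solv.le_pCore hN (hA.comap_of_injective _
    N.subtype_injective) ?_, rfl⟩
  · simpa only [mul_inv_rev, h.inv ha, h.inv hb, mul_assoc] using k y hy
  · rw [mem_subgroupOf]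
    exact mul_mem (subset_closure ⟨ha, Commute.refl a⟩) (subset_closure ⟨hb, c⟩)

end PT

end Cfsg.Lib.Spor
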