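/-
Classes of `p`-transpositions with `p ≥ 5`: no configuration of type beta.
-/
import Cfsg.Agent.Spor.PT
import Cfsg.Agent.Spor.ThmA

set_option autoImplicit false

namespace Cfsg.Lib.Spor

open Subgroup

universe u

variable {G : Type u} [Group G] {p : ℕ} {D : Set G}

/-- the properties of a minimal group with a configuration of type beta -/
structure PTMin (p : ℕ) (D : Set G) : Prop extends PT p D where
  three : p ≠ 3
  cls : ∀ a ∈ D, ∀ b ∈ D, ∃ g : G, g * a * g⁻¹ = b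
  inv' : ∀ g : G, ∀ d ∈ D, g * d * g⁻¹ ∈ D
  gen : ∀ x x' d y, Beta D x x' d y → ∀ v, Commute v x → Commute v x' → Commute v d → Commute v y → v = 1
  o2 : pCore 2 G = ⊥
  ex : ∃ x x' d y, Beta D x x' d y

/-- the members commuting with `a` -/
def blkc (D : Set G) (a : G) : Set G := {c | c ∈ D ∧ Commute a c}

/-- the members moving `a` into the block of `b` -/
def swp (D : Set G) (a b : G) : Set G := {m | m ∈ D ∧ Commute b (m * a * m)}

theorem PT.semi (h : PT p D) {e m : G} (he : e ∈ D) (hm : m ∈ D) (k : ℕ) :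
    m * ((e * m) ^ k)⁻¹ = (e * m) ^ k * m := by
  rw [← inv_pow]
  refine (SemiconjBy.pow_right (show m * (e * m)⁻¹ = e * m * m from ?_) k).eq
  rw [mul_inv_rev, h.inv he, h.inv hm, h.cancel hm, mul_assoc, h.sq m hm, mul_one]

namespace PTMin

variable (h : PTMin p D)
include h

theorem beta_eq {x x' d y : G} (k : Beta D x x' d y) : x * x' * d = 1 :=
  h.gen _ _ _ _ k _ (((Commute.refl x).mul_left k.c1.symm).mul_left k.c2.symm)
    ((k.c1.mul_left (Commute.refl x')).mul_left k.c3.symm)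
    ((k.c2.mul_left k.c3).mul_left (Commute.refl d)) k.c

theorem beta_mul {x x' d y : G} (k : Beta D x x' d y) : x * x' ∈ D := by
  rw [eq_inv_of_mul_eq_one_left (h.beta_eq k), h.inv k.md]
  exact k.md

theorem ne_one {a : G} (ha : a ∈ D) : a ≠ 1 := by
  rintro rfl
  obtain ⟨x, x', d, y, k⟩ := h.ex
  obtain ⟨g, hg⟩ := h.cls 1 ha x k.mx
  exact k.n1 (by simp [← hg])

theorem exists_tri {a : G} (ha : a ∈ D) : ∃ a' ∈ D, Commute a a' ∧ a * a' ∈ D := by
  obtain ⟨x, x', d, y, k⟩ := h.ex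
  obtain ⟨g, rfl⟩ := h.cls x k.mx a ha
  exact ⟨_, h.inv' g _ k.mx', k.c1.conj g, by simpa [mul_assoc] using h.inv' g _ (h.beta_mul k)⟩

theorem exists_ncomm {a : G} (ha : a ∈ D) : ∃ b ∈ D, ¬ Commute a b := by
  obtain ⟨x, x', d, y, k⟩ := h.ex
  obtain ⟨g, rfl⟩ := h.cls y k.my a ha
  exact ⟨_, h.inv' g _ k.mx, fun c => k.n1 (by simpa [mul_assoc] using c.conj g⁻¹)⟩

theorem beta_of {x x' y : G} (hx : x ∈ D) (hx' : x' ∈ D) (c : Commute x x') (hm : x * x' ∈ D) (hy : y ∈ D)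
    (n : ¬ Commute y x) : Beta D x x' (x * x') y := by
  refine ⟨hx, hx', hm, hy, c, (Commute.refl x).mul_right c, c.symm.mul_right (Commute.refl x'), n,
    fun k => ?_, fun k => ?_, by rw [h.sq _ hm]; exact Commute.one_left y⟩
  · rcases h.of_comm_mul hx hm hy (by rw [h.cancel hx]; exact k.symm) with e | e
    · exact h.ne_one hx' (by simpa using e)
    · exact n e.1.symm
  · rcases h.of_comm_mul hx hx' hy k.symm with e | e
    · exact h.ne_one hm (by rw [← e, h.sq x hx])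
    · exact n e.1.symm

theorem trans (a : G) (ha : a ∈ D) (b : G) (hb : b ∈ D) (c : G) (hc : c ∈ D) (h1 : Commute a b)
    (h2 : Commute b c) : Commute a c := by
  by_contra n
  obtain ⟨a', ha', c1, hm⟩ := h.exists_tri ha
  have c2 : Commute b a' := by
    by_contra k
    exact (h.beta_of ha' ha c1.symm (c1.eq ▸ hm) hb k).n2 h1.symm
  exact h.ne_one hb (h.gen _ _ _ _ (h.beta_of ha ha' c1 hm hc (mt Commute.symm n)) b h1.symm c2
    (h1.symm.mul_right c2) h2)

theorem comm_of_conj' {e a : G} (he : e ∈ D) (ha : a ∈ D) (c : Commute a (e * a * e)) : Commute e a :=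
  by_contra fun n => h.ncomm_conj he ha n c

theorem swp_ncomm {a b m : G} (n : ¬ Commute a b) (hm : m ∈ swp D a b) : ¬ Commute m a := fun c =>
  n (((h.comm_iff hm.1).2 c ▸ hm.2).symm)

theorem swp_symm {a b m : G} (hm : m ∈ swp D a b) : m ∈ swp D b a :=
  ⟨hm.1, by simpa only [h.conj_conj hm.1] using (h.comm_conj hm.1 hm.2).symm⟩

theorem swp_move {a b m c : G} (ha : a ∈ D) (hb : b ∈ D) (hc : c ∈ D) (hm : m ∈ swp D a b) (k : Commute a c) :
    Commute b (m * c * m) :=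
  h.trans _ hb _ (h.conj _ hm.1 _ ha) _ (h.conj _ hm.1 _ hc) hm.2 (h.comm_conj hm.1 k)

theorem swp_conj {a b m m' : G} (ha : a ∈ D) (hb : b ∈ D) (hm : m ∈ swp D a b) (hm' : m' ∈ swp D a b) :
    m * m' * m ∈ swp D a b := by
  refine ⟨h.conj _ hm.1 _ hm'.1, ?_⟩
  have := h.swp_move ha hb (h.conj _ hm'.1 _ (h.conj _ hm.1 _ ha)) hm
    (h.swp_move hb ha (h.conj _ hm.1 _ ha) (h.swp_symm hm') hm.2)
  simpa only [mul_assoc] using this

theorem not_comm_mul {m m' c : G} (hm : m ∈ D) (hm' : m' ∈ D) (n : ¬ Commute m m') (hc : c ∈ D) :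
    ¬ Commute (m * m') c := fun k => by
  rcases h.of_comm_mul hm hm' hc k with e | e
  · exact n (e ▸ Commute.refl m)
  · exact n (h.trans _ hm _ hc _ hm' e.1 e.2.symm)

variable [Finite G]

theorem mul_mem {a b : G} (ha : a ∈ D) (hb : b ∈ D) (c : Commute a b) (hne : a ≠ b) : a * b ∈ D := by
  by_contra n
  have := h.mem_pCore h.inv' h.trans ha hb c fun y hy => by
    by_contra k
    have n1 : ¬ Commute y a := fun c1 => k (c1.mul_right ((h.trans _ hy _ ha _ hb c1 c).mul_right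
      (Commute.refl y) |>.mul_right (h.trans _ hy _ ha _ hb c1 c)) |>.mul_right c1)
    obtain ⟨d, hd⟩ := h.exists_beta ha hb hy c hne n1 (fun c1 => n1 (h.trans _ hy _ hb _ ha c1 c.symm)) k
    exact n (h.beta_mul hd)
  rw [h.o2, mem_bot] at this
  exact hne (by rw [eq_inv_of_mul_eq_one_left this, h.inv hb])

theorem swp_narrow {a b m m' : G} (ha : a ∈ D) (hb : b ∈ D) (n : ¬ Commute a b) (hm : m ∈ swp D a b)
    (hm' : m' ∈ swp D a b) (c : Commute m m') : m = m' := by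
  by_contra hne
  have h1 := h.mul_mem hm.1 hm'.1 c hne
  have h2 := h.comm_of_conj' h1 ha (by
    have := h.swp_move hb ha (h.conj _ hm'.1 _ ha) (h.swp_symm hm) hm'.2
    rwa [show m * (m' * a * m') * m = m * m' * a * (m' * m) by group, ← c.eq] at this)
  exact h.swp_ncomm n hm (h.trans _ hm.1 _ h1 _ ha ((Commute.refl m).mul_right c) h2)

omit [Finite G] in
theorem ncard_blkc_eq {a b : G} (ha : a ∈ D) (hb : b ∈ D) : (blkc D a).ncard = (blkc D b).ncard := by
  obtain ⟨g, rfl⟩ := h.cls a ha b hb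
  rw [← Set.ncard_image_of_injective (blkc D a) (MulAut.conj g).injective]
  congr 1
  ext y
  constructor
  · rintro ⟨y, hy, rfl⟩
    exact ⟨h.inv' g y hy.1, hy.2.conj g⟩
  · intro hy
    exact ⟨g⁻¹ * y * g⁻¹⁻¹, ⟨h.inv' _ _ hy.1, by simpa [mul_assoc] using hy.2.conj g⁻¹⟩, by simp [mul_assoc]⟩

omit [Finite G] in
theorem ncard_swp {a b : G} (ha : a ∈ D) (n : ¬ Commute a b) (hb : b ∈ D) :
    (swp D a b).ncard = (blkc D b).ncard := by
  refine Set.ncard_congr (fun m _ => m * a * m) (fun m hm => ⟨h.conj _ hm.1 _ ha, hm.2⟩)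
    (fun m m' hm hm' e => h.uniq hm.1 hm'.1 ha e (h.swp_ncomm n hm)) fun c hc => ?_
  obtain ⟨m, hm, e, -⟩ := h.exists_mid ha hc.1 fun k => n (h.trans _ ha _ hc.1 _ hb k hc.2.symm)
  exact ⟨m, ⟨hm, e ▸ hc.2⟩, e⟩

theorem exists_ne_blkc {a : G} (ha : a ∈ D) : 1 < (blkc D a).ncard := by
  obtain ⟨a', ha', c, hm⟩ := h.exists_tri ha
  exact (Set.one_lt_ncard (Set.toFinite _)).2 ⟨a, ⟨ha, Commute.refl a⟩, a', ⟨ha', c⟩,
    fun e => h.ne_one hm (by rw [← e, h.sq a ha])⟩

theorem ncard_blkc {a : G} (ha : a ∈ D) : (blkc D a).ncard = p := by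
  have := Fact.mk h.prime
  obtain ⟨b, hb, n⟩ := h.exists_ncomm ha
  have h1 := h.exists_ne_blkc ha
  let A : Subgroup G :=
    { carrier := insert 1 (blkc D a)
      one_mem' := Or.inl rfl
      mul_mem' := by
        rintro x y (rfl | hx) (rfl | hy)
        · simp
        · simpa using Or.inr hy
        · simpa using Or.inr hx
        by_cases e : x = y
        · exact Or.inl (by rw [e, h.sq y hy.1])
        · exact Or.inr ⟨h.mul_mem hx.1 hy.1 (h.trans _ hx.1 _ ha _ hy.1 hx.2.symm hy.2) e, hx.2.mul_right hy.2⟩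
      inv_mem' := by
        rintro x (rfl | hx)
        · simp
        · exact Or.inr (by rwa [h.inv hx.1]) }
  obtain ⟨j, hj⟩ := IsPGroup.iff_card.1 (show IsPGroup 2 A from fun x => ⟨1, Subtype.ext (by
    rcases x with ⟨x, rfl | hx⟩
    · simp
    · simpa [pow_two] using h.sq x hx.1)⟩)
  replace hj : (blkc D a).ncard + 1 = 2 ^ j := by
    rw [← hj, ← Set.ncard_insert_of_notMem (a := 1) (fun k => h.ne_one k.1 rfl)]; rfl
  rw [← h.ncard_swp hb (mt Commute.symm n) ha] at h1 hj ⊢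
  have nar := fun m m' hm hm' => h.swp_narrow (m := m) (m' := m') hb ha (mt Commute.symm n) hm hm'
  have cl := fun m m' hm hm' => h.swp_conj (m := m) (m' := m') hb ha hm hm'
  have sub : swp D b a ⊆ D := fun _ hm => hm.1
  generalize swp D b a = R at *
  obtain ⟨m, hm⟩ := Set.nonempty_of_ncard_ne_zero (s := R) (by omega)
  have inv : ∀ g ∈ closure R, ∀ e ∈ R, g * e * g⁻¹ ∈ R := fun g hg => by
    induction hg using closure_induction'' with
    | one => simp
    | mem x hx => exact fun e he => by rw [h.inv (sub hx)]; exact cl _ _ hx he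
    | inv_mem x hx => exact fun e he => by rw [inv_inv, h.inv (sub hx)]; exact cl _ _ hx he
    | mul x y _ _ h1 h2 => exact fun e he => by simpa [mul_assoc] using h1 _ (h2 e he)
  have ord : ∀ e ∈ R, ∀ f ∈ R, (e * f) ^ p = 1 := fun e he f hf => by
    by_cases c : Commute e f
    · rw [nar e f he hf c, h.sq f (sub hf), one_pow]
    · exact h.pow _ (sub he) _ (sub hf) c
  obtain ⟨k, hk⟩ := h.prime.odd_of_ne_two h.odd
  have mid : ∀ e ∈ R, (e * m) ^ (k + 1) * m * ((e * m) ^ (k + 1))⁻¹ = e := fun e he => by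
    rw [mul_assoc, h.semi (sub he) (sub hm), ← mul_assoc, ← pow_add, show k + 1 + (k + 1) = p + 1 by omega, pow_succ,
      ord e he m hm, one_mul, mul_assoc, h.sq m (sub hm), mul_one]
  have mem : ∀ x ∈ conjugatesOf (⟨m, subset_closure hm⟩ : closure R), (x : G) ∈ R := fun x hx => by
    obtain ⟨g, rfl⟩ := isConj_iff.1 hx
    exact inv g g.2 m hm
  have key := Cfsg.Agent.S5560.result h.prime h.odd (⟨m, subset_closure hm⟩ : closure R)
    (by rw [← orderOf_coe]; exact orderOf_eq_prime (by rw [pow_two, h.sq m (sub hm)]) (h.ne_one (sub hm)))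
    fun x hx y hy => by
      obtain ⟨k, -, hk⟩ := (Nat.dvd_prime_pow h.prime (m := 1)).1 (show orderOf (x * y) ∣ p ^ 1 by
        rw [pow_one, ← orderOf_coe]; exact orderOf_dvd_of_pow_eq_one (ord _ (mem x hx) _ (mem y hy)))
      exact ⟨k, hk⟩
  have h2 := card_eq_ncard_conj_mul ((pCore p (closure R)).map (closure R).subtype) m
  have h3 : {y : G | ∃ b ∈ (pCore p (closure R)).map (closure R).subtype, b * m * b⁻¹ = y} = R := by
    refine Set.Subset.antisymm ?_ fun e he => ⟨_, pow_mem (mem_map_of_mem _ (key ⟨e, subset_closure he⟩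
      (isConj_iff.2 ⟨(⟨e, subset_closure he⟩ * ⟨m, subset_closure hm⟩) ^ (k + 1), Subtype.ext (mid e he)⟩) _
        (IsConj.refl _))) (k + 1), mid e he⟩
    rintro _ ⟨_, ⟨g, -, rfl⟩, rfl⟩
    exact inv g g.2 m hm
  obtain ⟨i, hi⟩ := IsPGroup.iff_card.1 (Solv.isPGroup_map_pCore p (closure R))
  rw [h3, hi] at h2
  obtain ⟨l, -, hl⟩ := (Nat.dvd_prime_pow h.prime).1 (Dvd.intro _ h2.symm)
  rw [hl] at h1 hj ⊢
  rw [eq_one_of_two_pow_eq h.prime h.odd (by rintro rfl; simp at h1) hj, pow_one]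

/-- a member swapping two blocks fixed by `u` inverts `u` -/
theorem inverts {u a b m : G} (hu : u ^ p = 1) (nf : ∀ c ∈ D, ¬ Commute u c) (ha : a ∈ D) (hb : b ∈ D)
    (n : ¬ Commute a b) (fa : Commute a (u * a * u⁻¹)) (fb : Commute b (u * b * u⁻¹)) (hm : m ∈ swp D a b) :
    m * u * m = u⁻¹ := by
  have ui : ∀ e ∈ swp D a b, u * e * u⁻¹ ∈ swp D a b := fun e he => by
    refine ⟨h.inv' _ _ he.1, h.trans _ hb _ (h.inv' u _ hb) _
      (h.conj _ (h.inv' u _ he.1) _ ha) fb ?_⟩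
    simpa [mul_assoc] using (h.swp_move ha hb (h.inv' u⁻¹ _ ha) he
      (by simpa [mul_assoc] using (fa.conj u⁻¹).symm)).conj u
  have h1 := ui m hm
  generalize e1 : u * m * u⁻¹ = m' at h1
  have n1 : ¬ Commute m' m := fun c => nf m hm.1
    (mul_inv_eq_iff_eq_mul.1 (e1.trans (h.swp_narrow ha hb n h1 hm c)))
  have hw := h.pow _ h1.1 _ hm.1 n1
  have n2 : ¬ Commute m (m' * m) := fun c => n1 (by
    simpa [mul_assoc, h.sq m hm.1] using (c.mul_right (Commute.refl m)).symm)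
  obtain ⟨i, hi⟩ := orbit_surj h.prime hw n2 ((h.ncard_swp ha n hb).trans (h.ncard_blkc hb)) (fun i => by
    induction i with
    | zero => simpa
    | succ i ih =>
      have := h.swp_conj ha hb h1 (h.swp_conj ha hb hm ih)
      convert this using 1
      rw [pow_succ', mul_inv_rev, mul_inv_rev m', h.inv hm.1, h.inv h1.1]
      simp only [mul_assoc]) (ui m' h1)
  have c1 : Commute u (m' * m) := by
    refine fix_all h.prime hu (S := zpowers (m' * m)) ?_ ?_ (one_mem _) (Commute.one_right u) (mem_zpowers _)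
    · have := Fact.mk h.prime
      rw [← Nat.card_coe_set_eq, SetLike.coe_sort_coe, Nat.card_zpowers]
      exact orderOf_eq_prime hw fun e => n2 (e ▸ Commute.one_right m)
    · rintro _ ⟨j, rfl⟩
      have : u * (m' * m) * u⁻¹ = (m' * m) ^ i * (m' * m) ^ i * (m' * m)⁻¹ := by
        calc u * (m' * m) * u⁻¹ = u * m' * u⁻¹ * (u * m * u⁻¹) := by group
          _ = _ := by
            rw [← hi, e1, mul_assoc _ m, h.semi h1.1 hm.1, mul_inv_rev, h.inv hm.1, h.inv h1.1]
            simp only [mul_assoc]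
      rw [← conj_zpow, this]
      exact zpow_mem (Subgroup.mul_mem _ (Subgroup.mul_mem _ (pow_mem (mem_zpowers _) i) (pow_mem (mem_zpowers _) i))
        (inv_mem (mem_zpowers _))) j
  obtain ⟨k, hk⟩ := h.prime.odd_of_ne_two h.odd
  have e2 : (m' * m) ^ (k + 1) * m * ((m' * m) ^ (k + 1))⁻¹ = m' := by
    rw [mul_assoc, h.semi h1.1 hm.1, ← mul_assoc, ← pow_add, show k + 1 + (k + 1) = p + 1 by omega, pow_succ,
      hw, one_mul, mul_assoc, h.sq m hm.1, mul_one]
  have s := h.semi h1.1 hm.1 (k + 1)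
  have c2 := c1.pow_right (k + 1)
  have c3 : Commute ((m' * m) ^ (k + 1)) (m' * m) := (Commute.refl _).pow_left _
  have hw' : ((m' * m) ^ (k + 1)) ^ p = 1 := by rw [← pow_mul, mul_comm, pow_mul, hw, one_pow]
  generalize (m' * m) ^ (k + 1) = w at *
  have v1 : Commute (w⁻¹ * u) m := by
    calc w⁻¹ * u * m = w⁻¹ * (u * m * u⁻¹) * u := by group
      _ = m * (w⁻¹ * u) := by rw [e1, ← e2]; group
  have v2 : Commute (w⁻¹ * u) m' := by
    simpa [mul_assoc, h.sq m hm.1] using (c3.inv_left.mul_left c1).mul_right v1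
  obtain ⟨x, hx, c4, h4⟩ := h.exists_tri hm.1
  have v3 : Commute (w⁻¹ * u) x := fix_all h.prime (by rw [c2.symm.inv_left.mul_pow, inv_pow, hw', hu]; simp)
    (h.ncard_blkc hm.1) (fun e he => ⟨h.inv' _ _ he.1, by
      simpa only [v1.eq, mul_inv_cancel_right] using he.2.conj (w⁻¹ * u)⟩) ⟨hm.1, Commute.refl m⟩ v1 ⟨hx, c4⟩
  have := h.gen _ _ _ _ (h.beta_of hm.1 hx c4 h4 h1.1 n1) _ v1 v3 (v1.mul_right v3) v2
  rw [inv_mul_eq_one] at this
  rw [← this, mul_assoc, ← s, h.cancel hm.1]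

theorem not_three {u a b c : G} (hu : u ^ p = 1) (nf : ∀ c ∈ D, ¬ Commute u c) (ha : a ∈ D) (hb : b ∈ D)
    (hc : c ∈ D) (n1 : ¬ Commute a b) (n2 : ¬ Commute a c) (n3 : ¬ Commute c b)
    (fa : Commute a (u * a * u⁻¹)) (fb : Commute b (u * b * u⁻¹)) (fc : Commute c (u * c * u⁻¹)) : False := by
  obtain ⟨m1, h1, e1, -⟩ := h.exists_mid ha hc n2
  obtain ⟨m2, h2, e2, -⟩ := h.exists_mid hc hb n3
  obtain ⟨m3, h3, e3, -⟩ := h.exists_mid hb ha (mt Commute.symm n1)
  have i1 := h.inverts hu nf ha hc n2 fa fc ⟨h1, e1 ▸ Commute.refl c⟩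
  have i2 := h.inverts hu nf hc hb n3 fc fb ⟨h2, e2 ▸ Commute.refl b⟩
  have i3 := h.inverts hu nf hb ha (mt Commute.symm n1) fb fa ⟨h3, e3 ▸ Commute.refl a⟩
  have g1 : m3 * m2 * m1 * a * (m3 * m2 * m1)⁻¹ = a := by
    calc _ = m3 * (m2 * (m1 * a * m1) * m2) * m3 := by
          simp only [mul_inv_rev, h.inv h1, h.inv h2, h.inv h3, mul_assoc]
      _ = a := by rw [e1, e2, e3]
  have g2 : m3 * m2 * m1 * u * (m3 * m2 * m1)⁻¹ = u⁻¹ := by
    calc _ = m3 * (m2 * (m1 * u * m1)⁻¹ * m2)⁻¹ * m3 := by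
          simp only [mul_inv_rev, h.inv h1, h.inv h2, h.inv h3, mul_assoc, inv_inv]
      _ = _ := by rw [i1, inv_inv, i2, inv_inv, i3]
  generalize m3 * m2 * m1 = g at g1 g2
  have na := mt Commute.symm (nf a ha)
  have k1 : u * a * u⁻¹ ∈ blkc D a := ⟨h.inv' _ _ ha, fa⟩
  have k2 : u⁻¹ * a * u ∈ blkc D a :=
    ⟨by simpa using h.inv' u⁻¹ _ ha, by simpa [mul_assoc] using (fa.conj u⁻¹).symm⟩
  have c12 := h.trans _ k1.1 _ ha _ k2.1 k1.2.symm k2.2
  obtain ⟨i, hi⟩ := orbit_surj h.prime hu na (h.ncard_blkc ha) (fun i => by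
    induction i with
    | zero => simpa using ⟨ha, Commute.refl a⟩
    | succ i ih =>
      refine ⟨h.inv' _ _ ha, h.trans _ ha _ k1.1 _ (h.inv' _ _ ha) fa ?_⟩
      simpa [pow_succ', mul_assoc] using ih.2.conj u) (e := u * a * u⁻¹ * (u⁻¹ * a * u))
    ⟨h.mul_mem k1.1 k2.1 c12 fun e => na (h.comm_of_sq hu (by
      calc a * (u * u) = u * (u⁻¹ * a * u) * u := by group
        _ = _ := by rw [← e]; group)), fa.mul_right k2.2⟩
  have e4 : u ^ i * a * (u ^ i)⁻¹ = (u ^ i)⁻¹ * a * u ^ i := by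
    calc _ = (g * u * g⁻¹)⁻¹ * (g * a * g⁻¹) * (g * u * g⁻¹) * ((g * u * g⁻¹) * (g * a * g⁻¹) * (g * u * g⁻¹)⁻¹) := by
          rw [hi, g1, g2, inv_inv]
      _ = g * (u⁻¹ * a * u * (u * a * u⁻¹)) * g⁻¹ := by group
      _ = (g * u * g⁻¹) ^ i * (g * a * g⁻¹) * ((g * u * g⁻¹) ^ i)⁻¹ := by rw [← c12.eq, ← hi, conj_pow]; group
      _ = _ := by rw [g1, g2, inv_pow, inv_inv]
  have c5 : Commute a (u ^ i) := h.comm_of_sq (by rw [← pow_mul, mul_comm, pow_mul, hu, one_pow]) (by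
    calc a * (u ^ i * u ^ i) = u ^ i * ((u ^ i)⁻¹ * a * u ^ i) * u ^ i := by group
      _ = _ := by rw [← e4]; group)
  rw [← c5.eq, mul_inv_cancel_right] at hi
  refine na (comm_of_comm_pow h.prime hu (k := 3)
    (fun k => h.three ((Nat.prime_dvd_prime_iff_eq h.prime Nat.prime_three).1 k)) ?_)
  have e5 : u * (u * a * u⁻¹) * u⁻¹ * a = u * a * u⁻¹ := by
    conv_rhs => rw [hi]
    group
  have e6 : u⁻¹ * a * u * a = u * a * u⁻¹ := by
    rw [← k2.2.eq, (congrArg (· * (u⁻¹ * a * u)) hi :), mul_assoc, h.sq _ k2.1, mul_one]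
  have := mul_right_cancel (e5.trans e6.symm)
  calc a * u ^ 3 = u * (u⁻¹ * a * u) * u ^ 2 := by group
    _ = _ := by rw [← this]; simp [pow_succ, mul_assoc]

theorem exists_free : ∃ x ∈ D, ∃ y ∈ D, ¬ Commute x y ∧ ∀ c ∈ D, ¬ Commute c (x * y * c * (x * y)⁻¹) := by
  classical
  obtain ⟨_, _, _, x, k⟩ := h.ex
  have hx := k.my
  by_contra! hn
  let T := (Set.toFinite {y | y ∈ D ∧ ¬ Commute x y}).toFinset
  have hT : ∀ y, y ∈ T ↔ y ∈ D ∧ ¬ Commute x y := fun y => by simp [T]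
  have nc : ∀ c ∈ T, ¬ Commute c (x * c * x) := fun c hc =>
    h.ncomm_conj hx ((hT c).1 hc).1 ((hT c).1 hc).2
  have := Finset.card_mul_le_card_mul (s := T) (t := T) (fun y c => y ∈ swp D c (x * c * x)) (m := p)
    (n := p - 1) (fun y hy => ?_) fun c hc => ?_
  · obtain ⟨y, hy⟩ := h.exists_ncomm hx
    have := Nat.le_of_mul_le_mul_left this (Finset.card_pos.2 ⟨y, (hT y).2 hy⟩)
    have := h.prime.pos
    omega
  · obtain ⟨h1, h2⟩ := (hT y).1 hy
    obtain ⟨c, hc, k1⟩ := hn x hx y h1 h2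
    have k2 : Commute (x * c * x) (y * c * y) := by
      simpa only [mul_inv_rev, h.inv hx, h.inv h1, mul_assoc, h.cancel hx, h.sq x hx, mul_one]
        using h.comm_conj hx k1
    have k3 : ¬ Commute x c := fun k => h2 (h.trans _ hx _ hc _ h1 k
      (h.comm_of_conj' h1 hc (by rwa [(h.comm_iff hx).2 k] at k2)).symm)
    rw [← h.ncard_blkc hc, ← Set.ncard_coe_finset]
    refine Set.ncard_le_ncard (fun e he => ?_) (Finset.finite_toSet _)
    rw [Finset.mem_coe, Finset.mem_bipartiteAbove, hT]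
    exact ⟨⟨he.1, fun k => k3 (h.trans _ hx _ he.1 _ hc k he.2.symm)⟩, h1,
      h.trans _ (h.conj _ hx _ he.1) _ (h.conj _ hx _ hc) _ (h.conj _ h1 _ he.1) (h.comm_conj hx he.2.symm)
        (h.swp_move hc (h.conj _ hx _ hc) he.1 ⟨h1, k2⟩ he.2)⟩
  · have h1 := ((hT c).1 hc).1
    rw [← (h.ncard_swp h1 (nc c hc) (h.conj _ hx _ h1)).trans (h.ncard_blkc (h.conj _ hx _ h1)),
      
      ← Set.ncard_sdiff_singleton_of_mem (show x ∈ swp D c (x * c * x) from ⟨hx, Commute.refl _⟩),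
      ← Set.ncard_coe_finset]
    refine Set.ncard_le_ncard (fun e he => ?_) (Set.toFinite _)
    rw [Finset.mem_coe, Finset.mem_bipartiteBelow, hT] at he
    exact ⟨he.2, fun k => he.1.2 (k ▸ Commute.refl x)⟩

theorem false : False := by
  let s : Setoid D := ⟨fun a b => Commute (a : G) b, fun _ => Commute.refl _, Commute.symm,
    h.trans _ (Subtype.prop _) _ (Subtype.prop _) _ (Subtype.prop _)⟩
  let f : G → D → D := fun u a => ⟨_, h.inv' u a a.2⟩
  let F : G → Quotient s → Quotient s := fun u => Quotient.map (f u) fun _ _ k => k.conj u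
  have key : ∀ u : G, u ^ p = 1 → Nat.card (Quotient s) ≡ {x | F u x = x}.ncard [MOD p] := fun u hu =>
    card_modEq_fixed h.prime fun x => by
      obtain ⟨x, rfl⟩ := x.exists_rep
      rw [← Function.Semiconj.iterate_right (f := Quotient.mk s) (ga := f u) (gb := F u) (fun _ => rfl) p x]
      congr 1
      exact Subtype.ext (by rw [iterate_conj (φ := Subtype.val) (v := u) (fun _ => rfl), hu]; simp)
  have fx : ∀ u (a : D), F u (Quotient.mk s a) = Quotient.mk s a ↔ Commute (a : G) (u * a * u⁻¹) := fun u a =>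
    Quotient.eq.trans ⟨Commute.symm, Commute.symm⟩
  obtain ⟨x, hx, y, hy, n, k⟩ := h.exists_free
  have k1 := key _ (h.pow x hx y hy n)
  rw [show {z | F (x * y) z = z} = ∅ from Set.eq_empty_of_forall_notMem fun z hz => by
    obtain ⟨z, rfl⟩ := z.exists_rep
    exact k z z.2 ((fx _ z).1 hz), Set.ncard_empty] at k1
  obtain ⟨m, hm, m', hm', hne⟩ := (Set.one_lt_ncard (Set.toFinite _)).1
    ((h.exists_ne_blkc hy).trans_eq (h.ncard_swp hx n hy).symm)
  have n1 : ¬ Commute m m' := fun c => hne (h.swp_narrow hx hy n hm hm' c)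
  have hu := h.pow _ hm.1 _ hm'.1 n1
  have f1 : ∀ {x y}, x ∈ D → y ∈ D → m ∈ swp D x y → m' ∈ swp D x y →
      Commute x (m * m' * x * (m * m')⁻¹) := fun {x y} hx hy hm hm' => by
    simpa only [mul_inv_rev, h.inv hm.1, h.inv hm'.1, mul_assoc] using
      h.swp_move hy hx (h.conj _ hm'.1 _ hx) (h.swp_symm hm) hm'.2
  have fa := f1 hx hy hm hm'
  have fb := f1 hy hx (h.swp_symm hm) (h.swp_symm hm')
  have k2 := key _ hu
  rw [show {z | F (m * m') z = z} = {Quotient.mk s ⟨x, hx⟩, Quotient.mk s ⟨y, hy⟩} from ?_,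
    Set.ncard_pair fun e => n (Quotient.exact e)] at k2
  · exact h.not_dvd_two (Nat.modEq_zero_iff_dvd.1 (k2.symm.trans k1))
  ext z
  obtain ⟨z, rfl⟩ := z.exists_rep
  refine ⟨fun hz => by_contra fun hn => ?_, ?_⟩
  · rw [Set.mem_insert_iff, Set.mem_singleton_iff, not_or] at hn
    exact h.not_three hu (fun c => h.not_comm_mul hm.1 hm'.1 n1) hx hy z.2 n
      (fun c => hn.1 (Quotient.sound c.symm)) (fun c => hn.2 (Quotient.sound c)) fa fb ((fx _ z).1 hz)
  · rintro (e | e) <;> rw [e]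
    exacts [(fx _ _).2 fa, (fx _ _).2 fb]

end PTMin

theorem PT.not_beta (G : Type u) [Group G] [Finite G] {D : Set G} (h : PT p D) (h3 : p ≠ 3) {x x' d y : G} :
    ¬ Beta D x x' d y := by
  induction hn : Nat.card G using Nat.strong_induction_on generalizing G with
  | _ n ih =>
  subst hn
  intro k
  have top : ∀ {x x' d y}, Beta D x x' d y → closure {x, x', d, y} = ⊤ := fun {x x' d y} k => by
    by_contra hne
    have m : ∀ z ∈ ({x, x', d, y} : Set G), z ∈ closure {x, x', d, y} := fun z hz => subset_closure hz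
    have i := (closure {x, x', d, y}).subtype_injective
    exact ih _ (Finite.card_subtype_lt (not_forall.1 (mt (eq_top_iff' _).2 hne)).choose_spec) _
      (h.preimage _ i) rfl (x := ⟨x, m x (by simp)⟩) (x' := ⟨x', m x' (by simp)⟩) (d := ⟨d, m d (by simp)⟩)
      (y := ⟨y, m y (by simp)⟩) ⟨k.mx, k.mx', k.md, k.my, k.c1.of_map i, k.c2.of_map i, k.c3.of_map i,
        fun c => k.n1 (c.map (Subgroup.subtype _)), fun c => k.n2 (c.map (Subgroup.subtype _)),
        fun c => k.n3 (c.map (Subgroup.subtype _)), Commute.of_map i k.c⟩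
  have quo : ∀ (N : Subgroup G) [N.Normal], (∀ a ∈ D, ∀ b ∈ D, a * b * (a * b) ∈ N → Commute a b) → N = ⊥ := by
    intro N _ hN
    by_contra hne
    have nc : ∀ a ∈ D, ∀ b ∈ D, Commute (QuotientGroup.mk' N a) (QuotientGroup.mk' N b) → Commute a b :=
      fun a ha b hb c => hN a ha b hb ((QuotientGroup.eq_one_iff _).1 (by
        change QuotientGroup.mk' N _ = 1
        rw [map_mul, map_mul, c.symm.mul_mul_mul_comm, ← map_mul, ← map_mul, h.sq a ha, h.sq b hb]; simp))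
    refine ih _ ?_ _ (h.image (QuotientGroup.mk' N)) rfl ⟨⟨_, k.mx, rfl⟩, ⟨_, k.mx', rfl⟩, ⟨_, k.md, rfl⟩,
      ⟨_, k.my, rfl⟩, k.c1.map _, k.c2.map _, k.c3.map _, mt (nc _ k.my _ k.mx) k.n1,
      mt (nc _ k.my _ k.mx') k.n2, mt (nc _ k.my _ k.md) k.n3, by simpa using k.c.map (QuotientGroup.mk' N)⟩
    rw [N.card_eq_card_quotient_mul_card_subgroup]
    exact lt_mul_of_one_lt_right Nat.card_pos (N.one_lt_card_iff_ne_bot.2 hne)
  have hZ := quo (center G) fun a ha b hb hc => by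
    by_contra n
    refine n (h.comm_of_sq (h.pow a ha b hb n) (mem_center_iff.1 hc a) |>.symm |> fun c => ?_)
    simpa [h.cancel ha] using ((Commute.refl a).mul_left c).symm
  have hO := quo (pCore 2 G) fun a ha b hb hc => by
    by_contra n
    have := eq_one_of_isPGroup_of_pow ((Nat.coprime_primes Nat.prime_two h.prime).2 h.odd.symm)
      (Solv.pCore_isPGroup 2 G) hc (by rw [← pow_two, ← pow_mul, mul_comm, pow_mul, h.pow a ha b hb n, one_pow])
    exact n (commute_of_invol_sq (h.sq a ha) (h.sq b hb) (by rwa [pow_two]))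
  have inv : ∀ g : G, ∀ e ∈ D, g * e * g⁻¹ ∈ D := fun g => by
    have hg : g ∈ closure D := closure_mono (by
      rintro _ (rfl | rfl | rfl | rfl); exacts [k.mx, k.mx', k.md, k.my]) ((top k).ge (mem_top g))
    induction hg using closure_induction'' with
    | one => simp
    | mem x hx => exact fun e he => by rw [h.inv hx]; exact h.conj _ hx _ he
    | inv_mem x hx => exact fun e he => by rw [inv_inv, h.inv hx]; exact h.conj _ hx _ he
    | mul x y _ _ h1 h2 => exact fun e he => by simpa [mul_assoc] using h1 _ (h2 e he)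
  have sub : conjugatesOf y ⊆ D := fun z hz => by
    obtain ⟨g, rfl⟩ := isConj_iff.1 hz
    exact inv g y k.my
  have cj : ∀ g : G, ∀ e ∈ conjugatesOf y, g * e * g⁻¹ ∈ conjugatesOf y := fun g e he =>
    IsConj.trans he (isConj_iff.2 ⟨g, rfl⟩)
  have mem : ∀ z ∈ D, ¬ Commute y z → z ∈ conjugatesOf y := fun z hz n => by
    obtain ⟨m, hm, e, -⟩ := h.exists_mid k.my hz n
    exact isConj_iff.2 ⟨m, by rwa [h.inv hm]⟩
  refine PTMin.false (p := p) (D := conjugatesOf y) ⟨⟨h.prime, h.odd, fun e he => h.sq e (sub he),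
    fun e he f hf => by simpa only [h.inv (sub he)] using cj e f hf,
    fun e he f hf => h.pow e (sub he) f (sub hf)⟩, h3, fun a ha b hb => isConj_iff.1 (IsConj.trans ha.symm hb),
    cj, fun x x' d y k v c1 c2 c3 c4 => ?_, hO,
    ⟨x, x', d, y, mem _ k.mx k.n1, mem _ k.mx' k.n2, mem _ k.md k.n3, IsConj.refl y, k.c1, k.c2, k.c3, k.n1,
      k.n2, k.n3, k.c⟩⟩
  rw [← mem_bot, ← hZ]
  refine mem_center_of_commute (top ⟨sub k.mx, sub k.mx', sub k.md, sub k.my, k.c1, k.c2, k.c3, k.n1,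
      k.n2, k.n3, k.c⟩) ?_
  rintro _ (rfl | rfl | rfl | rfl)
  exacts [c1, c2, c3, c4]

end Cfsg.Lib.Spor
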