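/-
Classes of `p`-transpositions of rank three.
-/
import Cfsg.Agent.Spor.PT2

set_option autoImplicit false

namespace Cfsg.Lib.Spor

open Subgroup

variable {G : Type*} [Group G] [Finite G] {p : ℕ} {D : Set G}

namespace PT

variable (h : PT p D) (h3 : p ≠ 3)
include h h3

theorem alpha {x x' y : G} (hx : x ∈ D) (hx' : x' ∈ D) (hy : y ∈ D) (c : Commute x x') (n1 : ¬ Commute y x)
    (n2 : ¬ Commute y x') : Commute y (x * (x' * y * x') * x) := by
  by_cases e : x = x'
  · rw [e, h.conj_conj hx']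
  by_contra n
  obtain ⟨d, hd⟩ := h.exists_beta hx hx' hy c e n1 n2 n
  exact h.not_beta G h3 hd

theorem no_string {w y w' c : G} (hw : w ∈ D) (hy : y ∈ D) (hw' : w' ∈ D) (hc : c ∈ D) (n1 : ¬ Commute w y)
    (n2 : ¬ Commute y w') (n3 : ¬ Commute w' c) (c1 : Commute w w') (c2 : Commute w c) (c3 : Commute y c) :
    False := by
  have hu := h.pow w hw y hy n1
  have back : ∀ k, ¬ p ∣ k → ¬ Commute w' ((w * y) ^ k) := fun k hk c => n2 (by
    simpa [h.cancel hw] using (c1.symm.mul_right (comm_of_comm_pow h.prime hu hk c)).symm)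
  have h0 := h.conj w hw y hy
  have h1 := h.conj w hw _ (h.conj y hy w hw)
  have k0 : Commute (w * y * w) c := (c2.mul_left c3).mul_left c2
  have k1 : Commute (w * (y * w * y) * w) c := (c2.mul_left ((c3.mul_left c2).mul_left c3)).mul_left c2
  have a0 := h.alpha h3 h0 hc hw' k0 (fun k => back 1 h.prime.not_dvd_one (by
    simpa [mul_assoc, h.sq w hw] using k.mul_right c1.symm)) n3
  have a1 := h.alpha h3 h1 hc hw' k1 (fun k => back 2 h.not_dvd_two (by
    simpa [mul_assoc, h.sq w hw, pow_two] using k.mul_right c1.symm)) n3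
  have a2 : Commute (y * w' * y) (w * y * w * (c * w' * c) * (w * y * w)) := by
    have := h.comm_conj hy (h.comm_conj hw a1)
    rw [(h.comm_iff hw).2 c1] at this
    convert this using 1
    simp only [mul_assoc, h.cancel hw, h.cancel hy, h.sq w hw, h.sq y hy, mul_one]
  have a3 := h.comm_of_conj hy hw' n2 a0.symm a2.symm
  have a4 := h.comm_conj hc (h.comm_conj h0 a3)
  rw [h.conj_conj h0, h.conj_conj hc, (h.comm_iff hc).2 ((k0.mul_left c3).mul_left k0).symm] at a4
  exact back 3 (fun k => h3 ((Nat.prime_dvd_prime_iff_eq h.prime Nat.prime_three).1 k)) (by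
    simpa [mul_assoc, h.sq w hw, h.cancel hw, pow_succ] using a4.mul_right c1.symm)

theorem trans (hgen : closure D = ⊤) (cls : ∀ a ∈ D, ∀ b ∈ D, ∃ g : G, g * a * g⁻¹ = b)
    (inv : ∀ g : G, ∀ d ∈ D, g * d * g⁻¹ ∈ D)
    (rk : ∀ a ∈ D, ∀ b ∈ D, ∀ a' ∈ D, ∀ b' ∈ D, ¬ Commute a b → ¬ Commute a' b' →
      ∃ g : G, g * a * g⁻¹ = a' ∧ g * b * g⁻¹ = b')
    (c : G) (hc : c ∈ D) (w : G) (hw : w ∈ D) (c' : G) (hc' : c' ∈ D) (h1 : Commute c w) (h2 : Commute w c') :
    Commute c c' := by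
  by_contra n
  have both : ∀ {w z a b}, w ∈ D → z ∈ D → a ∈ D → b ∈ D → ¬ Commute w z → ¬ Commute a b → Commute w a →
      Commute w b → Commute z a → Commute z b := fun hw hz ha hb n1 n2 c1 c2 c3 => by_contra fun k =>
    h.no_string h3 hw hz hb ha n1 k (mt Commute.symm n2) c2 c1 c3
  let M : G → G → Set G := fun a b => {e | e ∈ D ∧ Commute a e ∧ Commute b e}
  have key : ∀ z ∈ D, z ∉ M c c' → ∀ w ∈ M c c', Commute w z := fun z hz hn w hw => by
    by_contra k
    have z1 : ¬ Commute z c := fun t =>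
      hn ⟨hz, t.symm, (both hw.1 hz hc hc' k n hw.2.1.symm hw.2.2.symm t).symm⟩
    have z2 : ¬ Commute z c' := fun t =>
      z1 (both hw.1 hz hc' hc k (mt Commute.symm n) hw.2.2.symm hw.2.1.symm t)
    obtain ⟨g, g1, g2⟩ := rk c hc c' hc' c hc z hz n (mt Commute.symm z1)
    have := Set.eq_of_subset_of_ncard_le (s := M c z) (t := M c c') (fun e he => ⟨he.1, he.2.1, by
      by_contra t
      refine z2 (both hw.1 hz he.1 hc' k (mt Commute.symm t) ?_ hw.2.2.symm he.2.2)
      by_contra t'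
      exact t (both hw.1 he.1 hc hc' t' n hw.2.1.symm hw.2.2.symm he.2.1.symm).symm⟩)
      (Set.ncard_le_ncard_of_injOn (fun e => g * e * g⁻¹) (fun e he => ⟨inv g e he.1, g1 ▸ he.2.1.conj g,
        g2 ▸ he.2.2.conj g⟩) (MulAut.conj g).injective.injOn)
    exact k (this.ge hw).2.2.symm
  have all : ∀ g ∈ closure D, ∀ e ∈ M c c', g * e * g⁻¹ ∈ M c c' := fun g hg => by
    have one : ∀ x ∈ D, ∀ e ∈ M c c', x * e * x ∈ M c c' := fun x hx e he => by
      by_cases k : x ∈ M c c'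
      · exact ⟨h.conj _ hx _ he.1, (k.2.1.mul_right he.2.1).mul_right k.2.1,
          (k.2.2.mul_right he.2.2).mul_right k.2.2⟩
      · rwa [(h.comm_iff hx).2 (key x hx k e he).symm]
    induction hg using closure_induction'' with
    | one => simp
    | mem x hx => exact fun e he => by rw [h.inv hx]; exact one _ hx _ he
    | inv_mem x hx => exact fun e he => by rw [inv_inv, h.inv hx]; exact one _ hx _ he
    | mul x y _ _ h1 h2 => exact fun e he => by simpa [mul_assoc] using h1 _ (h2 e he)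
  obtain ⟨g, hg⟩ := cls w hw c hc
  exact n (hg ▸ (all g (hgen ▸ mem_top g) w ⟨hw, h1, h2.symm⟩).2.2).symm

theorem mul_mem_pCore (hgen : closure D = ⊤) (cls : ∀ a ∈ D, ∀ b ∈ D, ∃ g : G, g * a * g⁻¹ = b)
    (inv : ∀ g : G, ∀ d ∈ D, g * d * g⁻¹ ∈ D)
    (rk : ∀ a ∈ D, ∀ b ∈ D, ∀ a' ∈ D, ∀ b' ∈ D, ¬ Commute a b → ¬ Commute a' b' →
      ∃ g : G, g * a * g⁻¹ = a' ∧ g * b * g⁻¹ = b') {a b : G} (ha : a ∈ D) (hb : b ∈ D) (c : Commute a b) :
    a * b ∈ pCore 2 G := by
  have tr := h.trans h3 hgen cls inv rk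
  refine h.mem_pCore inv tr ha hb c fun y hy => ?_
  by_cases k : Commute y a
  · have := tr _ hy _ ha _ hb k c
    exact (k.mul_right ((this.mul_right (Commute.refl y)).mul_right this)).mul_right k
  · exact h.alpha h3 ha hb hy c k fun t => k (tr _ hy _ hb _ ha t c.symm)

end PT

end Cfsg.Lib.Spor
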