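import Cfsg.Agent.Spor.RuR3G

/-!
# Recognition of the Rudvalis group as a rank three group
-/

set_option autoImplicit false

namespace Cfsg.Lib.Spor.Ru.Rk

open Cfsg.Lib.Known Cfsg.Lib.Known.PC R3 MulAction

theorem s_s : s₀ • s₀ • a₀ = a₀ := by rw [s_a, s_b]

theorem adj_c {i : ℕ} (hi : i < 4060) : Adj a₀ s₀ c₀ (pt i) ↔ tb 6 i < 1755 :=
  adj_row [6] c_fx.2.2.2.2.2.2.2.2.2.2.2.2.2.2.1 (by decide) hi

theorem adj_pt {x : VV} {j : ℕ} (h : Adj a₀ s₀ (pt j) x) : ∃ i < 4060, pt i = x :=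
  let ⟨g, _, e⟩ := h; e ▸ s_a ▸ smul_pt g (by decide)

theorem z4 {z : ℕ × List ℕ} (hz : z ∈ rZ1) : pt z.1 ∈ O₀ ∧ ∃ x ∈ O₀, ∃ w ∈ O₀, el [3] • x = pt z.1 ∧
    el [3] • s₀ • x ∈ O₀ ∧ el [3] • s₀ • w = s₀ • el [3] • s₀ • x := by
  obtain ⟨h, k⟩ := band_iff.1 (lall_iff.1 c_z4 z hz)
  obtain ⟨e, -, k⟩ := lany_spec k
  simp only [band_iff, Nat.blt_eq, Nat.beq_eq] at h k
  obtain ⟨k1, k2, k3, k4, k5⟩ := k
  have m : ∀ {i}, i < 4060 → el [3] • s₀ • pt i = pt (ev [3, 2] i) := fun hi => by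
    rw [mv1 rfl hi, mv1 rfl (tb_lt _ hi)]; rfl
  refine ⟨mem_O.2 ⟨_, h, rfl⟩, _, mem_O.2 ⟨_, k2, rfl⟩, _, mem_O.2 ⟨_, k3, rfl⟩, mv1 k1 (by omega),
    mem_O.2 ⟨_, k4, (m (by omega)).symm⟩, ?_⟩
  rw [m (by omega), m (by omega), k5, mv1 rfl (by omega)]; rfl

theorem arith {a b c d : ℕ} (ha : a ≤ 1) (hb : b ≤ 1) (hc : c ≤ 1) (hd : d ≤ 1)
    (h : 2304 ∣ 1755 * (1755 - (640 * a + 80 * b + 10 * c + 1024 * d) - 1)) :
    640 * a + 80 * b + 10 * c + 1024 * d + 1 = 1755 ∨ a = 1 ∧ b = 1 ∧ c = 1 ∧ d = 0 := by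
  interval_cases a <;> interval_cases b <;> interval_cases c <;> interval_cases d <;> omega

variable {G : Type*} [Group G] [Finite G]

theorem lift {θ : F₀ →* G} {s : G} (H : Am s₀ θ s) (T : Tri s₀ θ s a₀ b₀ (pt 0)) :
    ∃ Φ : GG →* G, ∀ f : F₀, Φ f = θ f := by
  have T1 : ∀ {i j}, i < 4060 → j < 4060 → root i = root j → Tri s₀ θ s a₀ b₀ (pt j) →
      Tri s₀ θ s a₀ b₀ (pt i) := fun hi hj e h => by
    have k : ∀ p : P₀, ∀ x ∈ {x | Tri s₀ θ s a₀ b₀ x}, p • x ∈ {x | Tri s₀ θ s a₀ b₀ x} := fun p x hx => by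
      have := Tri.smul hx p.1.1
      rwa [show p.1.1 • a₀ = a₀ from p.1.2, show p.1.1 • b₀ = b₀ from p.2] at this
    exact (inv_mem k hi).2 (e ▸ (inv_mem k hj).1 h)
  have T2 : ∀ {r x y}, x < 4060 → y < 4060 → tb 3 x = r → ev [3, 2, 3] y = r → Tri s₀ θ s a₀ b₀ (pt x) →
      Tri s₀ θ s a₀ b₀ (pt y) → Tri s₀ θ s a₀ b₀ (pt r) := fun hx hy e1 e2 h1 h2 => by
    have k1 := T.smul (el [3])
    have k2 := h1.smul (el [3])
    have k3 := h2.smul (el [3, 2, 3])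
    rw [g_a, g_b, g_d] at k1
    rw [g_a, g_b, mv1 e1 hx] at k2
    rw [mv _ c_four.1, mv _ c_four.2.1, mv _ e2 hy] at k3
    exact k1.four k2 k3 ((adj_a (by decide)).2 (by decide))
  have T3 : ∀ i < 640, Tri s₀ θ s a₀ b₀ (pt i) := fun i hi => T1 (j := 0) (by omega) (by decide) (if_pos hi) T
  have T4 : ∀ i < 720, Tri s₀ θ s a₀ b₀ (pt i) := fun i hi => (lt_or_ge i 640).elim (T3 i) fun h =>
    T1 (by omega) (by decide) (show _ = 640 by unfold root; split_ifs <;> omega) (T2 (by decide) (by decide)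
      c_four.2.2.1 c_four.2.2.2.1 (T3 _ (by decide)) (T3 _ (by decide)))
  have T5 : ∀ i < 730, Tri s₀ θ s a₀ b₀ (pt i) := fun i hi => (lt_or_ge i 720).elim (T4 i) fun h =>
    T1 (by omega) (by decide) (show _ = 720 by unfold root; split_ifs <;> omega) (T2 (by decide) (by decide)
      c_four.2.2.2.2.1 c_four.2.2.2.2.2 (T4 _ (by decide)) (T4 _ (by decide)))
  obtain ⟨-, -, -, -, -, -, -, -, -, -, f1, f2, f3, f4, -, f5, f6, f7⟩ := c_fx
  let l : ℕ → F₀ := fun k => if k = 4 then ⟨_, mv1 f1⟩ else ⟨_, mv1 f3⟩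
  have hl : ∀ k ∈ [4, 5], ∀ i < 4060, l k • pt i = pt (tb k i) := by
    simp only [List.forall_mem_cons]
    exact ⟨fun i hi => mv1 rfl hi, fun i hi => mv1 rfl hi, by simp⟩
  have lc : ∀ k, l k • c₀ = c₀ := fun k => by
    simp only [l]; split_ifs; exacts [mv1 f2, mv1 f4]
  have D : ∀ {Q : ℕ → Prop} (B : Prop), (∀ i < 4060, (i < 1755 ↔ B) →
      (if i < 1755 then i = 1754 else tb 2 i < 1755) → Q i) → (∀ k, ∀ i < 4060, ∀ j, l k • pt i = pt j → Q j → Q i) →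
      ∀ i, i < 4060 ∧ tb 6 i < 1755 ∧ (i < 1755 ↔ B) → Q i := fun B h1 h2 => desc dep fun i hi => by
    have := nall_iff.1 c_dep i hi.1
    simp only [bor_iff, Nat.ble_eq, brec_eq, Nat.blt_eq] at this
    rcases this with h | h | h
    · omega
    · exact Or.inl (h1 i hi.1 hi.2.2 (by split_ifs at * <;> simpa using h))
    · obtain ⟨k, hk, h⟩ := lany_spec h
      simp only [frc_eq, band_iff, Nat.blt_eq, beq_iff'] at h
      exact Or.inr ⟨_, ⟨tb_lt k hi.1, h.1, h.2.1.trans hi.2.2⟩, h.2.2, h2 k i hi.1 _ (hl k hk i hi.1)⟩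
  have ab := (adj_a (i := 1754) (by decide)).2 (by decide)
  have bc := (adj_b (i := 1755) (by decide)).2 f5
  refine H.lift (b := b₀) (c := c₀) (S := Set.range l) (by
    rw [s_a]; exact fun e => absurd (pt_inj (by decide) (by decide) e) (by decide)) (fun z h1 h2 => ?_)
    (fun g => ?_) (fun e => absurd (pt_inj (by decide) (by decide) e) (by decide)) ab bc ?_
    (fun x h1 h2 => ?_) fun x h => ?_
  · obtain ⟨i, hi, rfl⟩ := adj_pt h1
    rw [s_a] at h2 ⊢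
    exact T5 i ((c_s' ((adj_a hi).1 h1)).1.1 ((adj_b hi).1 h2))
  · obtain ⟨i, hi, e⟩ := smul_pt g (i := 4059) (by decide)
    rw [← e, adj_a hi]
    by_cases h : i < 4059
    · have := orbF h
      split_ifs at this with k
      exacts [Or.inr (Or.inl k), Or.inr (Or.inr this)]
    · exact Or.inl (congrArg _ (by omega))
  · rintro _ ⟨k, rfl⟩
    refine ⟨lc k, ?_⟩
    simp only [l]; split_ifs
    exacts [(mv1 rfl : el [4] • b₀ = _) ▸ (adj_b (tb_lt _ (by decide))).2 f6,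
      (mv1 rfl : el [5] • b₀ = _) ▸ (adj_b (tb_lt _ (by decide))).2 f7]
  · obtain ⟨i, hi, rfl⟩ := adj_pt h1
    refine D (Q := fun i => ∃ m ∈ Subgroup.closure (Set.range l), m • b₀ = pt i) True
      (fun i _ k e => ⟨1, one_mem _, by rw [if_pos (k.2 trivial)] at e; rw [e, one_smul]⟩) ?_ i
      ⟨hi, (adj_c hi).1 (h2.symm s_s), iff_true_intro ((adj_a hi).1 h1)⟩
    rintro k i - j e ⟨m, k1, k2⟩
    exact ⟨(l k)⁻¹ * m, mul_mem (Subgroup.inv_mem _ (Subgroup.subset_closure ⟨k, rfl⟩)) k1, by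
      rw [mul_smul, k2, ← e, inv_smul_smul]⟩
  · obtain ⟨i, hi, rfl⟩ := adj_pt h
    refine (em _).imp_right fun k => D (Q := fun i => ∃ y, Adj a₀ s₀ a₀ y ∧ Adj a₀ s₀ y c₀ ∧ Adj a₀ s₀ y (pt i))
      False (fun i hi k e => ⟨_, ab, bc, (adj_b hi).2 (by rwa [if_neg k.1] at e)⟩) ?_ i
      ⟨hi, (adj_c hi).1 h, iff_false_intro fun j => k ((adj_a hi).2 j)⟩
    rintro k i - j e ⟨y, k1, k2, k3⟩
    refine ⟨(l k)⁻¹ • y, ?_, ?_, ?_⟩ <;> refine (adj_smul (l k).1).1 ?_ <;> rw [Subgroup.smul_def,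
      Subgroup.coe_inv, smul_inv_smul]
    exacts [(l k).2.symm ▸ k1, (lc k).symm ▸ k2, e.symm ▸ k3]

theorem recognise {Ω : Type*} [Finite Ω] [MulAction G Ω] [IsPretransitive G Ω] (hΩ : Nat.card Ω = 4060)
    {a b c : Ω} (e : stabilizer G a ≃* Lie.twistedF4 (ZMod 2) 1)
    (hb : (orbit (stabilizer G a) b).ncard = 1755) (hc : (orbit (stabilizer G a) c).ncard = 2304) :
    Nonempty (GG ≃* G) := by
  obtain ⟨ι⟩ : Nonempty (_ ≃* F₀) := fixer_eq ▸ exists_f4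
  let θ := (e.trans ι).symm
  obtain ⟨f, hf⟩ := conj_P (P := (stabilizer _ b).comap θ.toMonoidHom)
    ((Subgroup.index_comap_of_surjective _ θ.surjective).trans ((index_stabilizer _ _).trans hb))
  obtain ⟨t, ht, s, hs⟩ := exists_sw (θ := θ) (b := (θ f)⁻¹ • b) (b0 := b₀) (R := Adj a₀ s₀) (d := pt 0)
    (T := {id, (s₀ • ·)}) ((congrArg _ (orbit_smul _ _)).trans hb) hc (by decide) (by decide) (by decide) hΩ
    (by decide) (fun g => (hf g).trans (by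
      simp [← Subgroup.smul_def, mul_smul, eq_inv_smul_iff])) (fun f x y => adj_smul f.1)
    (fun A h1 h2 h3 h4 => by
      obtain ⟨e, k1, k2, k3⟩ := inv_ncard h1 (fun p => h2 p p.2) h3
      rw [k3] at h4 ⊢
      refine (arith (k1 _) (k1 _) (k1 _) (k1 _) h4).imp_right fun h x hx => ?_
      obtain ⟨i, hi, rfl⟩ := mem_orbF.1 hx
      have : e 1754 ≠ 1 := fun j => h3 ((k2 1754 (by decide)).2 j)
      rw [k2 i (by omega), adj_b (by omega), (c_s' hi).1]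
      unfold root
      split_ifs <;> omega)
    ((pt_orbF (by decide)).2 (by decide)) ((adj_b (by decide)).2 (by rw [c_fx.2.2.2.2.2.2.1]; decide))
    (fun x hx h1 h2 => by
      obtain ⟨i, hi, rfl⟩ := mem_orbF.1 hx
      have := (c_s' hi).1.1 ((adj_b (by omega)).1 h1)
      rw [(orbP_spec (by omega)).2, (orbP_spec (by decide)).2] at h2
      exact mem_O.2 ⟨i, by split_ifs at h2 <;> omega, rfl⟩)
    (fun σ h1 h2 h3 => by
      obtain ⟨h, k1, k2⟩ := rig σ ⟨h1, h2, h3⟩ (by simp)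
      obtain ⟨p, t, k3, k4⟩ := Eg_dec k1
      exact ⟨p, t, k3, fun x hx => (k2 x hx).trans (k4 x)⟩)
  let g : F₀ := ⟨_, g_a⟩
  have hg : g • b₀ = pt 0 := g_b
  obtain ⟨r, r1, r2, r3⟩ := hs.tri (g := g) (hg ▸ mem_orbit_self _) (by
    rcases ht with rfl | rfl; exacts [rfl, hg ▸ s_d])
  rcases ht with rfl | rfl
  · refine absurd (Subtype.ext (det fun z hz => ?_) : r = 1) fun k => r2 (by rw [k, one_smul])
    obtain ⟨k1, x, k2, -, -, k3, -⟩ := z4 hz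
    exact k3 ▸ r3 x k2 x k2 (k3 ▸ k1 : el [3] • x ∈ _) rfl
  have H : Am s₀ ((stabilizer G a).subtype.comp θ.toMonoidHom) s := Sw.am (d := pt 0) (s_a.symm ▸ hs) s_s
    fun f h => Subtype.ext (det fun z hz => h _ (s_a.symm ▸ (z4 hz).1))
  have r4 : s₀ * (el [3] * s₀ * (el [3])⁻¹) = el [3] * s₀ * (el [3])⁻¹ * r := by
    rw [← inv_mul_eq_one]
    refine det fun z hz => ?_
    obtain ⟨-, x, k2, w, k3, k4, k5, k6⟩ := z4 hz
    have : r.1 • el [3] • x = el [3] • w := r3 x k2 w k3 k5 k6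
    simp only [← k4, mul_smul, inv_smul_eq_iff, this, inv_smul_smul, k6]
  have T := H.tri (g := g) ⟨g, g⁻¹ * r⁻¹ * g, Prod.ext (by
    simp only [gr, g, Prod.fst_mul, MonoidHom.prod_apply, Subgroup.coe_subtype, Subgroup.coe_mul,
      Subgroup.coe_inv, eq_inv_mul_iff_mul_eq.2 r4.symm]; group) (by
    have := eq_inv_mul_iff_mul_eq.2 r1.symm
    simp only [gr, Prod.snd_mul, MonoidHom.prod_apply, MonoidHom.comp_apply, MulEquiv.coe_toMonoidHom,
      Subgroup.coe_subtype, map_mul, map_inv, Prod.snd_inv, this]; group)⟩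
  rw [s_a, hg] at T
  obtain ⟨Φ, hΦ⟩ := lift H T
  have := GG_main.1
  refine ⟨MulEquiv.ofBijective Φ ((Nat.bijective_iff_injective_and_card _).2 ⟨(MonoidHom.ker_eq_bot_iff Φ).1
    ((Subgroup.Normal.eq_bot_or_eq_top inferInstance).resolve_right fun k => r2 ?_), ?_⟩)⟩
  · have : θ r = 1 := Subtype.ext ((hΦ r).symm.trans (MonoidHom.mem_ker.1 (k.ge trivial)))
    rw [(map_eq_one_iff θ θ.injective).1 this, one_smul]
  · rw [GG_main.2.1, ← (stabilizer G a).index_mul_card, index_stabilizer_of_transitive, hΩ,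
      ← Nat.card_congr θ.toEquiv, card_F]

end Cfsg.Lib.Spor.Ru.Rk
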