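import Cfsg.Agent.Spor.J3OrdC
import Cfsg.Agent.Class.A5Recog
import Cfsg.Agent.Solv.CyclicIndexP

/-!
A simple group of order 50232960: the structure of the centralizer of a central involution.
-/

set_option autoImplicit false

namespace Cfsg.Lib.Spor.J3Ord

open Cfsg.Lib.Solv Cfsg.Lib.Known Cfsg.Lib.Spor.Mo Cfsg.Lib.Spor.O24 Subgroup
open Cfsg.Lib.Spor.O7920 (instFact5)

theorem a5inv : ∀ t : Equiv.Perm (Fin 5), t * t = 1 → t ≠ 1 → Equiv.Perm.sign t = 1 →
    ∃ g : Equiv.Perm (Fin 5), Equiv.Perm.sign g = 1 ∧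
      (t * (g * t * g⁻¹)) ^ 5 = 1 ∧ t * (g * t * g⁻¹) ≠ 1 := by decide +kernel

theorem exists_E {K : Type*} [Group K] [Finite K] {w z : K} (hw : orderOf w = 5)
    (hK : Nat.card K = 1920) (hc : Nat.card (centralizer ({w} : Set K)) = 10)
    (hz : orderOf z = 2) (hZ : z ∈ pCore 2 K ⊓ centralizer {w}) :
    Nat.card (pCore 2 K) = 32 ∧ Nonempty (K ⧸ pCore 2 K ≃* alternatingGroup (Fin 5)) := by
  have h : Tp 5 w := ⟨hw, le_rfl, ⟨7, hK ▸ by norm_num⟩, hc ▸ by norm_num⟩
  have hP := pCore_isPGroup 2 K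
  have k := h.quot _ hP
  have h0 := pCore_quotient_pCore 2 K
  obtain ⟨j, hj⟩ := hP.exists_card_eq
  have h1 := card_eq_card_quotient_mul_card_subgroup (pCore 2 K)
  have h2 := h.card_cent _ hP
  have h3 := index_mul_card (centralizer ({(w : K ⧸ pCore 2 K)} : Set (K ⧸ pCore 2 K)))
  have h4 := card_mod (hw ▸ pow_orderOf_eq_one w) (A := pCore 2 K) fun s hs =>
    (inferInstance : (pCore 2 K).Normal).conj_mem s hs w
  rw [hK, hj] at h1
  rw [hc] at h2
  rcases k.cases h0 (Or.inl rfl) with h5 | ⟨h5, h6⟩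
  · have h7 : Nat.card (K ⧸ pCore 2 K) ∣ 4 * 10 := h3 ▸ Nat.mul_dvd_mul h5 (Dvd.intro _ h2)
    have h8 : 3 ∣ Nat.card (K ⧸ pCore 2 K) :=
      (Nat.Coprime.pow_right j (by norm_num : Nat.Coprime 3 2)).dvd_of_dvd_mul_right
        (by rw [← h1]; norm_num)
    exact absurd (h8.trans h7) (by norm_num)
  have := k.simple h0
  have h7 := k.index_le
  obtain ⟨m, hm⟩ := card_subgroup_dvd_card (normalClosure ({(w : K ⧸ pCore 2 K)} : Set _))
  replace h6 : Nat.card (normalClosure ({(w : K ⧸ pCore 2 K)} : Set _)) = 60 := by omega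
  rw [k.card_ord, (card_sylow_eq (p := 5) (m := 12) (n := 6) h6 (by norm_num)
    (by norm_num) (by decide)).2] at h7
  have h8 : Nat.card (pCore 2 K ⊓ centralizer {w} : Subgroup K) ∣ 2 ^ j :=
    hj ▸ card_dvd_of_le inf_le_left
  rw [h6] at hm
  rw [hm] at h1 h3
  have h10 : j = 5 := by
    have h10 : j < 6 := (Nat.pow_lt_pow_iff_right one_lt_two).1 (by
      have : 0 < m := Nat.pos_of_mul_pos_left (hm ▸ Nat.card_pos); nlinarith)
    have h9 := Nat.le_of_dvd two_pos (Nat.dvd_gcd (Dvd.intro_left _ h2)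
      (h8.trans (pow_dvd_pow 2 (Nat.le_of_lt_succ h10))))
    have h12 := orderOf_dvd_natCard _ hZ
    rw [hz] at h12
    rw [hj, Nat.ModEq] at h4
    generalize Nat.card (pCore 2 K ⊓ centralizer {w} : Subgroup K) = d at h2 h4 h9 h12
    have h11 : Nat.card (centralizer ({(w : K ⧸ pCore 2 K)} : Set (K ⧸ pCore 2 K))) = 10 / d := by
      interval_cases d <;> omega
    rw [h11] at h3
    interval_cases j <;> interval_cases d <;> first | rfl | omega
  subst h10
  have h11 : normalClosure ({(w : K ⧸ pCore 2 K)} : Set _) = ⊤ := eq_top_of_card_eq _ (by omega)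
  exact ⟨hj, ⟨(topEquiv.symm.trans (MulEquiv.subgroupCongr h11.symm)).trans
    (Class.nonempty_mulEquiv_A5_of_isSimpleGroup h6).some⟩⟩

variable {G : Type*} [Group G] [Finite G]

/-- The largest normal 2-subgroup `E` of the centralizer of `z`. -/
structure Loc (S : Subgroup G) (z : G) (E : Subgroup G) : Prop where
  card : Nat.card E = 32
  le : E ≤ S
  idx : (centralizer ({z} : Set G)).index = 26163
  nrm : ∀ g ∈ centralizer ({z} : Set G), ∀ a ∈ E, g * a * g⁻¹ ∈ E
  fix : ∀ v ∈ centralizer ({z} : Set G), orderOf v = 5 → E ⊓ centralizer {v} = zpowers z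
  inv : ∀ t ∈ centralizer ({z} : Set G), t ∉ E → t * t ∈ E →
    ∃ g ∈ centralizer ({z} : Set G), 5 ∣ orderOf (t * (g * t * g⁻¹))
  ex : ∃ v ∈ centralizer ({z} : Set G), orderOf v = 5

theorem loc [IsSimpleGroup G] (hG : Nat.card G = 50232960) (S : Sylow 2 G) {z : G}
    (hz : orderOf z = 2) (hS : (S : Subgroup G) ≤ centralizer {z}) :
    (Nat.card (pCore 2 (centralizer ({z} : Set G))) = 32 ∧ Nonempty (centralizer ({z} : Set G) ⧸
      pCore 2 (centralizer ({z} : Set G)) ≃* alternatingGroup (Fin 5))) ∧ ∃ E, Loc S z E := by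
  obtain ⟨M, L, Y, θ, δ, ε, h, h1⟩ := cent hG
  have hc := h1 z hz fun h2 => S.not_dvd_index (h2.trans (index_dvd_of_le hS))
  have hz' : z ∈ centralizer ({z} : Set G) := mem_centralizer_singleton_iff.2 rfl
  have h2 : ∀ v ∈ centralizer ({z} : Set G), orderOf v = 5 →
      Nat.card (centralizer {v} ⊓ centralizer {z} : Subgroup G) = 10 := fun v hv h2 => by
    obtain ⟨k, h3, h4⟩ := sylow_cnt h2 h.not_sq hv
    have h5 := card_dvd_of_le (inf_le_left (a := normalizer (zpowers v : Set G))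
      (b := centralizer {z}))
    have h6 := card_dvd_of_le (inf_le_left (a := centralizer ({v} : Set G)) (b := centralizer {z}))
    have h7 := card_dvd_of_le (inf_le_inf_right (centralizer ({z} : Set G))
      ((SC.centralizer_zpowers v).ge.trans (centralizer_le_normalizer _)))
    have h8 := orderOf_dvd_natCard (centralizer {v} ⊓ centralizer {z})
      ⟨mem_centralizer_singleton_iff.2 rfl, hv⟩
    have h9 := orderOf_dvd_natCard (centralizer {v} ⊓ centralizer {z})
      ⟨mem_centralizer_singleton_iff.2 (mem_centralizer_singleton_iff.1 hv).symm, hz'⟩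
    rw [h.card_norm h2] at h5
    rw [h.card_centralizer h2] at h6
    rw [hc] at h3
    rw [h2] at h8
    rw [hz] at h9
    generalize Nat.card (normalizer (zpowers v : Set G) ⊓ centralizer {z} : Subgroup G) = a at *
    generalize Nat.card (centralizer {v} ⊓ centralizer {z} : Subgroup G) = b at *
    have h10 := Nat.le_of_dvd (by norm_num) h6
    obtain rfl | rfl : b = 10 ∨ b = 30 := by interval_cases b <;> omega
    · rfl
    · obtain ⟨i, rfl⟩ := h7
      have := Nat.le_of_dvd (by norm_num) h5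
      obtain rfl | rfl | rfl : i = 0 ∨ i = 1 ∨ i = 2 := by omega
      all_goals omega
  obtain ⟨⟨v, hv⟩, h3⟩ := exists_prime_orderOf_dvd_card' 5 (hc ▸ (by norm_num : 5 ∣ 1920))
  have h7 : (⟨z, hz'⟩ : centralizer ({z} : Set G)) ∈ pCore 2 _ := le_pCore (normal_of_le_center
    (zpowers_le.2 (mem_center_iff.2 fun g => Subtype.ext (mem_centralizer_singleton_iff.1 g.2))))
    (IsPGroup.of_card (n := 1) ((Nat.card_zpowers _).trans ((orderOf_mk z hz').trans hz)))
    (mem_zpowers _)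
  have h4 := exists_E h3 hc (by
    rw [← h2 v hv ((orderOf_mk v hv).symm.trans h3), ← card_subgroupOf]
    congr 2
    ext g
    simp only [mem_centralizer_singleton_iff, mem_subgroupOf, Subtype.ext_iff, coe_mul])
    ((orderOf_mk z hz').trans hz) ⟨h7, mem_centralizer_singleton_iff.2
      (Subtype.ext (mem_centralizer_singleton_iff.1 hv).symm)⟩
  have h5 := (card_map_of_injective (subtype_injective (centralizer ({z} : Set G)))).trans h4.1
  refine ⟨h4, (pCore 2 _).map (centralizer {z}).subtype, h5, ?_, ?_, ?_, fun w hw h6 => ?_,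
    fun t ht h6 h7 => ?_, v, hv, (orderOf_mk v hv).symm.trans h3⟩
  · rintro _ ⟨a, ha, rfl⟩
    exact (pCore_isPGroup 2 _).le_sylow_of_normal (S.subtype hS) ha
  · have := card_mul_index (centralizer ({z} : Set G))
    rw [hc] at this
    omega
  · rintro g hg _ ⟨a, ha, rfl⟩
    exact ⟨_, (inferInstance : (pCore 2 _).Normal).conj_mem a ha ⟨g, hg⟩, rfl⟩
  · refine (eq_of_le_of_card_ge (zpowers_le.2 (mem_inf.2 ⟨mem_map_of_mem (Subgroup.subtype _) h7,
      mem_centralizer_singleton_iff.2 (mem_centralizer_singleton_iff.1 hw).symm⟩)) ?_).symm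
    have h8 := card_dvd_of_le (inf_le_left (a := (pCore 2 _).map (centralizer ({z} : Set G)).subtype)
      (b := centralizer {w}))
    have h9 := card_dvd_of_le (inf_le_inf_right (centralizer {w})
      (map_subtype_le (pCore 2 (centralizer ({z} : Set G)))))
    rw [inf_comm (centralizer _), h2 w hw h6] at h9
    rw [h5] at h8
    exact (Nat.le_of_dvd two_pos (Nat.dvd_gcd h8 h9)).trans_eq ((Nat.card_zpowers z).trans hz).symm
  · obtain ⟨e⟩ := h4.2
    let f := (alternatingGroup (Fin 5)).subtype.comp (e.toMonoidHom.comp (QuotientGroup.mk' _))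
    have h8 : ∀ a, f a = 1 ↔ (a : G) ∈ (pCore 2 _).map (centralizer {z}).subtype := fun a => by
      simp [f]
    obtain ⟨g, h9, h10, h11⟩ := a5inv (f ⟨t, ht⟩) (by rw [← map_mul, h8]; exact h7)
      (mt (h8 _).1 h6) (e _).2
    obtain ⟨g, rfl⟩ : ∃ a, f a = g := by
      obtain ⟨a, ha⟩ := QuotientGroup.mk_surjective (e.symm ⟨g, h9⟩)
      exact ⟨a, by simp [f, ha]⟩
    refine ⟨g, g.2, (orderOf_eq_prime h10 h11).symm.dvd.trans ?_⟩
    rw [← map_inv, ← map_mul, ← map_mul, ← map_mul]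
    exact (orderOf_map_dvd f _).trans (orderOf_coe _).symm.dvd

theorem rel_eq (H : Subgroup G) (t : G) :
    (centralizer {t}).relIndex H = {g | ∃ h ∈ H, h * t * h⁻¹ = g}.ncard := by
  letI := MulAction.compHom G (MulAut.conj.comp H.subtype)
  rw [show {g | ∃ h ∈ H, h * t * h⁻¹ = g} = MulAction.orbit H t from Set.ext fun g =>
    ⟨fun ⟨h, h1, h2⟩ => ⟨⟨h, h1⟩, h2⟩, fun ⟨h, h2⟩ => ⟨h, h.2, h2⟩⟩, ← MulAction.index_stabilizer]
  exact congrArg index (Subgroup.ext fun g => mem_centralizer_singleton_iff.trans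
    mul_inv_eq_iff_eq_mul.symm)

theorem card_mul_rel (A B : Subgroup G) :
    Nat.card (B ⊓ A : Subgroup G) * A.relIndex B = Nat.card B := by
  rw [inf_comm, ← card_subgroupOf, relIndex, card_mul_index]

theorem eq_of_zp {y z : G} (hz : orderOf z = 2) (h : y ∈ zpowers z) (hy : y ≠ 1) : y = z := by
  classical
  rw [mem_zpowers_iff_mem_range_orderOf, hz] at h
  simpa [Finset.range_add_one, hy, hy.symm, eq_comm] using h

namespace Loc

variable {S E : Subgroup G} {z : G} (h : Loc S z E) (hz : orderOf z = 2)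
include h hz

theorem four_le {t : G} (h1 : t ∈ centralizer ({z} : Set G)) (h2 : t ∉ E) (h3 : t * t ∈ E) :
    4 ≤ (centralizer {t}).relIndex E := by
  obtain ⟨g, h4, h5⟩ := h.inv t h1 h2 h3
  have h6 := h.fix _ (pow_mem (mul_mem h1 (mul_mem (mul_mem h4 h1) (inv_mem h4))) _)
    (orderOf_pow_orderOf_div (orderOf_pos _).ne' h5)
  have h7 := card_mul_rel (centralizer {t} ⊓ centralizer {g * t * g⁻¹}) E
  have h8 : Nat.card (E ⊓ (centralizer {t} ⊓ centralizer {g * t * g⁻¹}) : Subgroup G) ≤ 2 := by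
    rw [← hz, ← Nat.card_zpowers, ← h6]
    exact card_le_of_le (inf_le_inf_left E fun a ha => mem_centralizer_singleton_iff.2
      ((Commute.mul_right (mem_centralizer_singleton_iff.1 ha.1)
        (mem_centralizer_singleton_iff.1 ha.2)).pow_right _))
  have h9 := relIndex_inf_le (H := centralizer {t}) (K := centralizer {g * t * g⁻¹}) (L := E)
  have h10 := card_mul_rel (centralizer {t}) E
  have h11 := card_mul_rel (centralizer {g * t * g⁻¹}) E
  have h12 : Nat.card (E ⊓ centralizer {t} : Subgroup G) ≤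
      Nat.card (E ⊓ centralizer {g * t * g⁻¹} : Subgroup G) :=
    Nat.card_le_card_of_injective (fun a => ⟨g * a * g⁻¹, h.nrm g h4 a a.2.1,
      mem_centralizer_singleton_iff.2 (by
        rw [conj_mul, conj_mul, mem_centralizer_singleton_iff.1 a.2.2])⟩) fun a b e =>
      Subtype.ext (by simpa using congrArg Subtype.val e)
  rw [h.card] at h7 h10 h11
  have h13 : (centralizer {g * t * g⁻¹}).relIndex E ≤ (centralizer {t}).relIndex E := by
    refine Nat.le_of_mul_le_mul_left ((h11.trans h10.symm).le.trans (Nat.mul_le_mul_right _ h12))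
      Nat.card_pos
  nlinarith

variable {y : G} (hy : orderOf y = 2) (hne : y ≠ z) (hS : S ≤ centralizer {y})
  (hc : y ∈ centralizer ({z} : Set G))
include hy hne hS hc

theorem mem : y ∈ E := by
  have h1 : y * y = 1 := by rw [← sq, ← hy, pow_orderOf_eq_one]
  by_contra h2
  have := h.four_le hz hc h2 (h1 ▸ one_mem E)
  rw [relIndex_eq_one.2 (h.le.trans hS)] at this
  omega

theorem not_mem {v : G} (hv : v ∈ centralizer ({z} : Set G)) (h5 : orderOf v = 5) :
    y ∉ centralizer ({v} : Set G) := fun h1 =>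
  hne (eq_of_zp hz (h.fix v hv h5 ▸ ⟨h.mem hz hy hne hS hc, h1⟩) fun e => by simp [e] at hy)

theorem elem (hS' : S ≤ centralizer {z}) : ∀ a ∈ E, a * a = 1 ∧ ∀ b ∈ E, a * b = b * a := by
  let A : Subgroup G := ⟨⟨⟨{a | a ∈ E ∧ a * a = 1 ∧ ∀ b ∈ E, a * b = b * a}, fun {a b} ha hb =>
    ⟨mul_mem ha.1 hb.1, by rw [mul_assoc, ← mul_assoc b, ← ha.2.2 b hb.1, mul_assoc, hb.2.1, mul_one,
      ha.2.1], fun c hc => (Commute.mul_left (ha.2.2 c hc) (hb.2.2 c hc) :)⟩⟩, by simp⟩,
    fun {a} ha => by rwa [inv_eq_of_mul_eq_one_right ha.2.1]⟩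
  obtain ⟨v, hv, h5⟩ := h.ex
  have h1 : ∀ {x : G}, orderOf x = 2 → x ∈ E → S ≤ centralizer {x} → x ∈ A := fun h1 h2 h3 =>
    ⟨h2, by rw [← sq, ← h1, pow_orderOf_eq_one], fun b hb =>
      (mem_centralizer_singleton_iff.1 (h3 (h.le hb))).symm⟩
  have h2 := card_mod (h5 ▸ pow_orderOf_eq_one v) (A := A) fun a ha => ⟨h.nrm v hv a ha.1,
    by rw [conj_mul, ha.2.1, mul_one, mul_inv_cancel], fun b hb => by
      have := ha.2.2 _ (h.nrm _ (inv_mem hv) b hb)
      calc _ = v * (a * (v⁻¹ * b * v⁻¹⁻¹)) * v⁻¹ := by group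
        _ = _ := by rw [this]; group⟩
  have h3 := (h.fix v hv h5).ge (mem_zpowers z)
  have h4 : A ≤ E := fun a ha => ha.1
  have h6 : A ⊓ centralizer {v} = zpowers z := le_antisymm ((inf_le_inf_right _ h4).trans
    (h.fix v hv h5).le) (zpowers_le.2 ⟨h1 hz h3.1 hS', h3.2⟩)
  have h7 : Nat.card A ≠ 2 := fun e => h.not_mem hz hy hne hS hc hv h5 ((eq_of_le_of_card_ge
    (inf_le_left (a := A) (b := centralizer {v})) (by rw [h6, Nat.card_zpowers, hz, e])).ge
      (h1 hy (h.mem hz hy hne hS hc) hS)).2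
  have h8 := h.card ▸ card_dvd_of_le h4
  rw [h6, Nat.card_zpowers, hz] at h2
  exact fun a ha => ((eq_of_le_of_card_ge h4 (h.card.trans ((by decide : ∀ d ∈ Nat.divisors 32,
    d ≡ 2 [MOD 5] → d ≠ 2 → 32 = d) _ (Nat.mem_divisors.2 ⟨h8, by norm_num⟩) h2 h7)).le).ge ha).2

theorem not_le (k : Loc S y E) : False := by
  have h1 : ∀ {x : G}, Loc S x E → centralizer {x} ≤ normalizer (E : Set G) := fun k g hg =>
    mem_normalizer_fintype (k.nrm g hg)
  obtain ⟨v, hv, h5⟩ := h.ex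
  have h2 := rel_eq (normalizer (E : Set G)) z
  have h3 := (h.fix v hv h5).ge (mem_zpowers z)
  have h4 : {g | ∃ a ∈ normalizer (E : Set G), a * z * a⁻¹ = g} ⊆ E := by
    rintro _ ⟨a, ha, rfl⟩
    exact (mem_normalizer_iff.1 ha z).1 h3.1
  have h6 := ncard_mod (h5 ▸ pow_orderOf_eq_one v)
    (S := {g | ∃ a ∈ normalizer (E : Set G), a * z * a⁻¹ = g}) (by
      rintro _ ⟨a, ha, rfl⟩
      exact ⟨v * a, mul_mem (h1 h hv) ha, by group⟩)
  rw [show {s ∈ {g | ∃ a ∈ normalizer (E : Set G), a * z * a⁻¹ = g} | v * s = s * v} = {z} from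
    Set.eq_singleton_iff_unique_mem.2 ⟨⟨⟨1, one_mem _, by group⟩,
      mem_centralizer_singleton_iff.1 hv⟩, fun s hs => eq_of_zp hz (h.fix v hv h5 ▸ ⟨h4 hs.1,
        mem_centralizer_singleton_iff.2 hs.2.symm⟩) (by
          obtain ⟨a, -, rfl⟩ := hs.1
          exact fun e => by simp [conj_eq_one_iff.1 e] at hz)⟩, Set.ncard_singleton, ← h2] at h6
  have h7 := Set.ncard_le_ncard h4
  rw [← h2, ← Nat.card_coe_set_eq, SetLike.coe_sort_coe, h.card] at h7
  have h8 := relIndex_mul_index (h1 h)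
  have h9 := relIndex_eq_one.1 ((by decide : ∀ r ≤ 32, r ≡ 1 [MOD 5] → r ∣ 26163 → r = 1) _ h7 h6
    (h.idx ▸ Dvd.intro _ h8))
  have h10 := relIndex_mul_index ((h1 k).trans h9)
  rw [h.idx, k.idx, Nat.mul_eq_right (by norm_num), relIndex_eq_one] at h10
  exact h.not_mem hz hy hne hS hc hv h5 (mem_centralizer_singleton_iff.2
    (mem_centralizer_singleton_iff.1 (h10 hv)).symm)

end Loc

theorem unique [IsSimpleGroup G] (hG : Nat.card G = 50232960) (S : Sylow 2 G) {y z : G}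
    (hy : orderOf y = 2) (hz : orderOf z = 2) (h1 : y ∈ (S : Subgroup G)) (h2 : z ∈ (S : Subgroup G))
    (hSy : (S : Subgroup G) ≤ centralizer {y}) (hSz : (S : Subgroup G) ≤ centralizer {z}) :
    y = z := by
  by_contra hne
  have h3 : Commute y z := mem_centralizer_singleton_iff.1 (hSz h1)
  have h4 : y * y = 1 := by rw [← sq, ← hy, pow_orderOf_eq_one]
  have h5 : z * z = 1 := by rw [← sq, ← hz, pow_orderOf_eq_one]
  have hx : orderOf (y * z) = 2 := orderOf_eq_prime (by rw [h3.mul_pow, sq, sq, h4, h5, one_mul])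
    fun e => hne (by rw [eq_inv_of_mul_eq_one_left e, inv_eq_of_mul_eq_one_right h5])
  have hSx : (S : Subgroup G) ≤ centralizer {y * z} := fun g hg => mem_centralizer_singleton_iff.2
    (Commute.mul_right (mem_centralizer_singleton_iff.1 (hSy hg))
      (mem_centralizer_singleton_iff.1 (hSz hg)))
  have h6 : y ≠ y * z := fun e => by simp [left_eq_mul.1 e] at hz
  have h7 : z ≠ y * z := fun e => by simp [right_eq_mul.1 e] at hy
  obtain ⟨-, A, hA⟩ := loc hG S hz hSz
  obtain ⟨-, B, hB⟩ := loc hG S hy hSy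
  obtain ⟨-, C, hC⟩ := loc hG S hx hSx
  obtain ⟨u, h8, h9, h10⟩ : ∃ u ∈ C, u ∉ A ∧ u ∉ B := by
    obtain ⟨a, h8, h9⟩ := SetLike.not_le_iff_exists.1 fun e : C ≤ A => hC.not_le hx hz h7 hSz
      (hSx h2) (eq_of_le_of_card_ge e (hA.card.trans hC.card.symm).le ▸ hA)
    obtain ⟨b, h10, h11⟩ := SetLike.not_le_iff_exists.1 fun e : C ≤ B => hC.not_le hx hy h6 hSy
      (hSx h1) (eq_of_le_of_card_ge e (hB.card.trans hC.card.symm).le ▸ hB)
    by_cases h12 : a ∈ B
    · by_cases h13 : b ∈ A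
      exacts [⟨a * b, mul_mem h8 h10, mt (mul_mem_cancel_right h13).1 h9,
        mt (mul_mem_cancel_left h12).1 h11⟩, ⟨b, h10, h13, h11⟩]
    · exact ⟨a, h8, h9, h12⟩
  have h11 := hA.elem hz hy hne hSy (hSz h1) hSz
  have h12 := hB.elem hy hz (Ne.symm hne) hSz (hSy h2) hSy
  have h13 := card_mul_rel A S
  have h14 : Nat.card S = 128 := SC.sylow_card_eq_pow (k := 7) (m := 392445) S (hG.trans (by norm_num))
    (by norm_num)
  rw [inf_eq_right.2 hA.le, hA.card, h14] at h13
  have h15 := relIndex_le_of_le_right (H := A) hB.le (by omega)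
  have h16 := card_mul_rel A B
  have h17 : ∀ b ∈ B, b ∉ A → A ⊓ centralizer {b} = B ⊓ A ∧ 4 ≤ A.relIndex B := fun b h17 h18 => by
    have h19 := hA.four_le hz (hSz (hB.le h17)) h18 ((h12 b h17).1 ▸ one_mem A)
    have h20 := card_mul_rel (centralizer {b}) A
    have h21 : B ⊓ A ≤ A ⊓ centralizer {b} := fun a ha =>
      ⟨ha.2, mem_centralizer_singleton_iff.2 ((h12 a ha.1).2 b h17)⟩
    have h22 := card_le_of_le h21
    rw [hA.card] at h20
    rw [hB.card] at h16
    exact ⟨(eq_of_le_of_card_ge h21 (by nlinarith)).symm, by nlinarith⟩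
  obtain ⟨t, h18, h19⟩ := SetLike.not_le_iff_exists.1 fun e : B ≤ A => hB.not_le hy hz (Ne.symm hne)
    hSz (hSy h2) (eq_of_le_of_card_ge e (hA.card.trans hB.card.symm).le ▸ hA)
  have : (A.subgroupOf S).Normal := ⟨fun a ha g => hA.nrm g (hSz g.2) a ha⟩
  have h20 := relIndex_mul_index (le_sup_left (a := A.subgroupOf S) (b := B.subgroupOf S))
  rw [relIndex_sup_left, relIndex_subgroupOf hB.le, ← relIndex] at h20
  have h21 := (h17 t h18 h19).2
  have h22 : A.subgroupOf S ⊔ B.subgroupOf S = ⊤ := index_eq_one.1 (by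
    have := (A.subgroupOf S ⊔ B.subgroupOf S).index_ne_zero_of_finite
    have := Nat.pos_of_ne_zero this
    nlinarith)
  obtain ⟨a, h23, b, h24, h25⟩ := mem_sup_of_normal_left.1 (h22.ge (mem_top ⟨u, hC.le h8⟩))
  obtain rfl : a * b = u := congrArg Subtype.val h25
  have h26 := (hC.elem hx hy h6 hSy (hSx h1) hSx _ h8).1
  refine h10 (mul_mem ((h17 b h24 fun e => h9 (mul_mem h23 e)).1.le ⟨h23,
    mem_centralizer_singleton_iff.2 ?_⟩).1 h24)
  exact (inv_eq_of_mul_eq_one_right h26).symm.trans (by rw [mul_inv_rev,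
    inv_eq_of_mul_eq_one_right (h11 a h23).1, inv_eq_of_mul_eq_one_right (h12 b h24).1]; rfl)

end Cfsg.Lib.Spor.J3Ord
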