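import Cfsg.Agent.Spor.BmL2A
import Cfsg.Agent.Spor.BmL2C
import Cfsg.Agent.Spor.F23P
import Cfsg.Agent.Spor.Fi23Mdl
import Cfsg.Agent.Spor.TQSym

/-! The local data for the subgroups `L2(23)` of the Baby Monster. -/

set_option autoImplicit false
set_option maxRecDepth 100000

namespace Cfsg.Lib.Spor.Bm.L2

open Subgroup Equiv Cfsg.Lib.Spor.Fm Cfsg.Lib.Spor.Bulk

instance fact11 : Fact (Nat.Prime 11) := ⟨by norm_num⟩
instance finB : Finite BB := finiteB

theorem loc23 {x : HH} (h : orderOf x = 23) : centralizer (zpowers x : Set HH) = zpowers x ∧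
    Nat.card (normalizer (zpowers x : Set HH)) = 11 * 23 := by
  obtain ⟨M, -⟩ := F23.exists_mdl0
  have hX := (Nat.card_zpowers x).trans h
  obtain ⟨N, e⟩ := (F23.subp M (p := 23) (a := 177803064056217600) (by norm_num) (by norm_num)).2
    (W := F23.x23) (by decide +kernel) _ hX
  rw [e] at hX ⊢
  exact ⟨by rw [← N.grp_cen, (F23.c23 N).2, ← N.gW_one]; rfl, card_normalizer_of_prime hX (c := 1)
    (a := 177803064056217600) (N.grp_cen _ ▸ (F23.c23 N).1) (F23.cardG M) (by norm_num)⟩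

theorem loc11 {x : HH} (h : orderOf x = 11) : Nat.card (centralizer ({x} : Set HH)) = 44 ∧
    Nat.card (normalizer (zpowers x : Set HH)) = 40 * 11 := by
  obtain ⟨M, -⟩ := F23.exists_mdl0
  have hX := (Nat.card_zpowers x).trans h
  obtain ⟨N, e⟩ := (F23.subp M (p := 11) (a := 371770043026636800) (by norm_num) (by norm_num)).2
    (W := F23.x11) (by decide +kernel) _ hX
  rw [← centralizer_zpowers']
  rw [e] at hX ⊢
  exact ⟨N.grp_cen _ ▸ (F23.c11 N).1, card_normalizer_of_prime hX (c := 4)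
    (a := 92942510756659200) (N.grp_cen _ ▸ (F23.c11 N).1) (F23.cardG M) (by norm_num)⟩

theorem ev2 (n m : ℕ) (X : List ℕ) : evN tb (n :: m :: X) = evN tb [n] * evN tb (m :: X) := evN_append tb [n] _

theorem e7 : evN tb [7] = (evN tb [4])⁻¹ := by
  simp only [evN_cons, evN_nil, mul_one, ← evB_reverse]; rfl

theorem e8 : evN tb [8] = (evN tb [5])⁻¹ := by
  simp only [evN_cons, evN_nil, mul_one, ← evB_reverse]; rfl

theorem w2 : evN tb [6, 2, 6, 0] = 1 := of_oneB (S := []) (by decide +kernel)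

theorem ou : orderOf (evN tb [4]) = 23 := orderOf_eq_prime (by simpa only [ev2, pow_succ', pow_zero, mul_one] using u23) nu.2
theorem os : orderOf (evN tb [5]) = 11 := orderOf_eq_prime (by simpa only [ev2, pow_succ', pow_zero, mul_one] using s11) ns.2

theorem cs {i : ℕ} (h : evN tb [i, i] = 1) (h' : evN tb [i, 5, i, 8] = 1) : Commute (evN tb [i]) (evN tb [5]) := by
  simp only [ev2, e8, ← mul_assoc, mul_inv_eq_one] at h h'
  rw [Commute, SemiconjBy, ← mul_inv_eq_iff_eq_mul, inv_eq_of_mul_eq_one_right h, h']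

theorem cc {i j : ℕ} (h : evN tb [i, i] = 1) (h' : evN tb [j, j] = 1) (h'' : evN tb [i, j, i, j] = 1) :
    Commute (evN tb [i]) (evN tb [j]) := by
  simp only [ev2] at h h' h''
  rw [Commute, SemiconjBy, eq_inv_of_mul_eq_one_left ((mul_assoc _ _ _).trans h''), mul_inv_rev,
    inv_eq_of_mul_eq_one_right h, inv_eq_of_mul_eq_one_right h']

/-- the permutation of a word -/
def pw (X : List ℕ) : Perm (Fin 5) := (X.map fun n => swap (Fin.ofNat 5 n) (Fin.ofNat 5 (n + 1))).prod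

theorem cases_perm : ∀ σ : Perm (Fin 5), swap 0 3 * swap 1 2 * σ * (swap 0 3 * swap 1 2)⁻¹ * σ = 1 →
    σ = 1 ∨ σ = pw [2, 3, 2, 0, 1, 2] ∨ ∃ X ∈ LX, (∀ n ∈ X, n < 4) ∧ σ = pw X := by decide +kernel

theorem exists_ψ : ∃ ψ : Perm (Fin 5) →* BB, Function.Injective ψ ∧ (∀ X, (∀ n ∈ X, n < 4) → ψ (pw X) = evN tb X) ∧
    ψ.range ≤ centralizer {evN tb [5]} ∧ ∀ σ, evN tb [6] * ψ σ * (evN tb [6])⁻¹ =
      ψ (swap 0 3 * swap 1 2 * σ * (swap 0 3 * swap 1 2)⁻¹) := by
  obtain ⟨ψ, h⟩ := SymCox.exists_hom (n := 4) (fun i => evN tb [i]) (fun i => by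
      rw [← ev2]; fin_cases i; exacts [r00, r11, r22, r33])
    (fun i j h => by
      fin_cases i <;> fin_cases j <;> simp at h
      exacts [cc r00 r22 r02, cc r00 r33 r03, cc r11 r33 r13])
    (fun i j h => by
      fin_cases i <;> fin_cases j <;> simp at h <;> simp only [pow_succ', pow_zero, mul_one, ← evN_append]
      exacts [r01, r12, r23])
  have h1 : ∀ X, (∀ n ∈ X, n < 4) → ψ (pw X) = evN tb X := fun X hX => by
    induction X with
    | nil => exact map_one ψ
    | cons n X ih =>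
      have h2 := hX n List.mem_cons_self
      rw [← List.singleton_append, evN_append, ← ih fun m hm => hX m (List.mem_cons_of_mem _ hm), ← h ⟨n, h2⟩,
        ← map_mul]
      interval_cases n <;> rfl
  refine ⟨ψ, injective_perm_of_five_le (by simp) ψ (a := 0) (b := 1) (c := 2) (d := 3) (by decide) (by decide)
    fun e => n02.2 ?_, h1, ?_, fun σ => DFunLike.congr_fun (MonoidHom.eq_of_eqOn_denseM
      (Perm.mclosure_swap_castSucc_succ 4) (f := (MulAut.conj (evN tb [6])).toMonoidHom.comp ψ)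
      (g := ψ.comp (MulAut.conj (swap 0 3 * swap 1 2)).toMonoidHom) ?_) σ⟩
  · rw [ev2, show evN tb [0] = evN tb [2] from (h 0).symm.trans (e.trans (h 2)), ← ev2, r22]
  · rw [range_perm_hom, closure_le]
    rintro _ ⟨i, rfl⟩
    refine mem_centralizer_singleton_iff.2 ?_
    simp only [h]
    fin_cases i
    exacts [cs r00 s0, cs r11 s1, cs r22 s2, cs r33 s3]
  · rintro _ ⟨i, rfl⟩
    have h2 : ∀ Y, (∀ n ∈ Y, n < 4) → evN tb (6 :: i :: 6 :: Y) = 1 →
        swap 0 3 * swap 1 2 * swap i.castSucc i.succ * (swap 0 3 * swap 1 2)⁻¹ = (pw Y)⁻¹ →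
        evN tb [6] * ψ (swap i.castSucc i.succ) * (evN tb [6])⁻¹ =
          ψ (swap 0 3 * swap 1 2 * swap i.castSucc i.succ * (swap 0 3 * swap 1 2)⁻¹) := fun Y a b c => by
      rw [c, map_inv, h1 Y a, h, inv_eq_of_mul_eq_one_right ((ev2 _ _ _).symm.trans ww), eq_inv_iff_mul_eq_one,
        mul_assoc, mul_assoc, ← evN_append, ← evN_append, ← evN_append]
      exact b
    fin_cases i
    exacts [h2 _ (by decide) w0 (by decide), h2 _ (by decide) w1 (by decide), h2 _ (by decide) w2 (by decide),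
      h2 _ (by decide) w3 (by decide)]

theorem hdu : Commute (evN tb [4]) (evN tb [0, 3]) := by
  have h := du
  rw [show [0, 3, 4, 0, 3, 7] = [0, 3] ++ ([4] ++ ([0, 3] ++ [7])) from rfl] at h
  simp only [evN_append, e7, ← mul_assoc, mul_inv_eq_one] at h
  rw [Commute, SemiconjBy, eq_comm, ← mul_inv_eq_iff_eq_mul,
    inv_eq_of_mul_eq_one_right ((evN_append tb [0, 3] [0, 3]).symm.trans r03), h]

theorem hds : Commute (evN tb [5]) (evN tb [0, 3]) := by
  rw [ev2]; exact (cs r00 s0).symm.mul_right (cs r33 s3).symm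

theorem hsu : evN tb [5] * evN tb [4] * (evN tb [5])⁻¹ = evN tb [4] ^ 2 := by
  have h := su
  simp only [ev2, e7, e8, ← mul_assoc, mul_inv_eq_iff_eq_mul, one_mul] at h
  rw [mul_inv_eq_iff_eq_mul, h, pow_two]

theorem hww : evN tb [6] * evN tb [6] = 1 := (ev2 _ _ _).symm.trans ww

theorem hws : evN tb [6] * evN tb [5] * (evN tb [6])⁻¹ = (evN tb [5])⁻¹ := by
  rw [inv_eq_of_mul_eq_one_right hww, eq_inv_iff_mul_eq_one]
  simpa only [ev2, mul_assoc] using ws

theorem cen11 {ψ : Perm (Fin 5) →* BB} (h1 : Function.Injective ψ) (h2 : ψ.range ≤ centralizer {evN tb [5]}) :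
    centralizer {evN tb [5]} = zpowers (evN tb [5]) ⊔ ψ.range := by
  have := Fintype.ofFinite HH
  have h3 : Nat.card ψ.range = 120 := by
    rw [← Nat.card_congr (ψ.ofInjective h1).toEquiv, Nat.card_perm]; simp [Nat.factorial]
  refine (eq_of_le_of_card_ge (sup_le (zpowers_le.2 (mem_centralizer_singleton_iff.2 rfl)) h2) ?_).symm
  rw [card_sup_eq (le_norm_of_comm fun x hx y hy => (centralizer_zpowers' _).ge (h2 hy) x hx)
    (inf_eq_bot_of_prime (by norm_num) os fun h => by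
      have := orderOf_dvd_natCard (⟨_, h⟩ : ψ.range)
      rw [← Subgroup.orderOf_coe, os, h3] at this
      exact absurd this (by norm_num)), Nat.card_zpowers, os, h3]
  obtain ⟨x, hx⟩ := ns.1
  have h4 : orderOf x = 11 := by rw [← os, ← hx, orderOf_injective φB φB_injective]
  rw [← hx]
  refine (card_centralizer_le φB_injective x).trans ?_
  rw [(loc11 h4).1]
  exact Nat.mul_le_mul_right 44 ((dataB.ncard_fix_le arithG h4 (by rw [Fi23P.card]; norm_num) (loc11 h4).2
    (by norm_num) (getN 0 [1, 0, 0, 0, 0, 4, 0, 4, 0, 0, 0, 0, 0, 0, 0, 4, 0, 1, 0, 0, 8, 0, 8])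
    (by decide +kernel)).trans (show _ ≤ 30 by decide +kernel))

theorem ctx : Ctx φB.range (evN tb [4]) (evN tb [5]) (evN tb [6]) (evN tb [0, 3]) := by
  have := Fintype.ofFinite HH
  obtain ⟨x, hx⟩ := nu.1
  obtain ⟨z, hz⟩ := ns.1
  have ox : orderOf x = 23 := by rw [← ou, ← hx, orderOf_injective φB φB_injective]
  have oz : orderOf z = 11 := by rw [← os, ← hz, orderOf_injective φB φB_injective]
  have hd : evN tb [0, 3] * evN tb [0, 3] = 1 := (evN_append tb [0, 3] [0, 3]).symm.trans r03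
  refine ⟨by rw [isB.2]; norm_num, ou, hsu, hww, hws, ?_, ?_, nu.1, nw.1, hd, hdu, hds, ?_, fun y => ?_, ?_, ?_,
    fun y h1 h2 a ha c hc h3 => ?_⟩
  · rw [inv_eq_of_mul_eq_one_right hww, ← mul_inv_eq_one, inv_eq_of_mul_eq_one_right hww]
    simpa only [ev2, mul_assoc] using uw
  · rw [inv_eq_of_mul_eq_one_right hww, ← mul_inv_eq_one, mul_inv_rev, inv_eq_of_mul_eq_one_right hww]
    simpa only [ev2, e8, mul_assoc, pow_succ', pow_zero, mul_one] using h9
  · rw [← evN_append, ← evN_append]; exact not_mem_of_ndB ndw (by decide)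
  · refine mem_or_of_fix ?_ nu.1 hdu (not_mem_of_ndB nd (by decide))
    rw [← hx]
    exact (dataB.ncard_fix_le arithG ox (by rw [Fi23P.card]; norm_num) (loc23 ox).2 (by norm_num)
      (fun j => nB j % 23) (by decide +kernel)).trans (by decide +kernel)
  · rintro _ ⟨y, rfl⟩ h
    rw [← hx] at h ⊢
    obtain ⟨k, rfl⟩ := (loc23 ox).1.le (centralizer_zpowers' x ▸ mem_centralizer_singleton_iff.2
      (φB_injective (by rw [map_mul, map_mul]; exact h)) : y ∈ centralizer (zpowers x : Set HH))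
    exact ⟨k, (map_zpow φB x k).symm⟩
  · rintro _ ⟨y, rfl⟩ h
    obtain ⟨k, hk⟩ := mem_powers_iff_mem_zpowers.2 ((mem_normalizer_iff.1 h _).1 (mem_zpowers _))
    have h1 := hsu
    rw [← hx, ← hz] at *
    have h2 : zpowers z ≤ normalizer (zpowers x : Set HH) :=
      zpowers_le.2 (mem_normalizer_zpowers (k := 2) (φB_injective (by simpa using h1)))
    obtain ⟨_, ⟨i, rfl⟩, _, ⟨j, rfl⟩, rfl⟩ := mem_sup_norm h2 ((eq_of_le_of_card_ge (sup_le le_normalizer h2) (by
      rw [card_sup_eq h2 (inf_eq_bot_of_prime (by norm_num) ox fun h => by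
        have := orderOf_dvd_of_mem_zpowers h
        rw [ox, oz] at this
        exact absurd this (by norm_num)), Nat.card_zpowers, Nat.card_zpowers, ox, oz, (loc23 ox).2])).ge
      (mem_normalizer_zpowers (g := y) (k := k) (φB_injective (by simpa using hk.symm))))
    rw [map_mul, map_zpow, map_zpow]
    exact mul_mem_sup ⟨i, rfl⟩ ⟨j, rfl⟩
  obtain ⟨ψ, p1, p2, p3, p4⟩ := exists_ψ
  have hB : zpowers (evN tb [4]) ⊔ zpowers (evN tb [5]) ≤ φB.range ⊓ centralizer {evN tb [0, 3]} :=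
    sup_le (zpowers_le.2 ⟨nu.1, mem_centralizer_singleton_iff.2 hdu⟩)
      (zpowers_le.2 ⟨ns.1, mem_centralizer_singleton_iff.2 hds⟩)
  obtain ⟨_, hi, _, ⟨σ, rfl⟩, e⟩ := mem_sup_norm (le_norm_of_comm fun x hx y hy => (centralizer_zpowers' _).ge (p3 hy) x hx)
    ((cen11 p1 p3).le (x := (evN tb [6])⁻¹ * y) (mem_centralizer_singleton_iff.2 (by
      rw [mul_assoc, mul_inv_eq_iff_eq_mul.1 h2, ← hws]; group)))
  obtain ⟨i, rfl⟩ := mem_powers_iff_mem_zpowers.2 hi
  have h4 : Commute (ψ σ) (evN tb [5] ^ i) :=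
    Commute.pow_right (mem_centralizer_singleton_iff.1 (p3 ⟨σ, rfl⟩)) i
  have h5 : y = evN tb [6] * ψ σ * evN tb [5] ^ i := by
    rw [mul_assoc, h4.eq, (show evN tb [5] ^ i * ψ σ = _ from e), mul_inv_cancel_left]
  have h6 : evN tb [6] * ψ σ = evN tb [5] ^ i * y := by
    rw [← mul_inv_eq_iff_eq_mul, eq_mul_inv_iff_mul_eq.2 h5.symm, ← inv_pow, mul_assoc, ← mul_assoc, ← conj_pow,
      ← conj_inv, h2, inv_inv]
  refine ⟨i, ?_⟩
  rcases cases_perm σ (p1 (by
    rw [map_mul, ← p4, map_one, inv_eq_of_mul_eq_one_right hww, mul_assoc]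
    nth_rw 1 [h6]
    rw [eq_mul_inv_iff_mul_eq.2 h5.symm, mul_assoc, ← mul_assoc y, h1, one_mul, mul_inv_cancel])) with
    rfl | rfl | ⟨X, hX, a1, rfl⟩
  · exact Or.inl (by rw [h5, map_one, mul_one])
  · refine Or.inr (h5.trans (congrArg (· * _) ?_))
    have h7 := dwd
    rw [show [0, 3, 6, 0, 3, 6, 2, 3, 2, 0, 1, 2] = [0, 3] ++ [6] ++ [0, 3] ++ ([6] ++ [2, 3, 2, 0, 1, 2]) from rfl] at h7
    simp only [evN_append] at h7
    rw [p2 _ (by decide), eq_inv_of_mul_eq_one_right h7, mul_inv_rev, mul_inv_rev, inv_eq_of_mul_eq_one_right hd,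
      inv_eq_of_mul_eq_one_right hww, mul_assoc]
  have hs := pow_mem (mem_sup_right (S := zpowers (evN tb [4])) (mem_zpowers (evN tb [5]))) i
  have b1 := hB (mul_mem (mul_mem hs ha) (inv_mem hs))
  have b2 := hB (mul_mem hc (inv_mem hs))
  refine absurd ?_ (xall X hX _ b1.1 _ b2.1 (mem_centralizer_singleton_iff.1 b1.2)
    (mem_centralizer_singleton_iff.1 b2.2))
  rw [show evN tb (6 :: X) = evN tb [6] * ψ (pw X) from p2 X a1 ▸ evN_append tb [6] X]
  nth_rw 2 [eq_mul_inv_iff_mul_eq.2 h5.symm]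
  rw [h6, mul_assoc _ y, mul_assoc, ← mul_assoc (y * _), h3]
  group

end Cfsg.Lib.Spor.Bm.L2
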