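import Cfsg.Agent.Spor.J2Main
import Cfsg.Agent.Spor.PKWords

/-!
The centre of `2·J₂` lies in the commutator subgroup.
-/

set_option autoImplicit false

namespace Cfsg.Lib.Spor.J2

open Quaternion Cfsg.Spor Ico Cfsg.Lib.Spor.PK

/-- Follow the image of a minimal vector along a word. -/
noncomputable def walk (t : List ℕ) : Ico → ℕ → Bool :=
  List.rec (fun u k => Nat.beq k 0 && !beq u (ofZ 1)) (fun j _ ih u k =>
    frN (nth 0 (ps.getD j []) k) fun a => fr (un (nth 0 ([um0, um1, um2, um3].getD j []) k)) fun b =>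
      Nat.blt j 4 && (rchk (pv (nth 0 [0, 42, 79, 27] j)) (pv k) b (pv a) &&
        fr (mul u b) fun v => ih v a)) t

theorem walk_sound (x : icoLeech) (t : List ℕ) : ∀ (u : Ico) (k : ℕ) (w : twoJ2), walk t u k = true →
    ((w : Equiv.Perm icoLeech) x : V) = val u • vec k → ∃ v, v ≠ ofZ 1 ∧
      ((evalG srs t.reverse * w : twoJ2) : Equiv.Perm icoLeech) x = val v • vec 0 := by
  induction t with
  | nil =>
    intro u k w h e
    simp only [walk, Bool.and_eq_true, Nat.beq_eq, Bool.not_eq_true', ← Bool.not_eq_true,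
      beq_iff] at h
    exact ⟨u, h.2, by simpa [evalG, h.1] using e⟩
  | cons j t ih =>
    intro u k w h e
    replace h : (frN (nth 0 (ps.getD j []) k) fun a =>
      fr (un (nth 0 ([um0, um1, um2, um3].getD j []) k)) fun b => Nat.blt j 4 &&
      (rchk (pv (nth 0 [0, 42, 79, 27] j)) (pv k) b (pv a) && fr (mul u b) fun v => walk t v a)) =
        true := h
    simp only [frN_eq, fr_eq, Bool.and_eq_true, Nat.blt_eq] at h
    obtain ⟨h1, h2, h3⟩ := h
    have h4 : srs.getD j 1 = sr (nth 0 [0, 42, 79, 27] j) := by interval_cases j <;> rfl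
    obtain ⟨v, a, b⟩ := ih _ _ (srs.getD j 1 * w) h3 (by
      rw [h4, val_mul, mul_smul]
      refine Eq.trans ?_ (congrArg (val u • ·) (qrefl_of_rchk h2))
      exact (congrArg (qrefl _) e).trans ((reflL _).map_smul _ _))
    exact ⟨v, a, by simpa [evalG, mul_assoc] using b⟩

theorem exists_sq_eq : ∃ g : twoJ2, g * g = negOne := by
  let wd := [0, 1, 3, 0, 2, 1, 3, 2, 1, 3, 2, 1, 3, 2]
  have e : evalG srs (wd ++ wd) = evalG srs wd * evalG srs wd := by simp [evalG]
  refine ⟨evalG srs wd, (eq_of_mem_center ?_).resolve_left fun h => ?_⟩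
  · rw [← QuotientGroup.eq_one_iff, ← e]
    refine (map_evalG (QuotientGroup.mk' _) srs _).trans ?_
    exact (dens.evalW ctx (isMul_pmul ctx) (wd ++ wd)).unique ctx
      ((by decide +kernel : one 12 100 = evalW (pmul 12 100) (one 12 100) cs (wd ++ wd)) ▸ den_one ctx)
  · obtain ⟨v, h1, h2⟩ := walk_sound ⟨_, (minV_vec 0).1⟩ (wd ++ wd).reverse (ofZ 1) 0 1
      (by decide +kernel) (by simp [val_ofZ])
    rw [List.reverse_reverse, e, h, mul_one] at h2
    have h3 := congrArg (qip · (vec 0)) h2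
    simp only [qip_smul_left, OneMemClass.coe_one, Equiv.Perm.one_apply, (minV_vec 0).2] at h3
    exact h1 (val_inj (mul_right_cancel₀ four_ne (by rw [← h3, val_ofZ]; simp)))

theorem center_le_commutator : Subgroup.center twoJ2 ≤ commutator twoJ2 := by
  have h := eq_top_of_sr (K := ((powMonoidHom 2).comp (Abelianization.of (G := twoJ2))).ker)
    fun k _ => by
      have : sr k ^ 2 = 1 := (pow_two _).trans
        (Subtype.ext (Equiv.ext fun x => Subtype.ext (qrefl_qrefl (minV_vec k).2 x)))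
      rw [MonoidHom.mem_ker, MonoidHom.comp_apply, powMonoidHom_apply, ← map_pow, this, map_one]
  intro z hz
  rcases eq_of_mem_center hz with rfl | rfl
  · exact one_mem _
  obtain ⟨g, e⟩ := exists_sq_eq
  have h1 : g ∈ _ := h ▸ Subgroup.mem_top g
  rw [MonoidHom.mem_ker, MonoidHom.comp_apply, powMonoidHom_apply, ← map_pow, pow_two, e] at h1
  exact (QuotientGroup.eq_one_iff _).1 h1

end Cfsg.Lib.Spor.J2
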