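import Cfsg.Agent.Spor.BmAbs
import Cfsg.Agent.Spor.FmCyc

/-! Fixed points of elements of prime order on the cosets of a double coset enumeration. -/

set_option autoImplicit false

open Finset MulAction Subgroup

namespace Cfsg.Lib.Spor.Bm

open Cfsg.Lib.Spor.Fm

theorem exists_conj_mem_zpowers {K : Type*} [Group K] [Finite K] {p : ℕ} [Fact p.Prime] (S : Subgroup K)
    (hK : ¬ p ^ 2 ∣ Nat.card K) {x y : K} (hx : orderOf x = p) (hy : orderOf y = p) (h1 : x ∈ S) (h2 : y ∈ S) :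
    ∃ t ∈ S, t * y * t⁻¹ ∈ zpowers x := by
  have ox : orderOf (⟨x, h1⟩ : S) = p := by rw [← hx, ← Subgroup.orderOf_coe]
  have oy : orderOf (⟨y, h2⟩ : S) = p := by rw [← hy, ← Subgroup.orderOf_coe]
  obtain ⟨a, ha⟩ : p ∣ Nat.card S := ox ▸ orderOf_dvd_natCard _
  obtain ⟨t, ht⟩ := exists_conj_of_prime ha (fun h => hK ((by
    rw [ha, pow_two]; exact Nat.mul_dvd_mul_left p h : p ^ 2 ∣ Nat.card S).trans S.card_subgroup_dvd_card))
    ((Nat.card_zpowers _).trans oy) ((Nat.card_zpowers _).trans ox)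
  obtain ⟨k, hk⟩ := ht.le ⟨_, mem_zpowers _, rfl⟩
  exact ⟨t, t.2, k, by simpa using congrArg Subtype.val hk⟩

theorem fix_orbit {K X : Type*} [Group K] [Finite K] [MulAction K X] (a : X) {x : K} {p : ℕ} [Fact p.Prime]
    (hx : orderOf x = p) (hK : ¬ p ^ 2 ∣ Nat.card K) :
    (orbit K a ∩ fixedBy X x).ncard ≡ (orbit K a).ncard [MOD p] ∧ ((orbit K a ∩ fixedBy X x).ncard = 0 ∨
      (orbit K a ∩ fixedBy X x).ncard * p ∣ Nat.card (normalizer (zpowers x : Set K))) := by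
  have hz : ∀ {b : X}, x • b = b → ∀ y ∈ zpowers x, y • b = b := fun {b} h y hy =>
    (zpowers_le.2 (show x ∈ stabilizer K b from h) : zpowers x ≤ _) hy
  constructor
  · have : Finite (orbit K a) := (Set.finite_range _).to_subtype
    have hp : IsPGroup p (zpowers x) := IsPGroup.of_card (n := 1) (by rw [Nat.card_zpowers, hx, pow_one])
    refine Nat.ModEq.trans (Eq.subst (motive := fun n => _ ≡ n [MOD p]) ?_ rfl)
      (hp.card_modEq_card_fixedPoints (orbit K a)).symm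
    exact Nat.card_congr ⟨fun b => ⟨⟨b.1, b.2.1⟩, fun y => Subtype.ext (hz b.2.2 y.1 y.2)⟩,
      fun b => ⟨b.1.1, b.1.2, congrArg Subtype.val (b.2 ⟨x, mem_zpowers x⟩)⟩, fun _ => rfl, fun _ => rfl⟩
  rcases (orbit K a ∩ fixedBy X x).eq_empty_or_nonempty with h | ⟨b, hb⟩
  · exact Or.inl (by rw [h, Set.ncard_empty])
  have h1 : orbit K a ∩ fixedBy X x = orbit (normalizer (zpowers x : Set K)) b := by
    rw [← orbit_eq_iff.2 hb.1]
    ext c
    constructor
    · rintro ⟨⟨k, rfl⟩, hc⟩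
      obtain ⟨t, ht, e⟩ := exists_conj_mem_zpowers (stabilizer K b) hK hx (y := k⁻¹ * x * k)
        (by rw [← hx, ← orderOf_injective (MulAut.conj k).toMonoidHom (MulEquiv.injective _)]; simp [mul_assoc])
        hb.2 (by rw [mem_stabilizer_iff, mul_smul, mul_smul, show x • k • b = k • b from hc, inv_smul_smul])
      obtain ⟨n, hn⟩ := mem_powers_iff_mem_zpowers.2 e
      refine ⟨⟨(t * k⁻¹)⁻¹, inv_mem (mem_normalizer_zpowers (k := n) ?_)⟩, ?_⟩
      · simpa [mul_assoc] using hn.symm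
      · show (t * k⁻¹)⁻¹ • b = k • b
        rw [mul_inv_rev, inv_inv, mul_smul, show t⁻¹ • b = b from inv_mem ht]
    · rintro ⟨n, rfl⟩
      refine ⟨⟨n.1, rfl⟩, ?_⟩
      have := hz hb.2 _ ((mem_normalizer_iff''.1 n.2 x).1 (mem_zpowers x))
      rwa [mul_smul, mul_smul, inv_smul_eq_iff] at this
  refine Or.inr ?_
  rw [h1, ← index_stabilizer, ← (stabilizer (normalizer (zpowers x : Set K)) b).index_mul_card]
  refine Nat.mul_dvd_mul_left _ ?_
  have := orderOf_dvd_natCard (⟨⟨x, le_normalizer (mem_zpowers x)⟩, hb.2⟩ :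
    stabilizer (normalizer (zpowers x : Set K)) b)
  rwa [← Subgroup.orderOf_coe, ← Subgroup.orderOf_coe, hx] at this

theorem ncard_le_sum {X : Type*} (S : ℕ → Set X) (r : ℕ) :
    {x | ∃ k < r, x ∈ S k}.ncard ≤ ∑ k ∈ range r, (S k).ncard := by
  induction r with
  | zero => simp
  | succ r ih =>
    rw [sum_range_succ]
    refine le_trans (le_of_eq (congrArg _ ?_)) ((Set.ncard_union_le _ _).trans (Nat.add_le_add_right ih _))
    ext x
    exact Nat.exists_lt_succ_right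

variable {H G : Type*} [Group H] [Group G] [Fintype H] {φ : H →* G} {b : G} {g : ℕ → G} {r t N p q : ℕ}
  {A w : ℕ → ℕ → ℕ} {par n : ℕ → ℕ}

theorem Data.ncard_fix_le (h : Data φ b g r t A) (ha : ArithG r N A w par n p q) {x : H} {l c : ℕ} [Fact l.Prime]
    (hx : orderOf x = l) (hK : ¬ l ^ 2 ∣ Nat.card H) (hN : Nat.card (normalizer (zpowers x : Set H)) = c * l)
    (hc : 0 < c) (f : ℕ → ℕ) (hf : ∀ j < r, ∀ m < c + 1, m % l = n j % l → m = 0 ∨ c % m = 0 → m ≤ f j) :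
    (fixedBy (G ⧸ φ.range) (φ x)).ncard ≤ ∑ j ∈ range r, f j := by
  let := MulAction.compHom (G ⧸ φ.range) φ
  have e : fixedBy (G ⧸ φ.range) (φ x) =
      {y | ∃ k < r, y ∈ orbit H (g k : G ⧸ φ.range) ∩ fixedBy (G ⧸ φ.range) x} := by
    ext y
    refine ⟨fun hy => ?_, fun ⟨_, _, hy⟩ => hy.2⟩
    induction y using QuotientGroup.induction_on with | H y => ?_
    obtain ⟨k, hk, e⟩ := h.cover ha y
    exact ⟨k, hk, mk_mem_orb.2 e, hy⟩
  rw [e]
  refine (ncard_le_sum _ r).trans (sum_le_sum fun j hj => ?_)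
  obtain ⟨h1, h2⟩ := fix_orbit (g j : G ⧸ φ.range) hx hK
  rw [hN, show (orbit H (g j : G ⧸ φ.range)).ncard = n j from h.ncard_eq ha (mem_range.1 hj)] at *
  rcases h2 with h2 | h2
  · rw [h2]; exact Nat.zero_le _
  · have h3 := Nat.dvd_of_mul_dvd_mul_right (Fact.out : l.Prime).pos h2
    exact hf j (mem_range.1 hj) _ (Nat.lt_succ_of_le (Nat.le_of_dvd hc h3)) h1 (Or.inr (Nat.mod_eq_zero_of_dvd h3))

/-- two fixed points -/
theorem mem_or_of_fix {G : Type*} [Group G] [Finite G] {M : Subgroup G} {u d y : G}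
    (h : (fixedBy (G ⧸ M) u).ncard ≤ 2) (hu : u ∈ M) (hd : Commute u d) (hd' : d ∉ M) (hy : y⁻¹ * u * y ∈ M) :
    y ∈ M ∨ d⁻¹ * y ∈ M := by
  have h1 : ∀ z : G, z⁻¹ * u * z ∈ M → (z : G ⧸ M) ∈ fixedBy (G ⧸ M) u := fun z hz =>
    (QuotientGroup.eq.2 (by simpa [mul_assoc] using hz) : (z : G ⧸ M) = (u * z : G)).symm
  have h2 : ({((1 : G) : G ⧸ M), (d : G ⧸ M)} : Set (G ⧸ M)) = fixedBy (G ⧸ M) u := by
    refine Set.eq_of_subset_of_ncard_le ?_ ?_
    · rintro _ (rfl | rfl)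
      exacts [h1 1 (by simpa using hu), h1 d (by rwa [mul_assoc, hd.eq, inv_mul_cancel_left])]
    · rwa [Set.ncard_pair fun e => hd' (by simpa using QuotientGroup.eq.1 e)]
  rcases h2.ge (h1 y hy) with e | e
  · exact Or.inl (by simpa using QuotientGroup.eq.1 e.symm)
  · exact Or.inr (QuotientGroup.eq.1 e.symm)

theorem card_centralizer_le {H G : Type*} [Group H] [Group G] [Finite G] [Finite H] {φ : H →* G}
    (hφ : Function.Injective φ) (x : H) : Nat.card (centralizer ({φ x} : Set G)) ≤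
      (fixedBy (G ⧸ φ.range) (φ x)).ncard * Nat.card (centralizer ({x} : Set H)) := by
  rw [← (stabilizer (centralizer ({φ x} : Set G)) ((1 : G) : G ⧸ φ.range)).index_mul_card, index_stabilizer]
  refine Nat.mul_le_mul (Set.ncard_le_ncard ?_) ?_
  · rintro _ ⟨c, rfl⟩
    refine (QuotientGroup.eq.2 ?_ : ((c.1 * 1 : G) : G ⧸ φ.range) = (φ x * (c.1 * 1) : G)).symm
    rw [mul_one, ← mem_centralizer_singleton_iff.1 c.2, inv_mul_cancel_left]
    exact ⟨x, rfl⟩
  · refine Nat.card_le_card_of_surjective (fun c => ⟨⟨φ c.1, mem_centralizer_singleton_iff.2 (by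
      rw [← map_mul, mem_centralizer_singleton_iff.1 c.2, map_mul])⟩,
      QuotientGroup.eq.2 ⟨c.1⁻¹, by simp⟩⟩) fun c => ?_
    obtain ⟨a, ha⟩ : c.1.1 ∈ φ.range := by simpa using QuotientGroup.eq.1 c.2.symm
    refine ⟨⟨a, mem_centralizer_singleton_iff.2 (hφ ?_)⟩, Subtype.ext (Subtype.ext ha)⟩
    rw [map_mul, map_mul, ha]
    exact mem_centralizer_singleton_iff.1 c.1.2

end Cfsg.Lib.Spor.Bm
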