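import Cfsg.Agent.Spor.BmFix
import Cfsg.Agent.Known.PresSL2
import Cfsg.Agent.Class.FieldIso
import Mathlib.LinearAlgebra.Projectivization.PSL.PSL2

/-! Subgroups `L2(23)` from local data. -/

set_option autoImplicit false
set_option linter.unusedSectionVars false

namespace Cfsg.Lib.Spor.Bm.L2

open Subgroup Matrix Cfsg.Lib.Chev.Core Cfsg.Lib.Class Cfsg.Lib.Known Cfsg.Lib.Spor.Fm

instance fact23 : Fact (Nat.Prime 23) := ⟨by norm_num⟩

/-- a generator of the multiplicative group -/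
def ζ : (ZMod 23)ˣ := ⟨5, 14, by decide, by decide⟩

theorem ζ_gen (x : (ZMod 23)ˣ) : x ∈ zpowers ζ := by
  obtain ⟨k, -, h⟩ := (by decide : ∀ a : ZMod 23, a ≠ 0 → ∃ k < 22, (5 : ZMod 23) ^ k = a) x x.ne_zero
  exact ⟨k, Units.ext (by simpa [ζ] using h)⟩

abbrev SL : Type := SpecialLinearGroup (Fin 2) (ZMod 23)
abbrev PSL : Type := ProjectiveSpecialLinearGroup (Fin 2) (ZMod 23)

theorem U_nat (n : ℕ) : (sl2U (n : ZMod 23) : SL) = sl2U 1 ^ n := by
  induction n with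
  | zero => simpa using isAddMap_sl2U.zero
  | succ n ih => rw [pow_succ, ← ih, isAddMap_sl2U, Nat.cast_succ]

theorem U_val (a : ZMod 23) : (sl2U a : SL) = sl2U 1 ^ a.val := by rw [← U_nat, ZMod.natCast_zmod_val]

theorem D_pow : (sl2Diag ζ : SL) ^ 11 = sl2W * sl2W := by
  rw [sl2Diag_pow, show ζ ^ 11 = -1 from Units.ext (by decide)]
  apply sl2_ext <;> simp only [sl2_mul_apply] <;> simp [sl2Diag, sl2W]

theorem mem_center {z : SL} : z ∈ center SL ↔ z = 1 ∨ z = sl2W * sl2W := by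
  rw [Matrix.SpecialLinearGroup.mem_center_iff]
  constructor
  · rintro ⟨r, h1, h2⟩
    have e : ∀ i j, z i j = scalar (Fin 2) r i j := fun i j => by rw [h2]
    rcases sq_eq_one_iff.1 (show r ^ 2 = 1 from h1) with rfl | rfl
    · left; apply sl2_ext <;> simp [e]
    · right; apply sl2_ext <;> simp only [sl2_mul_apply] <;> simp [e, sl2W]
  · rintro (rfl | rfl)
    · exact ⟨1, by simp, by simp⟩
    · refine ⟨-1, by simp, ?_⟩
      ext i j
      rw [sl2_mul_apply]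
      fin_cases i <;> fin_cases j <;> simp [sl2W]

variable {G : Type*} [Group G]

theorem range_le (f : SL →* G) {M : Subgroup G} (h1 : f (sl2U 1) ∈ M) (h2 : f sl2W ∈ M) : f.range ≤ M := by
  have hU : ∀ a, sl2U a ∈ M.comap f := fun a => by rw [U_val]; exact pow_mem (mem_comap.2 h1) _
  rw [MonoidHom.range_eq_map, map_le_iff_le_comap, sl2_subgroup_eq_top (M.comap f) hU fun a => by
    rw [← sl2W_conj_U]; exact mul_mem (mul_mem h2 (hU _)) (inv_mem h2)]

theorem equiv_range (f : SL →* G) (h1 : f (sl2U 1) ≠ 1) (h2 : f sl2W * f sl2W = 1) : Nonempty (f.range ≃* PSL) := by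
  have := ProjectiveSpecialLinearGroup.rank_two_simple (F := ZMod 23) (by simp)
  have h3 : center SL ≤ f.ker := fun z hz => by
    rcases mem_center.1 hz with rfl | rfl
    exacts [one_mem _, (map_mul f _ _).trans h2]
  refine ⟨(quotCenterEquivRange f (le_antisymm (fun z hz => ?_) h3)).symm⟩
  rcases (QuotientGroup.lift (center SL) f h3).normal_ker.eq_bot_or_eq_top with h | h
  · exact (QuotientGroup.eq_one_iff z).1 (h.le (x := (z : PSL)) hz)
  · exact absurd (h.ge (mem_top ((sl2U 1 : SL) : PSL))) h1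

theorem exists_hom_range {K : Subgroup G} (e : K ≃* PSL) :
    ∃ f : SL →* G, f.range = K ∧ f (sl2U 1) ≠ 1 ∧ f sl2W * f sl2W = 1 := by
  let f : SL →* G := K.subtype.comp (e.symm.toMonoidHom.comp (QuotientGroup.mk' _))
  have h : ∀ z, f z = 1 ↔ z ∈ center SL := fun z => by
    simp [f, QuotientGroup.eq_one_iff]
  refine ⟨f, ?_, fun h1 => ?_, by rw [← map_mul, h, mem_center]; exact Or.inr rfl⟩
  · rw [MonoidHom.range_comp, MonoidHom.range_eq_top.2 (e.symm.surjective.comp (QuotientGroup.mk'_surjective _)),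
      ← MonoidHom.range_eq_map, range_subtype]
  · obtain ⟨r, -, h2⟩ := Matrix.SpecialLinearGroup.mem_center_iff.1 ((h _).1 h1)
    simpa [sl2U] using congrFun (congrFun h2 0) 1

/-- the local data -/
structure Ctx (H : Subgroup G) (u s w d : G) : Prop where
  card : ¬ 23 ^ 2 ∣ Nat.card G
  ou : orderOf u = 23
  su : s * u * s⁻¹ = u ^ 2
  ww : w * w = 1
  ws : w * s * w⁻¹ = s⁻¹
  uw : u * (w * u * w⁻¹) * u = w
  h9 : u ^ 5 * (w * u ^ 14 * w⁻¹) * u ^ 5 = s * w
  uH : u ∈ H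
  wH : w ∈ H
  dd : d * d = 1
  du : Commute u d
  ds : Commute s d
  dw : d * w * d ∉ H
  fix : ∀ y, y⁻¹ * u * y ∈ H → y ∈ H ∨ d⁻¹ * y ∈ H
  cen : ∀ y ∈ H, Commute y u → y ∈ zpowers u
  nrm : ∀ y ∈ H, y ∈ normalizer (zpowers u : Set G) → y ∈ zpowers u ⊔ zpowers s
  inv : ∀ y, y * y = 1 → y * s * y⁻¹ = s⁻¹ → ∀ a ∈ zpowers u ⊔ zpowers s, ∀ c ∈ zpowers u ⊔ zpowers s,
    y * u * y = a * y * c → ∃ i : ℕ, y = w * s ^ i ∨ y = d * w * d * s ^ i

namespace Ctx

variable [Finite G] {H : Subgroup G} {u s w d : G} (c : Ctx H u s w d)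
include c

theorem s_mem {M : Subgroup G} (h1 : u ∈ M) (h2 : w ∈ M) : s ∈ M :=
  (mul_mem_cancel_right h2).1 (c.h9 ▸ mul_mem (mul_mem (pow_mem h1 _)
    (mul_mem (mul_mem h2 (pow_mem h1 _)) (inv_mem h2))) (pow_mem h1 _))

theorem le_H : closure {u, w} ≤ H := by
  rw [closure_le]
  rintro _ (rfl | rfl)
  exacts [c.uH, c.wH]

theorem exists_hom : ∃ f : SL →* G, f (sl2U 1) = u ∧ f sl2W = w := by
  have hx : IsAddMap fun a : ZMod 23 => u ^ a.val := fun a b => by
    show _ = u ^ (a + b).val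
    rw [← pow_add, ZMod.val_add, ← pow_eq_pow_mod _ (c.ou ▸ pow_orderOf_eq_one u)]
  obtain ⟨h, -⟩ := r1Pre_of_borel ζ_gen hx (h := s) (t := w) (fun a => by
      show _ = u ^ (2 * a).val
      rw [← conj_pow, c.su, two_mul, ← pow_mul, mul_comm, pow_mul, pow_two]
      exact hx a a)
    c.ws (by simpa [r1n, ZMod.val_one] using c.uw) (Or.inl (by
      have e : (-(-((ζ : (ZMod 23)ˣ) : ZMod 23)⁻¹)).val = 14 := by rw [neg_neg, ← Units.val_inv_eq_inv_val]; rfl
      simp only [r1n, e]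
      exact c.h9))
  exact ⟨h.r1Rel.hom, (R1Rel.hom_U _ _).trans (pow_one u), (R1Rel.hom_W _).trans (by
    simpa [r1n, ZMod.val_one] using c.uw)⟩

theorem u_ne : u ≠ 1 := fun e => by simpa [e] using c.ou

theorem equiv : Nonempty (closure {u, w} ≃* PSL) := by
  obtain ⟨f, h1, h2⟩ := c.exists_hom
  have : f.range = closure {u, w} := le_antisymm (range_le f (h1 ▸ subset_closure (by simp))
    (h2 ▸ subset_closure (by simp))) (by
      rw [closure_le]
      rintro _ (rfl | rfl)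
      exacts [⟨_, h1⟩, ⟨_, h2⟩])
  exact this ▸ equiv_range f (h1 ▸ c.u_ne) (h2 ▸ c.ww)

theorem order_U {f : SL →* G} (h : f (sl2U 1) ≠ 1) : orderOf (f (sl2U 1)) = 23 :=
  orderOf_eq_prime (by rw [← map_pow, ← U_nat, show ((23 : ℕ) : ZMod 23) = 0 from rfl, isAddMap_sl2U.zero, map_one]) h

theorem exists_U {f : SL →* G} (h1 : f (sl2U 1) ∈ zpowers u) (h2 : f (sl2U 1) ≠ 1) :
    ∃ a : (ZMod 23)ˣ, f (sl2U (a : ZMod 23)) = u := by
  obtain ⟨k, hk⟩ := mem_powers_iff_mem_zpowers.2 ((eq_of_le_of_card_ge (zpowers_le.2 h1)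
    (by rw [Nat.card_zpowers, Nat.card_zpowers, c.ou, c.order_U h2])).ge (mem_zpowers u))
  have h3 : f (sl2U (k : ZMod 23)) = u := by rw [U_nat, map_pow]; exact hk
  exact ⟨Units.mk0 k fun e => c.u_ne (by rw [← h3, e, isAddMap_sl2U.zero, map_one]), h3⟩

theorem mem_or {n : G} (h : n ∈ normalizer (zpowers u : Set G)) : n ∈ H ∨ d⁻¹ * n ∈ H :=
  c.fix n (zpowers_le.2 c.uH ((mem_normalizer_iff''.1 h u).1 (mem_zpowers u)))

omit c [Finite G] in
theorem red {K : Subgroup G} {f : SL →* G} (g : G)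
    (h : ∃ x, ((MulAut.conj g).toMonoidHom.comp f).range.map (MulAut.conj x).toMonoidHom = K) :
    ∃ x, f.range.map (MulAut.conj x).toMonoidHom = K := by
  obtain ⟨x, h⟩ := h
  refine ⟨x * g, ?_⟩
  rw [← h, MonoidHom.range_comp, Subgroup.map_map, map_mul]
  rfl

theorem stepC {f : SL →* G} (h1 : f (sl2U 1) ∈ zpowers u) (h2 : f (sl2U 1) ≠ 1) (h3 : f (sl2Diag ζ) = s) {i : ℕ}
    (h4 : f sl2W = w * s ^ i) : ∃ x, f.range.map (MulAut.conj x).toMonoidHom = closure {u, w} := by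
  have hu : u ∈ closure ({u, w} : Set G) := subset_closure (by simp)
  have hw : w ∈ closure ({u, w} : Set G) := subset_closure (by simp)
  refine ⟨1, Eq.trans (by ext; simp) (le_antisymm (range_le f (zpowers_le.2 hu h1)
    (h4 ▸ mul_mem hw (pow_mem (c.s_mem hu hw) i))) ?_)⟩
  rw [closure_le]
  rintro _ (rfl | rfl)
  · exact (c.exists_U h1 h2).elim fun _ e => ⟨_, e⟩
  · exact (f.range.mul_mem_cancel_right (pow_mem (MonoidHom.mem_range.2 ⟨_, h3⟩) i)).1 ⟨_, h4⟩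

theorem stepB {f : SL →* G} (h1 : f (sl2U 1) ∈ zpowers u) (h2 : f (sl2U 1) ≠ 1) (h3 : f (sl2Diag ζ) = s)
    (h4 : f sl2W * f sl2W = 1) : ∃ x, f.range.map (MulAut.conj x).toMonoidHom = closure {u, w} := by
  obtain ⟨a, ha⟩ := c.exists_U h1 h2
  have hU : ∀ t, f (sl2U t) ∈ zpowers u ⊔ zpowers s := fun t => by
    rw [U_val, map_pow]; exact mem_sup_left (pow_mem h1 _)
  have hD : f (sl2Diag a⁻¹) ∈ zpowers u ⊔ zpowers s := by
    obtain ⟨k, hk⟩ := mem_powers_iff_mem_zpowers.2 (ζ_gen a⁻¹)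
    rw [← hk, ← sl2Diag_pow, map_pow, h3]
    exact mem_sup_right (pow_mem (mem_zpowers s) _)
  have e := congrArg f (sl2_n_eq a⁻¹)
  rw [← sl2W_conj_U, neg_neg, Units.val_inv_eq_inv_val, inv_inv] at e
  simp only [map_mul, map_inv, ha, inv_eq_of_mul_eq_one_right h4] at e
  obtain ⟨i, h | h⟩ := c.inv _ h4 (by simpa [h3] using congrArg f (sl2W_conj_Diag ζ)) _
    (mul_mem (inv_mem (hU (a : ZMod 23)⁻¹)) hD) _ (inv_mem (hU (a : ZMod 23)⁻¹)) (by rw [mul_assoc _ (f (sl2Diag _)), ← e]; group)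
  · exact c.stepC h1 h2 h3 h
  have e1 : d * f (sl2U 1) * d⁻¹ = f (sl2U 1) := by
    obtain ⟨k, hk⟩ := h1
    rw [← hk, ← (c.du.zpow_left k).eq, mul_inv_cancel_right]
  refine red d (c.stepC (i := i) (e1.symm ▸ h1 :) (e1.symm ▸ h2 :) ?_ ?_)
  · show d * f _ * d⁻¹ = s
    rw [h3, ← c.ds.eq, mul_inv_cancel_right]
  · show d * f _ * d⁻¹ = _
    rw [h, mul_assoc _ d, ← (c.ds.pow_left i).eq, ← mul_assoc, ← mul_assoc, ← mul_assoc, c.dd, one_mul,
      mul_inv_cancel_right]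

theorem stepA {f : SL →* G} (h1 : f (sl2U 1) ∈ zpowers u) (h2 : f (sl2U 1) ≠ 1)
    (h4 : f sl2W * f sl2W = 1) : ∃ x, f.range.map (MulAut.conj x).toMonoidHom = closure {u, w} := by
  obtain ⟨a, ha⟩ := c.exists_U h1 h2
  have e := congrArg f (sl2Diag_conj_U ζ (a : ZMod 23))
  rw [show ((ζ : (ZMod 23)ˣ) : ZMod 23) ^ 2 = 2 from rfl, two_mul, ← isAddMap_sl2U] at e
  simp only [map_mul, map_inv, ha] at e
  rw [← pow_two] at e
  have e2 : f (sl2Diag ζ) ^ 11 = 1 := by rw [← map_pow, D_pow, map_mul, h4]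
  generalize ht : f (sl2Diag ζ) = t at e e2
  have h5 : t ∈ H := by
    have hn := mem_normalizer_zpowers e
    rcases c.mem_or hn with h | h
    · exact h
    rcases c.mem_or (mul_mem hn hn) with h' | h'
    · rw [show t = (t * t) ^ 6 by rw [← pow_two, ← pow_mul, pow_succ t 11, e2, one_mul]]
      exact pow_mem h' 6
    · exact (mul_mem_cancel_left h).1 (mul_assoc _ t t ▸ h')
  obtain ⟨k, hk⟩ := mem_powers_iff_mem_zpowers.2 (c.cen (s⁻¹ * t) (mul_mem (inv_mem (c.s_mem c.uH c.wH)) h5) (by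
    rw [Commute, SemiconjBy, mul_assoc, mul_inv_eq_iff_eq_mul.1 e, ← c.su]; group))
  have e1 : u ^ (2 * k) * f (sl2U 1) * (u ^ (2 * k))⁻¹ = f (sl2U 1) := by
    obtain ⟨j, hj⟩ := h1
    rw [← hj, (((Commute.refl u).zpow_right j).pow_left _).eq, mul_inv_cancel_right]
  refine red (u ^ (2 * k)) (c.stepB (e1.symm ▸ h1 :) (e1.symm ▸ h2 :) ?_ (by rw [← map_mul, MonoidHom.comp_apply,
    map_mul f, h4, map_one]))
  show u ^ (2 * k) * f _ * (u ^ (2 * k))⁻¹ = s
  rw [ht, ← mul_inv_cancel_left s t, ← (show u ^ k = _ from hk), mul_inv_eq_iff_eq_mul]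
  conv_lhs => rw [pow_mul, ← c.su, conj_pow]
  group

theorem conj {K : Subgroup G} (e : K ≃* PSL) : ∃ x, K.map (MulAut.conj x).toMonoidHom = closure {u, w} := by
  obtain ⟨f, rfl, h1, h2⟩ := exists_hom_range e
  obtain ⟨g, -, h⟩ := exists_conj_mem_zpowers ⊤ c.card c.ou (c.order_U h1) (mem_top _) (mem_top _)
  exact red g (c.stepA h (by simpa using h1) (by rw [← map_mul, MonoidHom.comp_apply, map_mul f, h2, map_one]))

theorem normalizer_eq : normalizer (closure {u, w} : Subgroup G) = closure {u, w} := by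
  have hu : u ∈ closure ({u, w} : Set G) := subset_closure (by simp)
  have hw : w ∈ closure ({u, w} : Set G) := subset_closure (by simp)
  have hB : zpowers u ⊔ zpowers s ≤ closure {u, w} := sup_le (zpowers_le.2 hu) (zpowers_le.2 (c.s_mem hu hw))
  refine le_antisymm (fun g hg => ?_) le_normalizer
  obtain ⟨t, ht, h⟩ := exists_conj_mem_zpowers _ c.card c.ou (y := g * u * g⁻¹)
    ((orderOf_injective (MulAut.conj g).toMonoidHom (MulEquiv.injective _) u).trans c.ou) hu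
    ((mem_normalizer_iff.1 hg u).1 hu)
  obtain ⟨k, hk⟩ := mem_powers_iff_mem_zpowers.2 h
  have hn : t * g ∈ normalizer (zpowers u : Set G) := mem_normalizer_zpowers (k := k) (by
    simpa [mul_assoc] using hk.symm)
  rcases c.mem_or hn with h1 | h1
  · exact (mul_mem_cancel_left ht).1 (hB (c.nrm _ h1 hn))
  have hd : d ∈ normalizer (zpowers u : Set G) := mem_normalizer_zpowers (k := 1) (by
    rw [← c.du.eq, mul_inv_cancel_right, pow_one])
  have h2 := (mul_mem_cancel_right (mul_mem (le_normalizer ht) hg)).1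
    (le_normalizer (hB (c.nrm _ h1 (mul_mem (inv_mem hd) hn))))
  have h3 := (mem_normalizer_iff.1 h2 w).1 hw
  rw [inv_inv, inv_eq_of_mul_eq_one_right c.dd] at h3
  exact absurd (c.le_H h3) c.dw

end Ctx

end Cfsg.Lib.Spor.Bm.L2
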