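import Cfsg.Agent.Spor.BmMain

/-! The word problem of the Baby Monster: certified normal forms `h * g i * m⁻¹` of words. -/

set_option autoImplicit false

namespace Cfsg.Lib.Spor.Bm

open Cfsg.Lib.Spor.Bulk Cfsg.Lib.Spor.Fm

/-- the letters: those of `Fi23` and the extra involution -/
noncomputable def lB (l : ℕ) : BB := if l < 32 then φB (g2 l) else bB

/-- the value of a word -/
noncomputable def evB (w : List ℕ) : BB := (w.map lB).prod

theorem lB_inv (l : ℕ) : (lB l)⁻¹ = lB l := by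
  refine inv_eq_of_mul_eq_one_right ?_
  unfold lB
  split_ifs with h
  · rw [← map_mul, g2_sq h, map_one]
  · exact bB_spec.1

theorem evB_reverse (w : List ℕ) : evB w.reverse = (evB w)⁻¹ := by
  rw [evB, evB, List.prod_inv_reverse, List.map_map, List.map_reverse]
  exact congrArg _ (congrArg _ (List.map_congr_left fun l _ => (lB_inv l).symm))

/-- the value of a word in named words -/
noncomputable def evN (tb : List (List ℕ)) (X : List ℕ) : BB := (X.map fun n => evB (getN [] tb n)).prod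

theorem evN_nil (tb : List (List ℕ)) : evN tb [] = 1 := rfl
theorem evN_cons (tb : List (List ℕ)) (n : ℕ) (X : List ℕ) : evN tb (n :: X) = evB (getN [] tb n) * evN tb X := rfl
theorem evN_append (tb : List (List ℕ)) (X Y : List ℕ) : evN tb (X ++ Y) = evN tb X * evN tb Y := by
  simp [evN]

/-- cutting a word at the extra involution -/
noncomputable def toK (w : List ℕ) (k : List ℕ → ℕ → Bool) : List ℕ → ℕ → Bool :=
  List.rec k (fun l _ ih L r => Bool.rec
    (frc (Nat.add (Nat.mul r (nat_lit 2)) (nat_lit 1)) fun c => ih (c :: L) (nat_lit 0))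
    (frc (Nat.add (Nat.mul r (nat_lit 32)) l) fun r' => ih L r') (Nat.blt l (nat_lit 32))) w

noncomputable def toKK (tb : List (List ℕ)) (X : List ℕ) (k : List ℕ → ℕ → Bool) : List ℕ → ℕ → Bool :=
  List.rec k (fun n _ ih => toK (getN [] tb n) ih) X

theorem toK_spec {w : List ℕ} {k : List ℕ → ℕ → Bool} {L : List ℕ} {r : ℕ} (h : toK w k L r = true) :
    ∃ L' r', k L' r' = true ∧ cyc φB bB ((r' * 2 + 1) :: L') = cyc φB bB ((r * 2 + 1) :: L) * evB w := by
  induction w generalizing L r with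
  | nil => exact ⟨L, r, h, (mul_one _).symm⟩
  | cons l w ih =>
    change Bool.rec (motive := fun _ => Bool) (toK w k ((r * 2 + 1) :: L) 0) (toK w k L (r * 32 + l))
      (Nat.blt l 32) = true at h
    cases hl : Nat.blt l 32 <;> rw [hl] at h <;> obtain ⟨L', r', h1, h2⟩ := ih h <;> refine ⟨L', r', h1, h2.trans ?_⟩
    · have : ¬ l < 32 := fun e => by rw [← Nat.blt_eq, hl] at e; exact absurd e (by simp)
      rw [cyc_cons, ep_odd, ew_zero, inv_one, map_one, mul_one, mul_assoc, evB, evB, List.map_cons, List.prod_cons,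
        lB, if_neg this]
    · have : l < 32 := Nat.blt_eq ▸ hl
      rw [cyc_cons, cyc_cons, ep_odd, ep_odd, ew_push _ this, mul_inv_rev, g2_inv this, map_mul, evB, evB,
        List.map_cons, List.prod_cons, lB, if_pos this]
      simp only [mul_assoc]

theorem toKK_spec {tb : List (List ℕ)} {X : List ℕ} {k : List ℕ → ℕ → Bool} {L : List ℕ} {r : ℕ}
    (h : toKK tb X k L r = true) :
    ∃ L' r', k L' r' = true ∧ cyc φB bB ((r' * 2 + 1) :: L') = cyc φB bB ((r * 2 + 1) :: L) * evN tb X := by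
  induction X generalizing L r with
  | nil => exact ⟨L, r, h, (mul_one _).symm⟩
  | cons n X ih =>
    obtain ⟨L1, r1, h1, h2⟩ := toK_spec h
    obtain ⟨L2, r2, h3, h4⟩ := ih h1
    exact ⟨L2, r2, h3, by rw [h4, h2, evN_cons, mul_assoc]⟩

/-- one step of a walk, with the steps out of the trivial double coset -/
noncomputable def stp2 (s : ℕ) (L : List ℕ) (A i B : ℕ) (r : List ℕ → ℕ → ℕ → ℕ → Bool) : Bool :=
  Bool.rec (stp Q.ft (nat_lit 2472) s L A i B r)
    (List.rec false (fun c L' _ => frc (Nat.div s (nat_lit 1048576)) fun x =>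
      band (Nat.beq i (nat_lit 0)) <| band (Nat.beq (ap x ID) A) <|
      frc (ap c ID) fun A' => frc (ap (Nat.xor x (nat_lit 1)) B) fun B' => r L' A' (nat_lit 1) B') L)
    (Nat.beq (Nat.mod s (nat_lit 1048576)) (nat_lit 2))

noncomputable def run2 (k : ℕ → ℕ → ℕ → Bool) (S : List ℕ) : List ℕ → ℕ → ℕ → ℕ → Bool :=
  List.rec (fun L A i B => List.rec (k A i B) (fun _ _ _ => false) L)
    (fun s _ r L A i B => frc s fun s => stp2 s L A i B r) S

theorem stp2_spec {s : ℕ} {L : List ℕ} {h m : HH} {i : ℕ} {r : List ℕ → ℕ → ℕ → ℕ → Bool}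
    (e : stp2 s L (im h) i (im m) r = true) : ∃ L' h' i' m', r L' (im h') i' (im m') = true ∧
      cyc φB bB L' * bB * val φB bB Q.nd h' i' m' = cyc φB bB L * bB * val φB bB Q.nd h i m := by
  unfold stp2 at e
  cases hb : Nat.beq (Nat.mod s (nat_lit 1048576)) (nat_lit 2) <;> rw [hb] at e
  · exact stp_spec bB_spec.1 bB_spec.2.2.1.full uptoB e
  cases L with
  | nil => exact absurd e (by simp)
  | cons c L =>
    have e1 := Nat.eq_of_beq_eq_true (band_left e)
    have e2 := Nat.eq_of_beq_eq_true (band_left (band_right e))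
    have e3 := band_right (band_right e)
    rw [ap_ID] at e2
    rw [frc_eq, frc_eq, ap_ID, ap_im] at e3
    refine ⟨_, _, _, _, e3, ?_⟩
    have e4 : gg φB bB Q.nd (nat_lit 1) = bB := gB'_one
    have e5 : gg φB bB Q.nd (nat_lit 0) = 1 := gg_zero
    rw [← im_inj e2, e1, val, val, e4, e5, cyc_cons]
    erw [ep_xor]
    simp [mul_assoc]

theorem run2_spec {k : ℕ → ℕ → ℕ → Bool} {S L : List ℕ} {h m : HH} {i : ℕ}
    (e : run2 k S L (im h) i (im m) = true) : ∃ h' i' m', k (im h') i' (im m') = true ∧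
      bB * val φB bB Q.nd h' i' m' = cyc φB bB L * bB * val φB bB Q.nd h i m := by
  induction S generalizing L h m i with
  | nil => cases L with
    | nil => exact ⟨h, i, m, e, by rw [cyc_nil, one_mul]⟩
    | cons c L => exact absurd e (by simp [run2])
  | cons s S ihS =>
    obtain ⟨L', h', i', m', e1, e2⟩ := stp2_spec e
    obtain ⟨h'', i'', m'', e3, e4⟩ := ihS e1
    exact ⟨_, _, _, e3, e4.trans e2⟩

/-- the normal form of a word -/
noncomputable def nf (tb : List (List ℕ)) (X S : List ℕ) (k : ℕ → ℕ → ℕ → Bool) : Bool :=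
  toKK tb X (fun L r => frc (ap (Nat.add (Nat.mul r (nat_lit 2)) (nat_lit 1)) ID) fun A =>
    run2 k S L A (nat_lit 0) ID) [] (nat_lit 0)

variable {tb : List (List ℕ)} {X Y S S' : List ℕ}

theorem nf_spec {k : ℕ → ℕ → ℕ → Bool} (e : nf tb X S k = true) :
    ∃ h i m, k (im h) i (im m) = true ∧ evN tb X = φB h * gB' i * (φB m)⁻¹ := by
  obtain ⟨L, r, h1, h2⟩ := toKK_spec e
  rw [frc_eq, ap_ID, ← im_one] at h1
  obtain ⟨h, i, m, h3, h4⟩ := run2_spec h1
  refine ⟨h, i, m, h3, mul_left_cancel (a := bB) (Eq.trans ?_ h4.symm)⟩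
  have e5 : gg φB bB Q.nd (nat_lit 0) = 1 := gg_zero
  rw [cyc_cons, cyc_cons, cyc_nil, ep_odd, ep_odd, show ew (nat_lit 0) = 1 from ew_zero] at h2
  rw [val, e5]
  erw [ep_odd]
  simpa [mul_assoc] using h2.symm

/-- the word is trivial -/
noncomputable def oneB (tb : List (List ℕ)) (X S : List ℕ) : Bool :=
  nf tb X S fun A i B => band (Nat.beq i (nat_lit 0)) (Nat.beq A B)

/-- the word is a nontrivial element of `Fi23` -/
noncomputable def neB (tb : List (List ℕ)) (X S : List ℕ) : Bool :=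
  nf tb X S fun A i B => band (Nat.beq i (nat_lit 0)) (Bool.rec true false (Nat.beq A B))

/-- the word lies in the double coset `j` -/
noncomputable def ndB' (tb : List (List ℕ)) (X S : List ℕ) (j : ℕ) : Bool :=
  nf tb X S fun _ i _ => Nat.beq i j

theorem of_oneB (e : oneB tb X S = true) : evN tb X = 1 := by
  obtain ⟨h, i, m, h1, h2⟩ := nf_spec e
  rw [h2, Nat.eq_of_beq_eq_true (band_left h1), im_inj (Nat.eq_of_beq_eq_true (band_right h1)),
    show gB' (nat_lit 0) = 1 from gg_zero, mul_one, mul_inv_cancel]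

theorem of_neB (e : neB tb X S = true) : evN tb X ∈ φB.range ∧ evN tb X ≠ 1 := by
  obtain ⟨h, i, m, h1, h2⟩ := nf_spec e
  rw [h2, Nat.eq_of_beq_eq_true (band_left h1), show gB' (nat_lit 0) = 1 from gg_zero, mul_one]
  refine ⟨⟨h * m⁻¹, by simp⟩, fun e => ?_⟩
  have h3 := band_right h1
  rw [φB_injective (mul_inv_eq_one.1 e), Nat.beq_refl] at h3
  exact absurd h3 (by simp)

theorem of_ndB {j : ℕ} (e : ndB' tb X S j = true) : ∃ a ∈ φB.range, ∃ c ∈ φB.range, evN tb X = a * gB' j * c := by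
  obtain ⟨h, i, m, h1, h2⟩ := nf_spec e
  exact ⟨_, ⟨h, rfl⟩, _, inv_mem ⟨m, rfl⟩, by rw [h2, Nat.eq_of_beq_eq_true h1]⟩

theorem ne_of_ndB {i j : ℕ} (e : ndB' tb X S i = true) (e' : ndB' tb Y S' j = true) (h : i < 23 ∧ j < 23 ∧ i ≠ j)
    {a c : BB} (ha : a ∈ φB.range) (hc : c ∈ φB.range) : evN tb X ≠ a * evN tb Y * c := fun h1 => by
  have := Fintype.ofFinite HH
  obtain ⟨_, ⟨a1, rfl⟩, _, ⟨c1, rfl⟩, e1⟩ := of_ndB e
  obtain ⟨_, ⟨a2, rfl⟩, _, ⟨c2, rfl⟩, e2⟩ := of_ndB e'
  obtain ⟨a, rfl⟩ := ha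
  obtain ⟨c, rfl⟩ := hc
  refine h.2.2 (dataB.sep arithG h.1 h.2.1 (a := a1⁻¹ * a * a2) (c := c2 * c * c1⁻¹) ?_)
  rw [e1, e2] at h1
  have := congrArg (fun g => (φB a1)⁻¹ * g * (φB c1)⁻¹) h1
  simpa [mul_assoc] using this

theorem not_mem_of_ndB {j : ℕ} (e : ndB' tb X S j = true) (h : 0 < j ∧ j < 23) : evN tb X ∉ φB.range := fun h1 => by
  have := Fintype.ofFinite HH
  obtain ⟨a, ha, c, hc, e1⟩ := of_ndB e
  rw [e1] at h1
  exact dataB.not_mem h.1 h.2 ((mul_mem_cancel_left ha).1 ((mul_mem_cancel_right hc).1 h1))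

end Cfsg.Lib.Spor.Bm
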