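import Cfsg.Agent.Spor.J3OrdA

/-!
A simple group of order 50232960: the sums of the characters over the elements of order 5.
-/

set_option autoImplicit false
set_option maxHeartbeats 0

namespace Cfsg.Lib.Spor.J3Ord

open Cfsg.Lib.Spor.Mo

/-- The sums for the blocks of 17 with a row `d` of value `a` lie in the table `T`. -/
noncomputable def vA (K u b B d : ℕ) (a : ℤ) (T : List (ℕ × ℤ)) (l : List ℤ) : Bool :=
  !okD 17 l d || vS 5 K u b B 2 (fun _ _ => true) l fun Z =>
    !hasP Z d a || momBad 50232960 1 2 K u Z || inT 19 T Z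

/-- No block of 19 with a row `d` fits with the table `T`. -/
noncomputable def vB (K u b B d : ℕ) (T : List (ℕ × ℤ)) (l : List ℤ) : Bool :=
  !okD 19 l d || vS 5 K u b B 2 (fun d a => d % 17 == 0 || T.contains (d, a)) l
    (momBad 50232960 1 2 K u)

theorem v108 : (T17.all (vA 93024 1 540 24 2736 1 []) && T19.all (vB 93024 1 540 24 2736 [])) =
    true := by decide +kernel

theorem v8 : (T17.all (vA 1255824 1 40 7 2736 1 []) && T19.all (vB 1255824 1 40 7 2736 [])) =
    true := by decide +kernel

def T48 : List (ℕ × ℤ) := [(1920, 0), (324, -1), (18, -7), (18, 3)]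

theorem v48 : (T17.all (vA 209304 1 240 16 324 (-1) T48) && T19.all (vB 209304 1 240 16 324 T48)) =
    true := by decide +kernel

def l32 : List ℤ := [18, 171, 324, 1140, -1920, -2736, 3078]

def T96 : List (ℕ × ℤ) := [(1920, 0), (324, -2), (18, -14), (18, 6)]

theorem v96 : (T17.all (fun l => l == l32 || vA 104652 2 960 31 324 (-2) T96 l) &&
    T19.all (vB 104652 2 960 31 324 T96)) = true := by decide +kernel

theorem z96 : colAllF 50232960 5 52326 2 D [-324]
    (fun C => C % 128 == 0 && C % 17 != 0 && C % 19 != 0) (fun C A => mB 96 2 C [-324] A ||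
      colF 50232960 17 369360 8 l32 C (fun d a => d != 324 || a == A.getD 1 0) (fun _ => true)
        (C - 1) (mB 1 2 C l32)) = true := by
  decide +kernel

end Cfsg.Lib.Spor.J3Ord
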