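import Cfsg.Agent.Spor.J3OrdB

/-!
A simple group of order 50232960: the centralizers of the central involutions have order 1920.
-/

set_option autoImplicit false

open scoped ComplexConjugate

namespace Cfsg.Lib.Spor

open Cfsg Cfsg.Lib.Char Cfsg.Lib.Solv Cfsg.Lib.PrimeOne Cfsg.Lib.Block.Princ Cfsg.Lib.Spor.Mo
open Subgroup Cfsg.Lib.Spor.CKit

theorem exists_central_prime {G : Type*} [Group G] [Finite G] {q : ℕ} (hq : q.Prime)
    (h : q ∣ Nat.card G) : ∃ s : G, orderOf s = q ∧ ¬ q ∣ (centralizer ({s} : Set G)).index := by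
  obtain ⟨z, h1, ⟨k, h2⟩, h3⟩ := exists_pcentral hq h
  obtain ⟨j, rfl⟩ : ∃ j, k = j + 1 := Nat.exists_eq_succ_of_ne_zero fun e => by
    rw [e, pow_zero, orderOf_eq_one_iff] at h2
    exact h1 h2
  refine ⟨z ^ q ^ j, ?_, fun h4 => h3 (h4.trans (index_dvd_of_le fun g hg => ?_))⟩
  · rw [orderOf_pow_of_dvd (pow_ne_zero _ hq.ne_zero) (h2 ▸ pow_dvd_pow q j.le_succ), h2, pow_succ,
      Nat.mul_div_cancel_left _ (pow_pos hq.pos _)]
  · rw [mem_centralizer_singleton_iff] at hg ⊢
    exact (Commute.pow_right hg _)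

theorem Mo.Blk.val_one {G : Type*} [Group G] [Finite G] {p M e c t : ℕ} [hp : Fact p.Prime]
    {L : List (IrrCharacter G)} {Y : Finset (IrrCharacter G)} {θ : IrrCharacter G}
    {δ : IrrCharacter G → ℤ} {ε : ℤ} (h : Blk p M e c t L Y θ δ ε) (ht : t = 1)
    {χ : IrrCharacter G} (hχ : χ ∈ θ :: L) : ∃ σ : ℤ, (σ = 1 ∨ σ = -1) ∧
      (deg χ : ℤ) ≡ σ [ZMOD p] ∧ ∀ g, p ∣ orderOf g → (χ : G → ℂ) g = σ := by
  rcases List.mem_cons.1 hχ with rfl | hχ
  · obtain ⟨I, X, h0, -⟩ := h.ex
    refine ⟨-ε, by rcases h.sign with h | h <;> simp [h], h.modEq_Y.trans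
      (Int.modEq_iff_dvd.2 ⟨-ε, ?_⟩), fun g hg => h0.val_Y ht h.mem hg⟩
    rw [← h.card_eq, ht]
    push_cast
    ring
  · exact ⟨δ χ, (h.val hχ).1, h.modEq hχ, (h.val hχ).2.2.2⟩

namespace J3Ord

open Cfsg.Lib.Spor.O7920 (instFact5)

instance instFact17 : Fact (Nat.Prime 17) := ⟨by norm_num⟩
instance instFact19 : Fact (Nat.Prime 19) := ⟨by norm_num⟩

variable {G : Type*} [Group G] [Finite G] [IsSimpleGroup G] (hG : Nat.card G = 50232960)
include hG

theorem not_comm : ¬ IsMulCommutative G := not_comm_of_not_prime (by rw [hG]; norm_num)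

omit [IsSimpleGroup G] in
theorem not_mB {p M e c t : ℕ} [Fact p.Prime] {L : List (IrrCharacter G)}
    {Y : Finset (IrrCharacter G)} {θ : IrrCharacter G} {δ : IrrCharacter G → ℤ} {ε : ℤ}
    (h : Blk p M e c t L Y θ δ ε) (hp2 : p ≠ 2) {s : G} (hs : orderOf s = 2) :
    ¬ mB c t (Nat.card (centralizer ({s} : Set G))) (sd δ L) ((θ :: L).map (iv · s)) = true := by
  rw [mB, Bool.or_eq_true, decide_eq_true_eq, not_or, not_lt]
  exact ⟨h.not_momBad_inv hp2 hs hG, h.mom_nonneg hp2 hs hG 3⟩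

theorem blk19 : ∃ L Y θ δ ε, Blk (G := G) 19 293760 9 1 2 L Y θ δ ε := by
  obtain ⟨M, e, c, t, L, Y, θ, δ, ε, h, hm⟩ := exists_blk' (G := G) (p := 19)
    (by rw [hG]; norm_num) (by rw [hG]; norm_num)
  have hc := h.c_eq
  have ht := h.t_eq
  rw [hG] at hc
  rcases h.enumF (not_comm hG) hG ord hm (fun _ _ => rfl) e19 with h1 | ⟨L, h, h1⟩ <;>
    simp only [Bool.and_eq_true, Bool.or_eq_true, beq_iff_eq, bne_iff_ne, hc, ht] at h1
  · obtain ⟨rfl, rfl⟩ := h1
    obtain rfl : c = 1 := by omega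
    obtain rfl : t = 2 := by omega
    exact ⟨L, Y, θ, δ, ε, h⟩
  rcases h1 with ⟨h1, h2⟩ | h1
  · obtain ⟨M', e', c', t', L', Y', θ', δ', ε', k⟩ := exists_blk (G := G) (p := 17)
      (by rw [hG]; norm_num) (by rw [hG]; norm_num)
    obtain ⟨χ, h3, h4⟩ := O24.exists_common h k (by omega)
    rw [noC, h.map_natAbs] at h2
    have h5 := List.all_eq_true.1 h2 _ (List.mem_map_of_mem h3)
    simp only [List.contains_eq_mem, List.mem_cons, List.not_mem_nil, Bool.not_eq_true',
      decide_eq_false_iff_not] at h5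
    rcases h4 with h4 | h4
    · have h6 := (k.modEq h4).eq
      rcases (k.val h4).1 with h7 | h7 <;> rw [h7] at h6 <;> omega
    · have h6 := k.modEq_Y.eq
      have h7 : e' ∈ Nat.divisors 16 := Nat.mem_divisors.2 ⟨⟨t', by
        have := k.card_eq; omega⟩, by norm_num⟩
      rw [show Nat.divisors 16 = {1, 2, 4, 8, 16} by decide] at h7
      simp only [Finset.mem_insert, Finset.mem_singleton] at h7
      rw [← (k.val_Y h4).1] at h6
      rcases k.sign with h8 | h8 <;> rw [h8] at h6 <;> omega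
  · obtain ⟨s, h3, h4⟩ := h.exists_inv (Nat.dvd_of_mod_eq_zero h1.1)
    exact absurd (h.colAllF (not_comm hG) (by norm_num) hG ord h3 (by
      simpa [Nat.mod_eq_zero_of_dvd h4, hG] using
        (h.col (not_comm hG) (by norm_num) h3 rfl).nonEmp) h1.2) (not_mB hG h (by norm_num) h3)

theorem no16 (hS : SelfC G 19 9) {L : List (IrrCharacter G)} {Y : Finset (IrrCharacter G)}
    {θ : IrrCharacter G} {δ : IrrCharacter G → ℤ} {ε : ℤ} (h : Blk 17 20520 16 9 1 L Y θ δ ε)
    (h1 : ((θ :: L).map deg).count 1920 = 1) : False := by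
  classical
  obtain ⟨χ, hχ, hd⟩ := List.mem_map.1 (List.count_pos_iff.1 (h1 ▸ one_pos))
  obtain ⟨σ, h2, h3, h4⟩ := h.val_one rfl hχ
  obtain rfl : σ = -1 := h2.resolve_left fun e => by rw [e, hd] at h3; exact absurd h3 (by decide)
  have h5 : deg (⟨_, χ.2.conj⟩ : IrrCharacter G) = deg χ := Nat.cast_injective (R := ℂ) (by
    rw [deg_cast, ← map_natCast conj, deg_cast])
  have h6 : χ = ⟨_, χ.2.conj⟩ := eq_of_count h5.symm (hd ▸ h1.le) hχ (by
    refine List.mem_cons.2 ((h.mem_of_val (σ := -1) (fun e => by rw [e, hd, deg_triv] at h5; omega)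
      (by norm_num) fun g hg => ?_).symm.imp_left fun h6 =>
        Finset.card_le_one.1 h.card_Y.le _ h6 _ h.mem)
    exact (congrArg conj (h4 g hg)).trans (map_intCast _ _))
  obtain ⟨x, hx⟩ := exists_prime_orderOf_dvd_card' (G := G) 17 (by rw [hG]; norm_num)
  have hc := h.card_centralizer hx
  obtain ⟨⟨y, h7⟩, hy, h8⟩ := exists_central_prime Nat.prime_three (hc ▸ (by norm_num : 3 ∣ 17 * 9))
  rw [orderOf_mk] at hy
  have h9 : Commute y x := mem_centralizer_singleton_iff.1 h7
  obtain ⟨a, ha, h10⟩ := exists_val_three hy χ (by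
    rw [χ.2.isCharacter.apply_inv]; exact (congrFun (congrArg Subtype.val h6) y).symm)
  have h11 := dvd_val_sub hx (by rw [hy]; norm_num) h9 χ ha h4
  obtain ⟨k, h12, h13⟩ := sylow_cnt hx h.not_sq (H := centralizer {y})
    (mem_centralizer_singleton_iff.2 h9.symm)
  have h14 := O24.rel_le (H := normalizer (zpowers x : Set G)) (t := y) (X := O24.cel x 3)
    fun g hg => ⟨by rw [← hy]; exact (MulAut.conj g).orderOf_eq y, by
      obtain ⟨i, hi⟩ := (mem_normalizer_iff.1 (inv_mem hg) x).1 (mem_zpowers x)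
      calc x * (g * y * g⁻¹) = g * (g⁻¹ * x * g⁻¹⁻¹ * y) * g⁻¹ := by group
        _ = g * (y * (g⁻¹ * x * g⁻¹⁻¹)) * g⁻¹ := by rw [← hi, (h9.zpow_right i).eq]
        _ = _ := by group⟩
  have h15 := O24.sum_cel_le hx (by norm_num) hc {1, 3} (by decide)
  rw [Finset.sum_pair (by norm_num), O24.cel_one] at h15
  have h16 := card_mul_index ((centralizer {y}).subgroupOf (normalizer (zpowers x : Set G)))
  rw [card_subgroupOf, inf_comm, h.card_norm hx, ← relIndex] at h16
  have h17 := card_mul_index (centralizer ({⟨y, h7⟩} : Set (centralizer ({x} : Set G))))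
  have h18 : Nat.card (centralizer ({⟨y, h7⟩} : Set (centralizer ({x} : Set G)))) ∣
      Nat.card (normalizer (zpowers x : Set G) ⊓ centralizer {y} : Subgroup G) := by
    rw [← card_map_of_injective (subtype_injective _)]
    refine card_dvd_of_le ?_
    rintro _ ⟨g, hg, rfl⟩
    exact ⟨centralizer_le_normalizer _ ((Block.PS.centralizer_zpowers x).ge g.2),
      mem_centralizer_singleton_iff.2 (congrArg Subtype.val (mem_centralizer_singleton_iff.1 hg))⟩
  have h19 : 9 ∣ Nat.card (normalizer (zpowers x : Set G) ⊓ centralizer {y} : Subgroup G) :=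
    (Nat.Coprime.dvd_of_dvd_mul_right (Nat.Coprime.pow_left 2
      (Nat.prime_three.coprime_iff_not_dvd.2 h8)) (by rw [h17, hc]; norm_num)).trans h18
  have h20 : 17 ∣ Nat.card (normalizer (zpowers x : Set G) ⊓ centralizer {y} : Subgroup G) :=
    hx ▸ Subgroup.orderOf_dvd_natCard _ ⟨le_normalizer (mem_zpowers x),
      mem_centralizer_singleton_iff.2 h9.symm⟩
  have h21 := sum_normSq_le {χ} y
  have h22 := abs_lt_dg (χ := χ) (hd.trans_ne (by norm_num)) (fun e => by simp [e] at hy) ha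
  obtain ⟨i, hi⟩ := div_gcd_dvd (deg_pos χ) (dg_dvd_index_mul χ ha)
  have h23 := hS.ne_zero hy (by norm_num) (by norm_num)
  have h24 := List.all_eq_true.1 y3 _ (ord.dvd _ (hG ▸ card_subgroup_dvd_card (centralizer {y})))
  rw [show 50232960 / Nat.card (centralizer ({y} : Set G)) = (centralizer ({y} : Set G)).index by
    rw [← hG, ← card_mul_index (centralizer ({y} : Set G)), Nat.mul_div_cancel_left _ Nat.card_pos]]
    at h24
  rw [Finset.sum_singleton, ha, Complex.norm_intCast, ← Int.cast_abs, Int.abs_eq_natAbs] at h21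
  rw [Int.abs_eq_natAbs, show dg χ = 1920 from hd] at h22
  rw [hd] at hi h10
  generalize Nat.card (normalizer (zpowers x : Set G) ⊓ centralizer {y} : Subgroup G) = j at *
  generalize (centralizer {y}).relIndex (normalizer (zpowers x : Set G)) = r at *
  simp only [Bool.or_eq_true, beq_iff_eq, h23, false_or, List.all_eq_true, bne_iff_ne,
    List.isEmpty_iff] at h24
  rcases h24 with h24 | h24
  · obtain ⟨j, rfl⟩ := h20
    have h25 : j ∈ [18, 36, 72, 144] := by
      have h25 : r ≤ 8 := by omega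
      simp only [List.mem_cons, List.not_mem_nil]
      interval_cases r <;> omega
    have h26 : 0 < 17 * j := Nat.pos_of_mul_pos_right (h12 ▸ Nat.card_pos)
    simpa [h12, Nat.mul_div_cancel_left _ h26, h13] using h24 j h25
  · refine List.not_mem_nil (h24 ▸ mem_optsAux (a := a) ?_ hi ((Nat.le_div_iff_mul_le (Nat.div_pos
      (Nat.le_of_dvd (by norm_num) (Nat.gcd_dvd_left _ _)) (Nat.gcd_pos_of_pos_left _
        (by norm_num)))).2 (by rw [mul_comm, ← hi]; omega)))
    simp only [Bool.and_eq_true, beq_iff_eq, decide_eq_true_eq]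
    exact ⟨⟨by omega, by omega⟩, by exact_mod_cast h21⟩

theorem blocks : ∃ L Y θ δ ε L' Y' θ' δ' ε', Blk (G := G) 17 369360 8 1 2 L Y θ δ ε ∧
    Blk (G := G) 19 293760 9 1 2 L' Y' θ' δ' ε' ∧ sd δ L ∈ T17 ∧ sd δ' L' ∈ T19 := by
  have hn := not_comm hG
  obtain ⟨L', Y', θ', δ', ε', j⟩ := blk19 hG
  have hS := j.selfC rfl (by norm_num)
  obtain ⟨M, e, c, t, L, Y, θ, δ, ε, k, hm⟩ := exists_blk' (G := G) (p := 17)
    (by rw [hG]; norm_num) (by rw [hG]; norm_num)
  have hc := k.c_eq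
  have ht := k.t_eq
  rw [hG] at hc
  obtain ⟨L, k, h1⟩ := (k.enumF hn hG ord hm (fun χ _ => hS.mod χ) e17).resolve_left
    (by simpa [hc] using k.c_ne hS (by norm_num))
  simp only [Bool.or_eq_true, Bool.and_eq_true, beq_iff_eq, List.contains_iff_mem,
    k.map_natAbs] at h1
  rcases h1 with (h1 | ⟨⟨rfl, rfl⟩, h1⟩) | ⟨⟨rfl, rfl⟩, h1⟩
  · exact absurd h1 (k.not_tauBad hS (by norm_num))
  · obtain rfl : c = 1 := by omega
    obtain rfl : t = 2 := by omega
    have hS' := k.selfC rfl (by norm_num)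
    obtain ⟨L', j, h2⟩ := (j.enumF hn hG ord (by simp) (fun χ _ => hS'.mod χ) e19').resolve_left
      (by simp)
    exact ⟨L, Y, θ, δ, ε, L', Y', θ', δ', ε', k, j, h1, by
      simpa [j.not_tauBad hS' (by norm_num)] using h2⟩
  · obtain rfl : c = 9 := by omega
    obtain rfl : t = 1 := by omega
    exact (no16 hG hS k h1).elim

omit [IsSimpleGroup G] in
theorem kill {L L' : List (IrrCharacter G)} {Y Y' : Finset (IrrCharacter G)}
    {θ θ' : IrrCharacter G} {δ δ' : IrrCharacter G → ℤ} {ε ε' : ℤ}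
    (k : Blk 17 369360 8 1 2 L Y θ δ ε) (j : Blk 19 293760 9 1 2 L' Y' θ' δ' ε')
    {M e c t : ℕ} {L5 : List (IrrCharacter G)} {Y5 : Finset (IrrCharacter G)} {θ5 : IrrCharacter G}
    {δ5 : IrrCharacter G → ℤ} {ε5 : ℤ} (i : Blk 5 M e c t L5 Y5 θ5 δ5 ε5) {K B d : ℕ} {σ : ℤ}
    (hK : 50232960 = K * (5 * c)) {χ : IrrCharacter G} (hd : deg χ = d) (h1 : d ≠ 1)
    (h2 : ¬ 17 ∣ d) (h3 : ∀ g, 5 ∣ orderOf g → (χ : G → ℂ) g = σ) {T : List (ℕ × ℤ)}
    (hA : vA K t (t * (5 * c)) B d (t * σ) T (sd δ L) = true)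
    (hB : vB K t (t * (5 * c)) B d T (sd δ' L') = true) : False := by
  obtain ⟨U, a, hv⟩ := i.exists_vals
  have h4 := i.card_group
  rw [hG] at h4
  rw [show M * e = K from Nat.eq_of_mul_eq_mul_right (Nat.pos_of_mul_pos_left
    (hK ▸ (by norm_num : 0 < 50232960))) (hK ▸ h4 ▸ by ring)] at hv
  have h5 : χ ≠ triv G := fun e => h1 (by rw [← hd, e, deg_triv])
  subst hd
  rw [vA, k.okD rfl h5, Bool.not_true, Bool.false_or] at hA
  rw [vB, j.okD rfl h5, Bool.not_true, Bool.false_or] at hB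
  obtain ⟨Z, h6, h7, h8⟩ := k.vS hv (by norm_num) (fun _ _ => rfl) hA hG
  simp only [← hv.val χ σ h3, h8 χ ((k.mem_of_not_dvd rfl h2).resolve_left h5), h7, Bool.not_true,
    Bool.false_or] at h6
  obtain ⟨Z', h9, h10, -⟩ := j.vS hv (by norm_num) (fun ψ hψ => Bool.or_eq_true_iff.2
    (or_iff_not_imp_left.2 fun h9 => inT_hasP h6 (h8 ψ ((k.mem_of_not_dvd rfl (by
      simpa [Nat.dvd_iff_mod_eq_zero] using h9)).resolve_left (j.ne_triv hψ))) (j.not_dvd_deg
        ((List.mem_cons.1 hψ).symm.imp_right fun e : ψ = θ' => e ▸ j.mem)))) hB hG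
  exact h10 h9

theorem cent : ∃ M L Y θ δ ε, Blk (G := G) 5 M 2 6 2 L Y θ δ ε ∧ ∀ s : G, orderOf s = 2 →
    ¬ 2 ∣ (centralizer ({s} : Set G)).index → Nat.card (centralizer ({s} : Set G)) = 1920 := by
  have hn := not_comm hG
  have := Fintype.ofFinite G
  obtain ⟨L, Y, θ, δ, ε, L', Y', θ', δ', ε', k, j, hk, hj⟩ := blocks hG
  have hS := j.selfC rfl (by norm_num)
  have hS' := k.selfC rfl (by norm_num)
  obtain ⟨M, e, c, t, L5, Y5, θ5, δ5, ε5, i, hm⟩ := exists_blk' (G := G) (p := 5)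
    (by rw [hG]; norm_num) (by rw [hG]; norm_num)
  have hc := i.c_eq
  have ht := i.t_eq
  rw [hG] at hc
  obtain ⟨L5, i, h1⟩ := (i.enumF hn hG ord hm (fun χ _ => by simp [hS.mod, hS'.mod]) e5).resolve_left
    (by simp [hc, i.c_ne hS, i.c_ne hS'])
  have hw : ∀ s : G, orderOf s = 2 → ¬ 2 ∣ (centralizer ({s} : Set G)).index →
      (Nat.card (centralizer ({s} : Set G)) % 128 == 0 &&
        Nat.card (centralizer ({s} : Set G)) % 17 != 0 &&
        Nat.card (centralizer ({s} : Set G)) % 19 != 0) = true := fun s hs h2 => by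
    simp only [Bool.and_eq_true, beq_iff_eq, bne_iff_ne]
    exact ⟨⟨Nat.mod_eq_zero_of_dvd (Nat.Coprime.dvd_of_dvd_mul_right (Nat.Coprime.pow_left 7
      (Nat.prime_two.coprime_iff_not_dvd.2 h2)) (by rw [card_mul_index, hG]; norm_num)),
      hS'.ne_zero hs (by norm_num) (by norm_num)⟩, hS.ne_zero hs (by norm_num) (by norm_num)⟩
  obtain ⟨z, hz, hz'⟩ := exists_central_inv (G := G) (by rw [hG]; norm_num)
  rw [hc, ht] at h1
  simp only [Bool.or_eq_true, i.not_tauBad hS (by norm_num), i.not_tauBad hS' (by norm_num),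
    Bool.false_eq_true, false_or] at h1
  rcases h1 with h1 | h1
  · exfalso
    simp only [fin5, Bool.or_eq_true, Bool.and_eq_true, beq_iff_eq, List.contains_iff_mem] at h1
    rcases h1 with ⟨rfl, h1⟩ | ⟨⟨rfl, rfl⟩, h1⟩
    · obtain rfl : t = 1 := by omega
      rcases h1 with (h1 | ⟨h1, h2⟩) | ⟨rfl, h2⟩
      · obtain ⟨χ, ψ, φ, rfl⟩ := List.length_eq_three.1 (show L5.length = 3 by
          simpa [sd] using congrArg List.length h1)
        have h2 := i.fs_rel (by norm_num)
        have h3 := fun η hη => i.fs_ne odd_one (i.val (χ := η) hη).1 (i.val hη).2.2.2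
        have h4 := @Blk.natAbs_sd _ _ _ _ _ _ _ _ _ _ _ _ i
        have h5 := @Blk.sign_sd _ _ _ _ _ _ _ _ _ _ _ _ i
        simp only [sd, List.map_cons, List.map_nil, List.cons.injEq, and_true, List.mem_cons,
          List.not_mem_nil, or_false, forall_eq_or_imp, forall_eq] at h1 h3 h4 h5
        rw [h1.1, h1.2.1, h1.2.2] at h4 h5
        rw [show Int.sign 76 = 1 from rfl, show Int.sign 816 = 1 from rfl] at h5
        have h6 : ∀ η : IrrCharacter G, 76 = deg η → fsInd (η : G → ℂ) ≠ -1 →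
            fsInd (η : G → ℂ) = 1 := fun η h6 h7 => ((η.2.fsInd_eq.resolve_left (k.fs_Y rfl
          (by norm_num) (by norm_num) (by omega) (by omega) (by omega))).resolve_right h7)
        obtain ⟨η, rfl⟩ := Finset.card_eq_one.1 i.card_Y
        simp only [List.map_cons, List.map_nil, List.sum_cons, List.sum_nil, ← h5.1, ← h5.2.1,
          ← h5.2.2, h6 χ h4.1 h3.1, h6 ψ h4.2.1 h3.2.1, Finset.sum_singleton] at h2
        rcases φ.2.fsInd_eq with h7 | h7 | h7 <;> rcases η.2.fsInd_eq with h8 | h8 | h8 <;>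
          rcases i.sign with h9 | h9 <;> first | exact h3.2.2 h7 | norm_num [h7, h8, h9] at h2
      · obtain ⟨χ, h3, h4⟩ := i.exists_of_mem rfl h2
        rcases h1 with rfl | rfl
        · have h5 := Bool.and_eq_true_iff.1 v108
          exact kill hG k j i (by norm_num) h3 (by norm_num) (by norm_num) h4
            (List.all_eq_true.1 h5.1 _ hk) (List.all_eq_true.1 h5.2 _ hj)
        · have h5 := Bool.and_eq_true_iff.1 v8
          exact kill hG k j i (by norm_num) h3 (by norm_num) (by norm_num) h4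
            (List.all_eq_true.1 h5.1 _ hk) (List.all_eq_true.1 h5.2 _ hj)
      · obtain ⟨χ, h3, h4⟩ := i.exists_of_mem rfl h2
        have h5 := Bool.and_eq_true_iff.1 v48
        exact kill hG k j i (by norm_num) h3 (by norm_num) (by norm_num) h4
          (List.all_eq_true.1 h5.1 _ hk) (List.all_eq_true.1 h5.2 _ hj)
    · obtain rfl : t = 2 := by omega
      obtain rfl : M = 52326 := by have := i.card_group; omega
      obtain ⟨χ, rfl⟩ := List.length_eq_one_iff.1 (show L5.length = 1 by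
        simpa [sd] using congrArg List.length h1)
      have h2 := i.natAbs_sd (.head _)
      have h3 := i.sign_sd (.head _)
      rw [show δ5 χ * deg χ = -324 by simpa [sd] using h1] at h2 h3
      have h5 := Bool.and_eq_true_iff.1 v96
      rcases Bool.or_eq_true_iff.1 (List.all_eq_true.1 h5.1 _ hk) with h6 | h6
      · have h7 := z96
        rw [beq_iff_eq] at h6
        rw [← h1, ← h6] at h7
        refine not_mB hG k (by norm_num) hz (k.colF hn (by norm_num) hG hz (fun ψ hψ => ?_)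
          (by rw [nrmW_true]; have := (k.col hn (by norm_num) hz rfl).nrm; omega)
          ((Bool.or_eq_true_iff.1 (i.colAllF hn (by norm_num) hG ord hz (hw z hz hz') h7)).resolve_left
            (not_mB hG i (by norm_num) hz)))
        simp only [Bool.or_eq_true, bne_iff_ne, beq_iff_eq]
        refine or_iff_not_imp_left.2 fun h9 => ?_
        rw [not_not] at h9
        rw [eq_of_count (f := deg) (l := θ :: L) (h9.trans h2) (by
          rw [← k.map_natAbs, h6, h9]; decide) hψ ?_]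
        · rfl
        rcases k.mem_of_not_dvd rfl (χ := χ) (by rw [← h2]; norm_num) with h10 | h10 | h10
        · exact absurd h10 (i.val (.head _)).2.1
        · exact .tail _ h10
        · have h11 := k.natAbs_eq
          rw [h6, ← (k.val_Y h10).1, ← h2] at h11
          exact absurd h11 (by decide)
      · exact kill hG k j i (d := 324) (σ := -1) (by norm_num) h2.symm (by norm_num) (by norm_num)
          (fun g hg => ((i.val (.head _)).2.2.2 g hg).trans (congrArg _ h3.symm)) h6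
          (List.all_eq_true.1 h5.2 _ hj)
  have h2 : ∀ s : G, orderOf s = 2 → ¬ 2 ∣ (centralizer ({s} : Set G)).index →
      (e = 2 ∧ c = 6) ∧ Nat.card (centralizer ({s} : Set G)) = 1920 := fun s hs h2 => by
    have h3 := i.colAllF hn (by norm_num) hG ord hs (by
      rw [hw s hs h2, Bool.true_and, Bool.or_eq_true, bne_iff_ne, bne_iff_ne, ← imp_iff_not_or]
      rintro rfl h3
      obtain ⟨⟨y, h4⟩, h5⟩ := exists_prime_orderOf_dvd_card' 5 (Nat.dvd_of_mod_eq_zero h3)
      have h6 := O7920.dvd_card_centralizer (mem_centralizer_singleton_iff.1 h4).symm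
      rw [hs, i.card_centralizer ((orderOf_mk y h4).symm.trans h5)] at h6
      omega) h1
    simp only [Bool.or_eq_true, not_mB hG i (by norm_num) hs, Bool.false_eq_true, false_or,
      Bool.and_eq_true,
      beq_iff_eq, qB, List.all_eq_true, bne_iff_ne] at h3
    refine h3.resolve_left ?_
    rintro ⟨rfl, rfl, h6⟩
    obtain rfl : t = 1 := by omega
    obtain ⟨m, h4, h5⟩ := i.qua_odd (by norm_num) (by decide) hs hG rfl
    refine h6 m ?_ h5
    rcases h4 with rfl | h4
    · simp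
    · simpa using .inr ((Nat.dvd_prime Nat.prime_three).1 h4)
  obtain ⟨⟨rfl, rfl⟩, -⟩ := h2 z hz hz'
  obtain rfl : t = 2 := by omega
  exact ⟨M, L5, Y5, θ5, δ5, ε5, i, fun s hs h3 => (h2 s hs h3).2⟩

end J3Ord

end Cfsg.Lib.Spor
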