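import Cfsg.Agent.Spor.RuR3
import Cfsg.Agent.Spor.RuR3E

/-!
# Rigidity of the neighbourhood of an edge of the Rudvalis graph
-/

set_option autoImplicit false

namespace Cfsg.Lib.Spor.Ru.Rk

open Cfsg.Lib.Known Cfsg.Lib.Known.PC R3 MulAction

theorem nb_eq (w : List ℕ) (i : ℕ) : nb w i = if ev w i < 1755 then 1 else 0 := by
  simp only [nb, brec_eq, Nat.blt_eq]

theorem adj_O {x : ℕ} (hx : x < 640) : ∀ y < 640, Adj a₀ s₀ (pt x) (pt y) ↔ bit (row x) y = 1 := by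
  refine desc (Q := fun x => ∀ y < 640, Adj a₀ s₀ (pt x) (pt y) ↔ bit (row x) y = 1) (A := (· < 640)) id
    (fun x hx => ?_) x hx
  rcases bor_iff.1 (nall_iff.1 c_rows x hx) with h | h
  · obtain rfl := Nat.eq_of_beq_eq_true h
    refine Or.inl fun y hy => ?_
    rw [Nat.eq_of_beq_eq_true (nall_iff.1 c_row0 y hy), nb_eq, adj_row [2, 3] (by decide +kernel)
      (by decide) (by omega)]
    simp
  obtain ⟨k, -, h⟩ := nany_spec h
  simp only [frc_eq, band_iff, Nat.blt_eq, Nat.beq_eq, nall_iff] at h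
  exact Or.inr ⟨_, h.1.trans hx, h.1, fun e y hy => by
    rw [(h.2 y hy).2, ← e _ (h.2 y hy).1, ← mv1 rfl (i := x) (by omega), ← mv1 rfl (i := y) (by omega),
      adj_smul]⟩

theorem beq_iff' {a b : Bool} : (a == b) = true ↔ (a = true ↔ b = true) := by cases a <;> cases b <;> simp

theorem c_s' {i : ℕ} (hi : i < 1755) : (tb 2 i < 1755 ↔ i < 730) ∧ (tb 2 i < 640 ↔ i < 640) := by
  simpa only [frc_eq, band_iff, beq_iff', Nat.blt_eq] using nall_iff.1 c_s i hi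

theorem adj_b {i : ℕ} (hi : i < 4060) : Adj a₀ s₀ b₀ (pt i) ↔ tb 2 i < 1755 :=
  adj_row [2] c_fx.2.2.2.2.2.1 (by decide) hi

theorem adj_a {i : ℕ} (hi : i < 4060) : Adj a₀ s₀ a₀ (pt i) ↔ i < 1755 :=
  adj_row [] rfl (by decide) hi

/-- The stabiliser of the edge. -/
def Eg : Subgroup GG where
  carrier := {h | h • a₀ = a₀ ∧ h • b₀ = b₀ ∨ h • a₀ = b₀ ∧ h • b₀ = a₀}
  one_mem' := Or.inl ⟨one_smul _ _, one_smul _ _⟩
  mul_mem' := by rintro g h (k | k) (j | j) <;> simp [mul_smul, k, j]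
  inv_mem' := by rintro g (k | k) <;> simp [inv_smul_eq_iff, k]

theorem Eg_dec {h : GG} (hh : h ∈ Eg) :
    ∃ p : P₀, ∃ t ∈ ({id, (s₀ • ·)} : Set (VV → VV)), ∀ x, h • x = p • t x := by
  rcases hh with k | k
  · exact ⟨⟨⟨h, k.1⟩, k.2⟩, _, Or.inl rfl, fun _ => rfl⟩
  · exact ⟨⟨⟨h * s₀⁻¹, by rw [mem_stabilizer_iff, mul_smul, inv_smul_eq_iff.2 s_b.symm, k.2]⟩, by
      show (h * s₀⁻¹) • b₀ = b₀
      rw [mul_smul, inv_smul_eq_iff.2 s_a.symm, k.1]⟩, _, Or.inr rfl, fun x => by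
        show _ = (h * s₀⁻¹) • s₀ • x
        rw [mul_smul, inv_smul_smul]⟩

theorem Eg_O {h : GG} (hh : h ∈ Eg) {x : VV} (hx : x ∈ O₀) : h • x ∈ O₀ := by
  obtain ⟨p, t, rfl | rfl, k⟩ := Eg_dec hh <;> rw [k] <;> refine mem_orbit_of_mem_orbit p ?_
  · exact hx
  · obtain ⟨i, hi, rfl⟩ := mem_O.1 hx
    exact mem_O.2 ⟨_, (c_s' (by omega)).2.2 hi, (mv1 rfl (by omega)).symm⟩

/-- An automorphism of the graph on the long orbit of common neighbours. -/
def Good (σ : VV → VV) : Prop := Set.MapsTo σ O₀ O₀ ∧ Set.InjOn σ O₀ ∧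
  ∀ x ∈ O₀, ∀ y ∈ O₀, Adj a₀ s₀ (σ x) (σ y) ↔ Adj a₀ s₀ x y

theorem Good.au {σ : VV → VV} (h : Good σ) : ∃ τ, Au 640 row τ ∧ ∀ i < 640, pt (τ i) = σ (pt i) := by
  have o : ∀ {i}, i < 640 → pt i ∈ O₀ := fun hi => mem_O.2 ⟨_, hi, rfl⟩
  choose! τ h1 h2 using fun i (hi : i < 640) => mem_O.1 (h.1 (o hi))
  refine ⟨τ, ⟨h1, fun x hx y hy e => pt_inj (by omega) (by omega) (h.2.1 (o hx) (o hy) (by
    rw [← h2 x hx, ← h2 y hy, e])), fun x hx y hy => ?_⟩, h2⟩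
  have := h.2.2 _ (o hx) _ (o hy)
  rw [← h2 x hx, ← h2 y hy, adj_O (h1 x hx) _ (h1 y hy), adj_O hx _ hy] at this
  have := bit_lt (row x) y
  have := bit_lt (row (τ x)) (τ y)
  omega

/-- The automorphisms fixing the listed points are induced by the edge stabiliser. -/
def Rig (l : List ℕ) : Prop := ∀ σ, Good σ → (∀ b ∈ l, σ (pt b) = pt b) → ∃ h ∈ Eg, ∀ x ∈ O₀, σ x = h • x

theorem Rig.step {l : List ℕ} {x : ℕ} (h : Rig (x :: l)) (k : ∀ σ, Good σ → (∀ b ∈ l, σ (pt b) = pt b) →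
    ∃ h ∈ Eg, (∀ b ∈ l, h • pt b = pt b) ∧ h • pt x = σ (pt x)) : Rig l := fun σ h1 h2 => by
  obtain ⟨g, k1, k2, k3⟩ := k σ h1 h2
  obtain ⟨g', k4, k5⟩ := h (fun y => g⁻¹ • σ y) ⟨fun y hy => Eg_O (Eg.inv_mem k1) (h1.1 hy),
    fun y hy z hz e => h1.2.1 hy hz (smul_left_cancel _ e),
    fun y hy z hz => (adj_smul _).trans (h1.2.2 y hy z hz)⟩ (List.forall_mem_cons.2
      ⟨inv_smul_eq_iff.2 k3.symm, fun b hb => inv_smul_eq_iff.2 ((h2 b hb).trans (k2 b hb).symm)⟩)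
  exact ⟨g * g', mul_mem k1 k4, fun y hy => by rw [mul_smul, ← k5 y hy, smul_inv_smul]⟩

theorem Rig.lev {l : List ℕ} {x : ℕ} (h : Rig (x :: l)) {prog : List (ℕ × ℕ × ℕ)} {hs : List (List ℕ)}
    (c : levChk l prog x hs = true) (hl : ∀ b ∈ l, b < 640) : Rig l := h.step fun σ h1 h2 => by
  obtain ⟨τ, k1, k2⟩ := h1.au
  obtain ⟨c1, c2⟩ := band_iff.1 c
  obtain ⟨k3, k4⟩ := k1.cell (fun b hb j => pt_inj ((k1.lt b j).trans (by decide)) (by omega)
    ((k2 b j).trans (h2 b hb))) c2 _ (.head _)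
  obtain ⟨w, k5, k6⟩ := lany_spec k4
  have := lall_iff.1 c1 w k5
  simp only [pairW, band_iff, bor_iff, lall_iff, Nat.beq_eq] at this k6
  exact ⟨el w, this.1.imp (fun e => ⟨mv w e.1, mv w e.2⟩) fun e => ⟨mv w e.1, mv w e.2⟩,
    fun b hb => mv w (this.2 b hb) ((hl b hb).trans (by decide)),
    (mv w k6 (k3.trans (by decide))).trans (k2 x k3)⟩

theorem rig : Rig [] := by
  refine Rig.step (x := 0) (Rig.lev (Rig.lev (fun σ h1 h2 => ⟨1, one_mem _, fun y hy => ?_⟩) c_lev1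
    (by decide)) c_lev0 (by decide)) fun σ h _ => ?_
  · obtain ⟨τ, k1, k2⟩ := h1.au
    obtain ⟨i, hi, rfl⟩ := mem_O.1 hy
    rw [one_smul, ← k2 i hi, k1.eq (fun b hb j => pt_inj ((k1.lt b j).trans (by decide)) (by omega)
      ((k2 b j).trans (h2 b hb))) c_fin c_fin' hi]
  · obtain ⟨p, hp⟩ := h.1 (mem_orbit_self _)
    exact ⟨p.1.1, Or.inl ⟨p.1.2, p.2⟩, by simp, hp⟩

theorem det {f : GG} (hf : ∀ z ∈ rZ1, f • pt z.1 = pt z.1) : f = 1 := by
  have key : ∀ l ⊆ rZ2 ++ rZ1, (∀ z ∈ l, f • pt z.1 = pt z.1) → ∀ i < 4060, ∀ j < 4060, pt j = f • pt i →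
      keyF (fun z => nb z.2) l j = keyF (fun z => nb z.2) l i := fun l h1 h2 i hi j hj e =>
    keyF_congr fun z hz => by
      have := lall_iff.1 c_z z (h1 hz)
      simp only [band_iff, Nat.blt_eq, Nat.beq_eq] at this
      rw [nb_eq, nb_eq]
      refine if_congr ?_ rfl rfl
      rw [← adj_row _ this.2 this.1 hi, ← adj_row _ this.2 this.1 hj, e,
        ← adj_smul (x := pt z.1) (y := pt i) f, h2 z hz]
  have k2 : ∀ z ∈ rZ2 ++ rZ1, f • pt z.1 = pt z.1 := fun z hz => (List.mem_append.1 hz).elim (fun h => by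
    obtain ⟨e, k1, k2⟩ := lany_spec (lall_iff.1 c_z3 z h)
    have hz : z.1 < 4060 := Nat.blt_eq.mp (band_iff.1 (lall_iff.1 c_z z hz)).1
    obtain ⟨j, hj, k3⟩ := smul_pt f hz
    have a := fun i hi => lall_iff.1 ((frc_eq _ _).symm.trans (nall_iff.1 c_z1 i hi)) e k1
    simp only [beq_iff', Nat.beq_eq] at a k2
    rw [← k3, (a j hj).1 ((key _ (List.subset_append_right _ _) hf _ hz j hj k3).trans
      ((a _ hz).2 k2.symm)), k2]) (hf z)
  have := GG_main.1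
  have n : f ∈ (F₀).normalCore := fun g => by
    obtain ⟨i, hi, e⟩ := smul_pt g⁻¹ (i := 4059) (by decide)
    obtain ⟨j, hj, k⟩ := smul_pt f hi
    rw [mem_stabilizer_iff, mul_smul, mul_smul, ← e, ← k,
      inj_of_distinct c_z2 hj hi (key _ (fun _ h => h) k2 i hi j hj k), e, smul_inv_smul]
  rcases (Subgroup.normalCore_normal F₀).eq_bot_or_eq_top with h | h
  · rwa [h] at n
  · exact absurd (pt_inj (by decide) (by decide) (s_a.symm.trans
      ((F₀).normalCore_le (h.ge trivial)))) (by decide)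

theorem card_orbit_sub {G X : Type*} [Group G] [MulAction G X] (H : Subgroup G) (y : X) :
    (orbit H y).ncard = (stabilizer G y).relIndex H := (index_stabilizer H y).symm

theorem mem_ten {x : VV} (hx : x ∈ orbit P₀ (pt 720)) : ∃ i, 720 ≤ i ∧ i < 730 ∧ pt i = x :=
  let ⟨i, _, h2, h3⟩ := ((orbP_spec (by decide)).1 _).1 hx
  have h2 : root i = 720 := h2
  ⟨i, by unfold root at h2; split_ifs at h2 <;> omega, by unfold root at h2; split_ifs at h2 <;> omega, h3⟩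

theorem clique {P : Subgroup F₀} (C : ∀ y ∈ orbit P b₀, y ≠ b₀ → y ∈ orbit P₀ (pt 720)) :
    (orbit P b₀).ncard ≤ 3 := by
  by_contra! o5
  obtain ⟨y, hy, hn⟩ := Set.exists_ne_of_one_lt_ncard (by omega : 1 < (orbit P b₀).ncard) b₀
  obtain ⟨p, hp⟩ := C y hy hn
  obtain ⟨q, hq⟩ := hy
  dsimp only at hp hq
  have : orbit P b₀ ⊆ {b₀, y, p • pt 728} := fun z hz => by
    by_contra hc
    simp only [Set.mem_insert_iff, Set.mem_singleton_iff, not_or] at hc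
    obtain ⟨j, j1, j2, j3⟩ := mem_ten (mem_orbit_of_mem_orbit p⁻¹ (C z hz hc.1))
    obtain ⟨u, hu⟩ : ∃ u : F₀, ∀ x : VV, u • x = el [5, 1, 1] • x := ⟨⟨_, mv _ c_u.1⟩, fun _ => rfl⟩
    have hr : (u * p.1⁻¹ * q.1) • b₀ = b₀ := by
      rw [mul_smul, mul_smul, show q.1 • b₀ = p.1 • pt 720 from hq.trans hp.symm, inv_smul_smul, hu]
      exact mv _ c_u.2.1
    obtain ⟨k, k1, k2, k3⟩ := mem_ten (mem_orbit_of_mem_orbit (⟨_, hr⟩ : P₀) (C _
      (mem_orbit_of_mem_orbit q⁻¹ hz) fun e => hc.2.1 ((inv_smul_eq_iff.1 e).trans hq)))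
    have k4 : (u * p.1⁻¹ * q.1) • q.1⁻¹ • z = u • p.1⁻¹ • z := by simp only [mul_smul, smul_inv_smul]
    obtain rfl : k = ev [5, 1, 1] j := pt_inj (by omega) (el_tb _ _ (by omega)).1 (by
      rw [k3, ← mv _ rfl (i := j) (by omega), j3, ← hu]; exact k4)
    exact hc.2.2 (by rw [← c_u.2.2 j j2 j1 k1 k2, j3, smul_inv_smul])
  have := (Set.ncard_le_ncard this).trans ((Set.ncard_insert_le _ _).trans
    (Nat.succ_le_succ (Set.ncard_insert_le _ _)))
  rw [Set.ncard_singleton] at this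
  omega

theorem eq_P {P U : Subgroup F₀} (hP : P.index = 1755) (hU : U.index = 8775) (h1 : U ≤ P) (h2 : U ≤ P₀) :
    P = P₀ := by
  have a1 := Subgroup.relIndex_mul_index (inf_le_left : P ⊓ P₀ ≤ P)
  have a2 := Subgroup.relIndex_mul_index (inf_le_right : P ⊓ P₀ ≤ P₀)
  have a3 := Subgroup.index_dvd_of_le (le_inf h1 h2)
  rw [hU, ← a1, hP] at a3
  rw [← a1, hP, index_P, Subgroup.inf_relIndex_left, Subgroup.inf_relIndex_right] at a2
  rw [Subgroup.inf_relIndex_left] at a3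
  rcases (Nat.dvd_prime Nat.prime_five).1 (Nat.dvd_of_mul_dvd_mul_right (by decide : 0 < 1755) a3) with h | h
  · exact le_antisymm (Subgroup.relIndex_eq_one.1 h) (Subgroup.relIndex_eq_one.1 (by omega))
  have o5 := (card_orbit_sub P b₀).trans h
  refine absurd (clique (P := P) fun y hy hn => ?_) (by omega)
  obtain ⟨i, hi, rfl⟩ := mem_orbF.1 (show y ∈ orbit F₀ b₀ from let ⟨p, e⟩ := hy; ⟨p, e⟩)
  have hi : i < 1754 := lt_of_le_of_ne (by omega) fun e => hn (e ▸ rfl)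
  have b1 := (orbP_spec hi).2
  have b2 := Subgroup.relIndex_inf_mul_relIndex (stabilizer F₀ (pt i)) P P₀
  have b3 := Subgroup.relIndex_le_of_le_left (inf_le_left : stabilizer F₀ (pt i) ⊓ P ≤ _) (L := P₀)
    Subgroup.index_ne_zero_of_finite
  have b4 : (orbit ↥(P ⊓ P₀) (pt i)).ncard ≤ 5 := o5 ▸ Set.ncard_le_ncard (by
    rintro _ ⟨q, rfl⟩; exact mem_orbit_of_mem_orbit (⟨q, q.2.1⟩ : P) hy) (Set.finite_range _)
  rw [card_orbit_sub] at b1 b4
  rw [← b2, b1, show P.relIndex P₀ = 5 by omega] at b3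
  exact ((orbP_spec (by decide)).1 _).2 ⟨i, hi, show _ = 720 by unfold root; split_ifs at * <;> omega, rfl⟩

theorem conj_P {P : Subgroup F₀} (hP : P.index = 1755) :
    ∃ f : F₀, ∀ g : F₀, g • b₀ = b₀ ↔ f * g * f⁻¹ ∈ P := by
  have c := P.index_mul_card
  rw [hP, card_F] at c
  obtain ⟨U, hU⟩ := Sylow.exists_subgroup_card_pow_prime 2 (G := P) (n := 12) (by omega)
  obtain ⟨⟨_, f, rfl⟩, hx⟩ := ((IsPGroup.of_card hU).nonempty_fixed_point_of_prime_not_dvd_card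
    (orbit F₀ b₀) (by rw [Nat.card_coe_set_eq, ← index_stabilizer, index_P]; decide))
  have c' := (U.map P.subtype).index_mul_card
  rw [Subgroup.card_map_of_injective P.subtype_injective, hU, card_F] at c'
  have := eq_P (P := P.comap (MulAut.conj f).toMonoidHom) (U := (U.map P.subtype).comap (MulAut.conj f).toMonoidHom)
    (((P.index_comap_of_surjective (MulAut.conj f).surjective)).trans hP)
    ((Subgroup.index_comap_of_surjective _ (MulAut.conj f).surjective).trans (by omega))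
    (Subgroup.comap_mono (Subgroup.map_subtype_le U)) (by
      rintro g ⟨u, hu, e⟩
      have : u.1 • f • b₀ = f • b₀ := congrArg Subtype.val (hx ⟨u, hu⟩)
      rw [show u.1 = f * g * f⁻¹ from e] at this
      simpa [mul_smul] using this)
  exact ⟨f, fun g => (SetLike.ext_iff.1 this g).symm⟩

end Cfsg.Lib.Spor.Ru.Rk
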